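import Mathlib

/-! The 3-closure of a solvable permutation group: definitions. -/

set_option autoImplicit false

namespace CF.C3c

open Subgroup

universe u

/-- The statement for all sets with fewer than `n` points. -/
def PP (n : ℕ) : Prop :=
  ∀ (Ω X Y : Type u) [Finite Ω] [Group X] [Group Y] [MulAction X Ω] [MulAction Y Ω],
    Nat.card Ω < n → Group.IsSolvable Y → Group.IsPerfect X →
    (∀ (x : X) (a b c : Ω), ∃ y : Y, y • a = x • a ∧ y • b = x • b ∧ y • c = x • c) →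
    ∀ (x : X) (a : Ω), x • a = a

/-- `f` preserves `D` and the fibres of `π` on `D`. -/
def Good {S L : Type*} (D : Set S) (π : S → L) (f : S → S) : Prop :=
  ∀ a ∈ D, f a ∈ D ∧ ∀ b ∈ D, π a = π b → π (f a) = π (f b)

/-- The additive automorphisms. -/
abbrev Gm (V : Type u) [AddCommGroup V] : Type u := (AddMonoid.End V)ˣ

section Add

variable {V : Type u} [AddCommGroup V]

instance finEnd [Finite V] : Finite (AddMonoid.End V) :=
  Finite.of_injective (fun f : AddMonoid.End V => (f : V → V)) DFunLike.coe_injective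

theorem gm_smul (g : Gm V) (v : V) : g • v = (g : AddMonoid.End V) v := rfl

theorem gm_ext {a b : Gm V} (h : ∀ v : V, a • v = b • v) : a = b :=
  Units.ext (AddMonoidHom.ext h)

/-- Irreducible on the additive group. -/
def Irr (G : Subgroup (Gm V)) : Prop :=
  ∀ W : AddSubgroup V, (∀ g ∈ G, ∀ w ∈ W, g • w ∈ W) → W = ⊥ ∨ W = ⊤

/-- The map `x` agrees on every triple with an affine map whose linear part is in `G`. -/
def Af3 (G : Subgroup (Gm V)) (x : V → V) : Prop :=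
  ∀ a b c : V, ∃ t : V, ∃ g ∈ G, x a = t + g • a ∧ x b = t + g • b ∧ x c = t + g • c

/-- The closure on pairs of vectors. -/
def cl2 (G : Subgroup (Gm V)) : Subgroup (Gm V) where
  carrier := {h | ∀ v w : V, ∃ g ∈ G, g • v = h • v ∧ g • w = h • w}
  one_mem' _ _ := ⟨1, G.one_mem, rfl, rfl⟩
  mul_mem' {a b} ha hb v w := by
    obtain ⟨g, hg, h1, h2⟩ := hb v w
    obtain ⟨k, hk, h3, h4⟩ := ha (b • v) (b • w)
    exact ⟨k * g, G.mul_mem hk hg, by rw [mul_smul, mul_smul, h1, h3],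
      by rw [mul_smul, mul_smul, h2, h4]⟩
  inv_mem' {a} ha v w := by
    obtain ⟨g, hg, h1, h2⟩ := ha (a⁻¹ • v) (a⁻¹ • w)
    rw [smul_inv_smul] at h1 h2
    exact ⟨g⁻¹, G.inv_mem hg, by rw [inv_smul_eq_iff, h1], by rw [inv_smul_eq_iff, h2]⟩

theorem mem_cl2 {G : Subgroup (Gm V)} {h : Gm V} :
    h ∈ cl2 G ↔ ∀ v w : V, ∃ g ∈ G, g • v = h • v ∧ g • w = h • w := Iff.rfl

theorem le_cl2 (G : Subgroup (Gm V)) : G ≤ cl2 G := fun g hg _ _ => ⟨g, hg, rfl, rfl⟩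

/-- `G` permutes the summands of a proper direct decomposition. -/
def Dec (G : Subgroup (Gm V)) : Prop :=
  ∃ P : Finset (AddMonoid.End V), (∀ p ∈ P, p * p = p ∧ p ≠ 0 ∧ p ≠ 1) ∧
    (∀ p ∈ P, ∀ q ∈ P, p ≠ q → p * q = 0) ∧ ∑ p ∈ P, p = 1 ∧
    ∀ g ∈ G, ∀ p ∈ P, (g : AddMonoid.End V) * p * (g⁻¹ : Gm V) ∈ P

/-- The elements of the closure that move each vector inside its `E`-orbit. -/
def Nv (G E : Subgroup (Gm V)) : Subgroup (Gm V) where
  carrier := {y | y ∈ cl2 G ∧ ∀ v : V, ∃ e ∈ E, y • v = e • v}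
  one_mem' := ⟨one_mem _, fun _ => ⟨1, E.one_mem, rfl⟩⟩
  mul_mem' {a b} ha hb := ⟨mul_mem ha.1 hb.1, fun v => by
    obtain ⟨e, he, h1⟩ := hb.2 v
    obtain ⟨f, hf, h2⟩ := ha.2 (b • v)
    exact ⟨f * e, E.mul_mem hf he, by rw [mul_smul, mul_smul, h2, h1]⟩⟩
  inv_mem' {a} ha := ⟨inv_mem ha.1, fun v => by
    obtain ⟨e, he, h1⟩ := ha.2 (a⁻¹ • v)
    rw [smul_inv_smul] at h1
    exact ⟨e⁻¹, E.inv_mem he, by rw [eq_comm, inv_smul_eq_iff, ← h1]⟩⟩

theorem mem_Nv {G E : Subgroup (Gm V)} {y : Gm V} :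
    y ∈ Nv G E ↔ y ∈ cl2 G ∧ ∀ v : V, ∃ e ∈ E, y • v = e • v := Iff.rfl

/-- The commutator `t a t⁻¹ a⁻¹`. -/
def cm (t a : Gm V) : Gm V := t * a * t⁻¹ * a⁻¹

/-- A symplectic space over the field with two elements, of order 16, or of order 64 with a marked
set of 27 nonzero vectors. -/
structure SP (B : V → V → ZMod 2) (Sg : Set V) : Prop where
  two : ∀ a : V, a + a = 0
  add : ∀ a b c, B (a + b) c = B a c + B b c
  symm : ∀ a b, B a b = B b a
  alt : ∀ a, B a a = 0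
  nd : ∀ a, (∀ b, B a b = 0) → a = 0
  card : Nat.card V = 16 ∨ (Nat.card V = 64 ∧ Sg.ncard = 27 ∧ (0 : V) ∉ Sg)

/-- `g` preserves the form and the marked set. -/
def Pres (B : V → V → ZMod 2) (Sg : Set V) (g : Gm V) : Prop :=
  (∀ a b, B (g • a) (g • b) = B a b) ∧ ∀ a ∈ Sg, g • a ∈ Sg

end Add

/-- The affine problem of degree `n`. -/
def AP (n : ℕ) : Prop :=
  ∀ (V X : Type u) [AddCommGroup V] [Finite V] [Nontrivial V] [Group X] [MulAction X V]
    (G : Subgroup (Gm V)), Nat.card V ≤ n → Group.IsSolvable G → Irr G → Group.IsPerfect X →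
    (∀ x : X, Af3 G (fun v => x • v)) → ∀ (x : X) (v : V), x • v = v

section Fld

variable (F : Type u) {V : Type u} [Field F] [AddCommGroup V] [Module F V]

variable (V) in
/-- Scalars. -/
def sc : Fˣ →* Gm V := (DistribMulAction.toAddMonoidEnd Fˣ V).toHomUnits

variable (V) in
/-- The group of scalars. -/
def Zs : Subgroup (Gm V) := (sc F V).range

variable (V) in
/-- The linear automorphisms. -/
def Ln : Subgroup (Gm V) where
  carrier := {g | ∀ (a : F) (v : V), g • a • v = a • g • v}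
  one_mem' _ _ := by rw [one_smul, one_smul]
  mul_mem' {g k} hg hk a v := by rw [mul_smul, mul_smul, hk, hg]
  inv_mem' {g} hg a v := by rw [inv_smul_eq_iff, hg, smul_inv_smul]

/-- The common normaliser of `E` and the scalars. -/
def NN (E : Subgroup (Gm V)) : Subgroup (Gm V) :=
  normalizer (E : Set (Gm V)) ⊓ normalizer (Zs F V : Set (Gm V))

/-- `v` is zero or an eigenvector of `e`. -/
def Ev (e : Gm V) (v : V) : Prop := ∃ a : F, e • v = a • v

/-- `e` has an eigenvector. -/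
def Spl (e : Gm V) : Prop := ∃ v : V, v ≠ 0 ∧ Ev F e v

open Classical in
/-- The commutator scalar. -/
noncomputable def bt (a b : Gm V) : Fˣ :=
  if h : ∃ μ : Fˣ, a * b = sc F V μ * (b * a) then h.choose else 1

/-- `e` lies in the group generated by `x` and the scalars. -/
def In1 (x e : Gm V) : Prop := ∃ (μ : Fˣ) (k : ℕ), e = sc F V μ * x ^ k

/-- `e` lies in the group generated by `x`, `y` and the scalars. -/
def In2 (x y e : Gm V) : Prop := ∃ (μ : Fˣ) (k l : ℕ), e = sc F V μ * x ^ k * y ^ l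

/-- The field case. -/
structure Fl (G : Subgroup (Gm V)) : Prop where
  nt : Nontrivial V
  sol : Group.IsSolvable G
  irr : Irr G
  mx : ∀ K : Subgroup (Gm V), Group.IsSolvable K → G ≤ K → K ≤ G
  zle : Zs F V ≤ G
  nz : G ≤ normalizer (Zs F V : Set (Gm V))
  mab : ∀ A : Subgroup (Gm V), Zs F V ≤ A → A ≤ G → G ≤ normalizer (A : Set (Gm V)) →
    (∀ a ∈ A, ∀ b ∈ A, a * b = b * a) → A ≤ Zs F V

/-- A group of symplectic type over the scalars. -/
structure Val (E : Subgroup (Gm V)) (r : ℕ) : Prop where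
  pr : r.Prime
  zle : Zs F V ≤ E
  lin : E ≤ Ln F V
  ne : ¬ E ≤ Zs F V
  comm : ∀ a ∈ E, ∀ b ∈ E, a * b * a⁻¹ * b⁻¹ ∈ Zs F V
  pow : ∀ a ∈ E, a ^ r ∈ Zs F V
  nd : ∀ a ∈ E, (∀ b ∈ E, a * b = b * a) → a ∈ Zs F V

/-- Enough elements with eigenvectors. -/
def Ok (E : Subgroup (Gm V)) (r : ℕ) : Prop :=
  (∀ a ∈ E, Spl F a) ∨
    (r = 2 ∧ ¬ IsSquare (-1 : F) ∧ closure {a | a ∈ E ∧ Spl F a} = E)

/-- `v` is generic for `x`. -/
def Gen (E : Subgroup (Gm V)) (x : Gm V) (v : V) : Prop :=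
  v ≠ 0 ∧ Ev F x v ∧ ∀ e ∈ E, Ev F e v → In1 F x e

/-- The pair `a, b` is pinned, up to a common sign, by a pair of vectors. -/
def Pin (E : Subgroup (Gm V)) (a b : Gm V) : Prop :=
  ∃ v w : V, ∀ t ∈ NN F E, t • v = v → t • w = w →
    (t * a * t⁻¹ * a⁻¹ ∈ Zs F V ∧ t * b * t⁻¹ * b⁻¹ ∈ Zs F V) ∨
      (t * a * t⁻¹ * a ∈ Zs F V ∧ t * b * t⁻¹ * b ∈ Zs F V)

/-- The exceptional configuration. -/
structure Exc (E : Subgroup (Gm V)) (x y : Gm V) : Prop where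
  hx : x ∈ E
  hy : y ∈ E
  sx : Spl F x
  sy : Spl F y
  nx : x ∉ Zs F V
  ny : ¬ In1 F x y
  xy : bt F x y = 1
  mx : ∀ e ∈ E, bt F x e = 1 → bt F y e = 1 → Spl F e → In2 F x y e

/-- `U` is the quotient of `E` by the scalars, with the action of the normaliser. -/
structure UQ (E : Subgroup (Gm V)) {U : Type u} [AddCommGroup U] (q : Gm V → U)
    (ρ : NN F E →* Gm U) : Prop where
  add : ∀ a ∈ E, ∀ b ∈ E, q (a * b) = q a + q b
  zero : ∀ a ∈ E, q a = 0 ↔ a ∈ Zs F V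
  surj : ∀ u, ∃ a ∈ E, q a = u
  act : ∀ t : NN F E, ∀ a ∈ E, ρ t • q a = q (t * a * (t : Gm V)⁻¹)
  card : Nat.card U = (Zs F V).relIndex E

variable {F}

theorem sc_smul (μ : Fˣ) (v : V) : sc F V μ • v = (μ : F) • v := rfl

theorem sc_mem (μ : Fˣ) : sc F V μ ∈ Zs F V := ⟨μ, rfl⟩

theorem mem_Zs {g : Gm V} : g ∈ Zs F V ↔ ∃ μ : Fˣ, sc F V μ = g := Iff.rfl

theorem mem_Ln {g : Gm V} : g ∈ Ln F V ↔ ∀ (a : F) (v : V), g • a • v = a • g • v := Iff.rfl

theorem mem_NN {E : Subgroup (Gm V)} {t : Gm V} :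
    t ∈ NN F E ↔ t ∈ normalizer (E : Set (Gm V)) ∧ t ∈ normalizer (Zs F V : Set (Gm V)) := Iff.rfl

theorem Zs_le_Ln : Zs F V ≤ Ln F V := by
  rintro _ ⟨μ, rfl⟩ a v
  rw [sc_smul, sc_smul, smul_comm]

theorem sc_comm {g : Gm V} (hg : g ∈ Ln F V) (μ : Fˣ) : g * sc F V μ = sc F V μ * g :=
  gm_ext fun v => by rw [mul_smul, mul_smul, sc_smul, sc_smul, hg]

theorem sc_inj [Nontrivial V] : Function.Injective (sc F V) := by
  intro μ ν h
  obtain ⟨v, hv⟩ := exists_ne (0 : V)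
  have h1 : (μ : F) • v = (ν : F) • v := by rw [← sc_smul, h, sc_smul]
  exact Units.ext (smul_left_injective F hv h1)

theorem NN.conj {E : Subgroup (Gm V)} {t a : Gm V} (ht : t ∈ NN F E) (ha : a ∈ E) :
    t * a * t⁻¹ ∈ E := (ht.1 a).1 ha

theorem NN.conjZ {E : Subgroup (Gm V)} {t a : Gm V} (ht : t ∈ NN F E) (ha : a ∈ Zs F V) :
    t * a * t⁻¹ ∈ Zs F V := (ht.2 a).1 ha

end Fld

end CF.C3c
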