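import Cfsg.Agent.C3c.S

/-! Reduction to the affine problem. -/

set_option autoImplicit false

namespace CF.C3c

open Subgroup

universe u

namespace B

theorem ex_ab (H : Type*) [Group H] [h : Group.IsSolvable H] [Nontrivial H] :
    ∃ A : Subgroup H, A.Normal ∧ A ≠ ⊥ ∧ ∀ a ∈ A, ∀ b ∈ A, a * b = b * a := by
  classical
  obtain ⟨m, hm⟩ := Nat.exists_eq_succ_of_ne_zero (n := Nat.find h.solvable) fun e => by
    have := Nat.find_spec h.solvable
    rw [e] at this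
    exact top_ne_bot this
  have := Nat.find_spec h.solvable
  rw [hm, derivedSeries_succ, commutator_eq_bot_iff_le_centralizer] at this
  exact ⟨_, derivedSeries_normal H m, Nat.find_min h.solvable (by omega),
    fun a ha b hb => mem_centralizer_iff.1 (this hb) a ha⟩

variable {n : ℕ} {Ω X : Type u} [Finite Ω] [Group X] [MulAction X Ω] [Group.IsPerfect X]
  {G : Subgroup (Equiv.Perm Ω)} [Group.IsSolvable G]

/-- the imprimitive case -/
theorem imp (hP : PP.{u} n) (hn : Nat.card Ω ≤ n)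
    (ha : ∀ (x : X) (a b c : Ω), ∃ g : G, g • a = x • a ∧ g • b = x • b ∧ g • c = x • c) (r : Setoid Ω)
    (hr : ∀ g ∈ G, ∀ a b, r a b → r (g a) (g b)) (h1 : ∃ a b, a ≠ b ∧ r a b) (h2 : ∃ a b, ¬ r a b) (x : X) (a : Ω) :
    x • a = a := by
  have hx : ∀ (x : X) a b, r a b → r (x • a) (x • b) := fun x a b k => by
    obtain ⟨g, e1, e2, -⟩ := ha x a b b
    exact e1 ▸ e2 ▸ hr g g.2 a b k
  have k : ∀ (x : X) a, r (x • a) a := fun x a => Quotient.exact (sec (Y := G) hP Set.univ (Quotient.mk r)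
    (((Set.ncard_image_le (Set.toFinite _)).lt_of_ne fun e => by
      obtain ⟨a, b, ne, k⟩ := h1
      exact ne (Set.injOn_of_ncard_image_eq e (Set.toFinite _) trivial trivial (Quotient.sound k))).trans_le
        (by rwa [Set.ncard_univ]))
    (fun x a _ => ⟨trivial, fun b _ e => Quotient.sound (hx x a b (Quotient.exact e))⟩)
    (fun x a _ b _ c _ => by
      obtain ⟨g, e1, e2, e3⟩ := ha x a b c
      exact ⟨g, fun a _ => ⟨trivial, fun b _ e => Quotient.sound (hr g g.2 a b (Quotient.exact e))⟩,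
        congrArg _ e1, congrArg _ e2, congrArg _ e3⟩) x a trivial)
  refine sec (Y := G) hP {b | r b a} id ?_ (fun x b hb => ⟨r.trans (k x b) hb, fun _ _ e => congrArg (x • ·) e⟩)
    (fun x b hb c _ d _ => ?_) x a (r.refl a)
  · rw [Set.image_id]
    refine (Set.ncard_lt_ncard (t := Set.univ) (Set.ssubset_univ_iff.2 fun e => ?_) (Set.toFinite _)).trans_le
      (by rwa [Set.ncard_univ])
    obtain ⟨b, c, k⟩ := h2
    exact k (r.trans (e.ge trivial : r b a) (r.symm (e.ge trivial : r c a)))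
  · obtain ⟨g, e1, e2, e3⟩ := ha x b c d
    refine ⟨g, fun s hs => ⟨r.trans (hr g g.2 s b (r.trans hs (r.symm hb))) ?_, fun _ _ e => congrArg (g • ·) e⟩,
      e1, e2, e3⟩
    exact (show g.1 b = x • b from e1) ▸ r.trans (k x b) hb

/-- the affine case -/
theorem aff [AddCommGroup Ω] [Nontrivial Ω] (hA : AP.{u} n) (hn : Nat.card Ω ≤ n)
    (ha : ∀ (x : X) (a b c : Ω), ∃ g : G, g • a = x • a ∧ g • b = x • b ∧ g • c = x • c)
    (pr : ∀ r : Setoid Ω, (∀ g ∈ G, ∀ a b, r a b → r (g a) (g b)) → (∀ a b, r a b → a = b) ∨ ∀ a b, r a b)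
    (tr : ∀ t, Equiv.addLeft t ∈ G) (ad : ∀ g ∈ G, g 0 = 0 → ∀ a b, g (a + b) = g a + g b) (x : X) (a : Ω) :
    x • a = a := by
  let φ := MulAction.toPermHom (Gm Ω) Ω
  have dec : ∀ g ∈ G, ∃ γ ∈ G.comap φ, ∀ v, g v = g 0 + γ • v := fun g hg => by
    have m := mul_mem (tr (-g 0)) hg
    have z : (Equiv.addLeft (-g 0) * g) 0 = 0 := neg_add_cancel _
    have z' : (Equiv.addLeft (-g 0) * g)⁻¹ 0 = 0 := by rw [Equiv.Perm.inv_eq_iff_eq, z]
    refine ⟨⟨AddMonoidHom.mk' _ (ad _ m z), AddMonoidHom.mk' _ (ad _ (inv_mem m) z'),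
      AddMonoidHom.ext fun v => (Equiv.addLeft (-g 0) * g).apply_symm_apply v,
      AddMonoidHom.ext fun v => (Equiv.addLeft (-g 0) * g).symm_apply_apply v⟩,
      ?_, fun v => (add_neg_cancel_left _ _).symm⟩
    rw [mem_comap]
    convert m using 1
    exact Equiv.ext fun _ => rfl
  refine hA Ω X (G.comap φ) hn (Group.isSolvable_of_isSolvable_injective (f := φ.subgroupComap G) fun a b e =>
    Subtype.ext (gm_ext fun v => congrArg (fun g : G => g.1 v) e)) (fun W hW => ?_) inferInstance (fun x a b c => ?_) x a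
  · refine (pr (QuotientAddGroup.leftRel W) fun g hg a b k => ?_).imp (fun k => eq_bot_iff.2 fun w hw => ?_)
      fun k => eq_top_iff.2 fun w _ => ?_
    · obtain ⟨γ, hγ, e⟩ := dec g hg
      rw [QuotientAddGroup.leftRel_apply] at k ⊢
      have := hW γ hγ _ k
      rwa [smul_add, smul_neg, show -(γ • a) + γ • b = -(g 0 + γ • a) + (g 0 + γ • b) by abel, ← e, ← e] at this
    · exact (k 0 w (QuotientAddGroup.leftRel_apply.2 (by simpa using hw))).symm
    · simpa using QuotientAddGroup.leftRel_apply.1 (k 0 w)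
  · obtain ⟨g, e1, e2, e3⟩ := ha x a b c
    obtain ⟨γ, hγ, e⟩ := dec g g.2
    exact ⟨g.1 0, γ, hγ, e1.symm.trans (e a), e2.symm.trans (e b), e3.symm.trans (e c)⟩

/-- a transitive abelian normal subgroup gives an affine structure -/
theorem str (ω : Ω) (A : Subgroup (Equiv.Perm Ω)) (le : A ≤ G) (nor : ∀ g ∈ G, ∀ a ∈ A, g * a * g⁻¹ ∈ A)
    (ab : ∀ a ∈ A, ∀ b ∈ A, a * b = b * a) (tr : ∀ v, ∃ a ∈ A, a ω = v) :
    ∃ _ : AddCommGroup Ω, (∀ t, Equiv.addLeft t ∈ G) ∧ ∀ g ∈ G, g 0 = 0 → ∀ a b, g (a + b) = g a + g b := by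
  choose τ hτ eτ using tr
  have un : ∀ a ∈ A, τ (a ω) = a := fun a ha => Equiv.ext fun v => by
    rw [← eτ v, ← Equiv.Perm.mul_apply, ← Equiv.Perm.mul_apply, ab _ (hτ _) _ (hτ v), ab _ ha _ (hτ v),
      Equiv.Perm.mul_apply, Equiv.Perm.mul_apply, eτ]
  have mu : ∀ x y, τ (τ x y) = τ x * τ y := fun x y => by
    rw [← un _ (mul_mem (hτ x) (hτ y)), Equiv.Perm.mul_apply, eτ]
  letI : Add Ω := ⟨fun x y => τ x y⟩
  letI : Zero Ω := ⟨ω⟩
  letI : Neg Ω := ⟨fun x => (τ x)⁻¹ ω⟩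
  letI : AddGroup Ω := .ofLeftAxioms (fun a b c => congrArg (· c) (mu a b))
    (fun a => congrArg (· a) (un 1 (one_mem A)))
    fun a => (congrArg (· a) (un _ (inv_mem (hτ a)))).trans (Equiv.Perm.inv_eq_iff_eq.2 (eτ a).symm)
  refine ⟨{ add_comm := fun a b => ?_ }, fun t => le ((Equiv.ext fun _ => rfl : τ t = Equiv.addLeft t) ▸ hτ t),
    fun g hg z a b => ?_⟩
  · change τ a b = τ b a
    rw [← eτ (τ a b), ← eτ (τ b a), mu, mu, ab _ (hτ a) _ (hτ b)]
  · change g (τ a b) = τ (g a) (g b)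
    have : g⁻¹ ω = ω := Equiv.Perm.inv_eq_iff_eq.2 z.symm
    have e : g a = (g * τ a * g⁻¹) ω := by rw [Equiv.Perm.mul_apply, Equiv.Perm.mul_apply, this, eτ]
    rw [e, un _ (nor g hg _ (hτ a))]
    simp

end B

theorem pp_step {n : ℕ} (hP : PP.{u} n) (hA : AP.{u} n) : PP.{u} (n + 1) := by
  intro Ω X Y _ _ _ _ _ hn _ _ h x a
  let G := (MulAction.toPermHom Y Ω).range
  have : Group.IsSolvable G := Group.isSolvable_of_surjective (MonoidHom.rangeRestrict_surjective _)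
  have ha : ∀ (x : X) (a b c : Ω), ∃ g : G, g • a = x • a ∧ g • b = x • b ∧ g • c = x • c := fun x a b c =>
    let ⟨y, k⟩ := h x a b c; ⟨⟨_, y, rfl⟩, k⟩
  replace hn := Nat.lt_succ_iff.1 hn
  by_cases pr : ∀ r : Setoid Ω, (∀ g ∈ G, ∀ a b, r a b → r (g a) (g b)) → (∀ a b, r a b → a = b) ∨ ∀ a b, r a b
  swap
  · simp only [not_forall, not_or] at pr
    obtain ⟨r, hr, ⟨b, c, k, ne⟩, k'⟩ := pr
    exact B.imp hP hn ha r hr ⟨b, c, ne, k⟩ k' x a
  rcases subsingleton_or_nontrivial G with _ | _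
  · obtain ⟨g, e, -⟩ := ha x a a a
    rw [← e, Subsingleton.elim g 1, one_smul]
  rcases subsingleton_or_nontrivial Ω with _ | _
  · exact Subsingleton.elim ..
  obtain ⟨A, nA, ne, ab⟩ := B.ex_ab G
  have nor : ∀ g ∈ G, ∀ a ∈ A.map G.subtype, g * a * g⁻¹ ∈ A.map G.subtype := by
    rintro g hg _ ⟨a, ha, rfl⟩
    exact ⟨_, nA.conj_mem a ha ⟨g, hg⟩, rfl⟩
  obtain ⟨_, tr, ad⟩ := B.str a (A.map G.subtype) (map_subtype_le A) nor (by
    rintro _ ⟨a, ha, rfl⟩ _ ⟨b, hb, rfl⟩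
    exact congrArg Subtype.val (ab a ha b hb)) fun v => by
    rcases pr (MulAction.orbitRel (A.map G.subtype) Ω) (by
      rintro g hg _ b ⟨c, rfl⟩
      exact ⟨⟨_, nor g hg c c.2⟩, by simp [Subgroup.smul_def]⟩) with k | k
    · exact absurd (eq_bot_iff.2 fun c hc => Subtype.ext (Equiv.ext fun b => k _ _ ⟨⟨_, c, hc, rfl⟩, rfl⟩)) ne
    · obtain ⟨c, e⟩ := k v a
      exact ⟨c, c.2, e⟩
  exact B.aff hA hn ha pr tr ad x a

end CF.C3c
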