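import Cfsg.Agent.C3c.S

/-! The Hamming lemma. -/

set_option autoImplicit false

namespace CF.C3c

open Subgroup

universe u

namespace C

variable {V : Type u} [AddCommGroup V] {G : Subgroup (Gm V)} {P : Finset (AddMonoid.End V)}
  {p q s k l k' l' : AddMonoid.End V} {a b u w : V} {g : Gm V} {f : V → V}

/-- conjugation of a projection -/
def cj (g : Gm V) (p : AddMonoid.End V) : AddMonoid.End V := (g : AddMonoid.End V) * p * (g⁻¹ : Gm V)

theorem cj_smul (g : Gm V) (p : AddMonoid.End V) (u : V) : cj g p (g • u) = g • p u :=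
  congrArg (fun v => g • p v) (inv_smul_smul g u)

theorem cj_fix (h : p u = u) : cj g p (g • u) = g • u := by rw [cj_smul, h]

theorem cj_inj (h : cj g p = cj g q) : p = q :=
  DFunLike.ext _ _ fun u => smul_left_cancel g (by rw [← cj_smul, h, cj_smul])

theorem sne (g : Gm V) (h : u ≠ 0) : g • u ≠ 0 := (smul_ne_zero_iff_ne g).2 h

/-- a decomposition permuted by `G` -/
structure Dc (G : Subgroup (Gm V)) (P : Finset (AddMonoid.End V)) : Prop where
  idem : ∀ p ∈ P, p * p = p ∧ p ≠ 0 ∧ p ≠ 1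
  orth : ∀ p ∈ P, ∀ q ∈ P, p ≠ q → p * q = 0
  sum : ∑ p ∈ P, p = 1
  cj : ∀ g ∈ G, ∀ p ∈ P, cj g p ∈ P

/-- `f` maps the direction `p` at `a` to the direction `k` -/
def R (f : V → V) (a : V) (p k : AddMonoid.End V) : Prop :=
  ∀ u, p u = u → k (f (a + u) - f a) = f (a + u) - f a

theorem R.same (h : R f a p k) (hw : p w = w) : R f (a + w) p k := fun u hu => by
  rw [← sub_sub_sub_cancel_right _ _ (f a), map_sub, h w hw, add_assoc, h _ (by rw [map_add, hw, hu])]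

theorem df (hf : Af3 G f) (a u w : V) : ∃ g ∈ G, f (a + u) - f a = g • u ∧ f (a + w) - f a = g • w := by
  obtain ⟨t, g, hg, e1, e2, e3⟩ := hf a (a + u) (a + w)
  exact ⟨g, hg, by rw [e1, e2, smul_add]; abel, by rw [e1, e3, smul_add]; abel⟩

theorem ne (hi : Function.Injective f) (hu : u ≠ 0) : f (a + u) - f a ≠ 0 :=
  sub_ne_zero.2 (hi.ne (by simpa using hu))

namespace Dc
variable (h : Dc G P)
include h

theorem pp (hp : p ∈ P) (w : V) : p (p w) = p w := congrArg (· w) (h.idem p hp).1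

theorem ort (hp : p ∈ P) (hq : q ∈ P) (n : p ≠ q) (hu : q u = u) : p u = 0 :=
  hu ▸ congrArg (· u) (h.orth p hp q hq n)

theorem un (hp : p ∈ P) (hq : q ∈ P) (n : u ≠ 0) (e : p u = u) (e' : q u = u) : p = q :=
  by_contra fun k => n (e.symm.trans (h.ort hp hq k e'))

theorem ex (hp : p ∈ P) : ∃ u, u ≠ 0 ∧ p u = u := by
  obtain ⟨w, hw⟩ := DFunLike.ne_iff.1 (h.idem p hp).2.1
  exact ⟨p w, hw, h.pp hp w⟩

theorem sum' (w : V) : ∑ p ∈ P, p w = w := by
  exact (AddMonoidHom.finsetSum_apply (fun p : AddMonoid.End V => p) P w).symm.trans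
    (congrArg (fun e : AddMonoid.End V => e w) h.sum)

/-- induction over the components -/
theorem ind {T : V → Prop} (h0 : T a) (w : V) (st : ∀ b, ∀ q ∈ P, T b → T (b + q w)) : T (a + w) := by
  classical
  have : ∀ S ⊆ P, T (a + ∑ q ∈ S, q w) := fun S => by
    induction S using Finset.induction_on with
    | empty => simpa using h0
    | insert q S n ih =>
      intro l
      rw [Finset.sum_insert n, add_comm (q w), ← add_assoc]
      exact st _ q (l (Finset.mem_insert_self _ _)) (ih ((Finset.subset_insert _ _).trans l))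
  simpa only [h.sum'] using this P le_rfl

theorem supp {A B A' B' : V} (hk : k ∈ P) (hl : l ∈ P) (hk' : k' ∈ P) (hl' : l' ∈ P) (n : k ≠ l) (a0 : A ≠ 0)
    (e1 : k A = A) (e2 : l B = B) (e3 : k' A' = A') (e4 : l' B' = B') (e : A + B = A' + B') : k = k' ∨ k = l' := by
  by_contra c
  have := congrArg k e
  rw [map_add, map_add, e1, h.ort hk hl n e2, h.ort hk hk' (not_or.1 c).1 e3, h.ort hk hl' (not_or.1 c).2 e4] at this
  exact a0 (by simpa using this)

variable (hf : Af3 G f) (hi : Function.Injective f)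
include hf hi

theorem crit (hp : p ∈ P) (hk : k ∈ P) (n : u ≠ 0) (e : p u = u) (e' : k (f (a + u) - f a) = f (a + u) - f a) :
    R f a p k := fun w hw => by
  obtain ⟨g, hg, e1, e2⟩ := df hf a u w
  rw [h.un hk (h.cj g hg p hp) (ne hi n) e' (e1 ▸ cj_fix e), e2, cj_fix hw]

theorem exR (a : V) (hp : p ∈ P) : ∃ k ∈ P, R f a p k := by
  obtain ⟨u, n, e⟩ := h.ex hp
  obtain ⟨g, hg, e1, -⟩ := df hf a u u
  exact ⟨_, h.cj g hg p hp, h.crit hf hi hp (h.cj g hg p hp) n e (e1 ▸ cj_fix e)⟩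

theorem two (a : V) (hp : p ∈ P) (hq : q ∈ P) : ∃ g ∈ G, R f a p (C.cj g p) ∧ R f a q (C.cj g q) := by
  obtain ⟨u, n, e⟩ := h.ex hp
  obtain ⟨w, n', e'⟩ := h.ex hq
  obtain ⟨g, hg, e1, e2⟩ := df hf a u w
  exact ⟨g, hg, h.crit hf hi hp (h.cj g hg p hp) n e (e1 ▸ cj_fix e),
    h.crit hf hi hq (h.cj g hg q hq) n' e' (e2 ▸ cj_fix e')⟩

theorem uq (hp : p ∈ P) (hk : k ∈ P) (hl : l ∈ P) (r : R f a p k) (r' : R f a p l) : k = l := by
  obtain ⟨u, n, e⟩ := h.ex hp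
  exact h.un hk hl (ne hi n) (r u e) (r' u e)

theorem inj (hp : p ∈ P) (hq : q ∈ P) (hk : k ∈ P) (r : R f a p k) (r' : R f a q k) : p = q := by
  obtain ⟨g, hg, r1, r2⟩ := h.two hf hi a hp hq
  exact cj_inj ((h.uq hf hi hp (h.cj g hg p hp) hk r1 r).trans (h.uq hf hi hq hk (h.cj g hg q hq) r' r2))

theorem all (hp : p ∈ P) (hk : k ∈ P) (r : R f a p k) (b : V) : R f b p k := by
  rw [← add_sub_cancel a b]
  refine h.ind (T := fun b => R f b p k) r _ fun a q hq r => ?_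
  generalize hw : q (b - _) = w
  replace hw : q w = w := hw ▸ h.pp hq _
  by_cases e : q = p
  · exact r.same (e ▸ hw)
  obtain ⟨u, n, hu⟩ := h.ex hp
  obtain ⟨l, hl, r1⟩ := h.exR hf hi a hq
  obtain ⟨k', hk', r2⟩ := h.exR hf hi (a + w) hp
  obtain ⟨l', hl', r3⟩ := h.exR hf hi (a + u) hq
  rcases h.supp hk hl' hl hk' (fun c => e (h.inj hf hi hq hp hk (c ▸ r3) (r.same hu))) (ne hi n) (r u hu) (r3 w hw)
    (r1 w hw) (r2 u hu) (by rw [add_right_comm a w u]; abel) with c | c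
  · exact absurd (h.inj hf hi hq hp hk (c ▸ r1) r) e
  · exact c ▸ r2

theorem tri (hp : p ∈ P) (hq : q ∈ P) (hs : s ∈ P) :
    ∃ g ∈ G, R f 0 p (C.cj g p) ∧ R f 0 q (C.cj g q) ∧ R f 0 s (C.cj g s) := by
  by_cases pq : p = q
  · obtain ⟨g, hg, r1, r2⟩ := h.two hf hi 0 hp hs
    exact ⟨g, hg, r1, pq ▸ r1, r2⟩
  by_cases ps : p = s
  · obtain ⟨g, hg, r1, r2⟩ := h.two hf hi 0 hp hq
    exact ⟨g, hg, r1, r2, ps ▸ r1⟩
  by_cases qs : q = s
  · obtain ⟨g, hg, r1, r2⟩ := h.two hf hi 0 hp hq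
    exact ⟨g, hg, r1, r2, qs ▸ r2⟩
  obtain ⟨u, nu, eu⟩ := h.ex hp
  obtain ⟨w, nw, ew⟩ := h.ex hq
  obtain ⟨z, nz, ez⟩ := h.ex hs
  obtain ⟨g, hg, e1, e2⟩ := df hf 0 (u + z) (w + z)
  obtain ⟨l, hl, rs⟩ := h.exR hf hi 0 hs
  have key : ∀ {p u}, p ∈ P → p ≠ s → u ≠ 0 → p u = u → f (0 + (u + z)) - f 0 = g • (u + z) →
      (l = C.cj g p ∨ l = C.cj g s) ∧ (l = C.cj g s → R f 0 p (C.cj g p)) := fun {p u} hp ps nu eu e => by
    obtain ⟨k, hk, rp⟩ := h.exR hf hi 0 hp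
    have kl : k ≠ l := fun c => ps (h.inj hf hi hp hs hl (c ▸ rp) rs)
    have a1 := h.all hf hi hp hk rp (0 + z) u eu
    have e' : f (0 + z + u) - f (0 + z) + (f (0 + z) - f 0) = g • u + g • z := by
      rw [← smul_add, ← e, add_assoc, add_comm z]; abel
    refine ⟨h.supp hl hk (h.cj g hg p hp) (h.cj g hg s hs) kl.symm (ne hi nz) (rs z ez) a1 (cj_fix eu) (cj_fix ez)
      ((add_comm _ _).trans e'), fun c => ?_⟩
    exact (h.supp hk hl (h.cj g hg p hp) (h.cj g hg s hs) kl (ne hi nu) a1 (rs z ez) (cj_fix eu) (cj_fix ez)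
      e').resolve_right (c ▸ kl) ▸ rp
  obtain ⟨k1, k2⟩ := key hp ps nu eu e1
  obtain ⟨k3, k4⟩ := key hq qs nw ew e2
  have c : l = C.cj g s := by_contra fun c => pq (cj_inj ((k1.resolve_right c).symm.trans (k3.resolve_right c)))
  exact ⟨g, hg, k2 c, k4 c, c ▸ rs⟩

end Dc

/-- the directions containing `u` -/
def lab (P : Finset (AddMonoid.End V)) (u : V) : Set (AddMonoid.End V) := {q | q ∈ P ∧ q u = u}

theorem Dc.lab (h : Dc G P) (hp : p ∈ P) (n : u ≠ 0) (e : p u = u) : lab P u = {p} :=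
  Set.eq_singleton_iff_unique_mem.2 ⟨⟨hp, e⟩, fun _ k => h.un k.1 hp n k.2 e⟩

variable [Finite V] {n : ℕ} {X : Type u} [Group X] [MulAction X V] [Group.IsPerfect X] [Group.IsSolvable G]

/-- the directions are fixed -/
theorem Dc.dir (h : Dc G P) (hP : PP.{u} n) (hV : Nat.card V ≤ n) (ha : ∀ x : X, Af3 G (fun v => x • v)) (x : X)
    (hp : p ∈ P) (a : V) : R (fun v => x • v) a p p := by
  have hi := fun x : X => MulAction.injective (β := V) x
  have gd : ∀ (f : V → V) (δ : ∀ p ∈ P, ∃ k ∈ P, ∀ a, R f a p k), Function.Injective f →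
      Good {s : V × V | s.2 - s.1 ≠ 0 ∧ ∃ p ∈ P, p (s.2 - s.1) = s.2 - s.1} (fun s => C.lab P (s.2 - s.1))
        fun s => (f s.1, f s.2) := by
    rintro f δ hi ⟨a, b⟩ ⟨n, p, hp, e⟩
    obtain ⟨k, hk, r⟩ := δ p hp
    have r' : ∀ a b, p (b - a) = b - a → k (f b - f a) = f b - f a := fun a b e => by simpa using r a _ e
    have n' : ∀ {a b}, b - a ≠ 0 → f b - f a ≠ 0 := fun n => sub_ne_zero.2 (hi.ne (sub_ne_zero.1 n))
    refine ⟨⟨n' n, k, hk, r' a b e⟩, fun t ht e' => ?_⟩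
    have : p ∈ C.lab P (t.2 - t.1) := e'.le ⟨hp, e⟩
    exact (h.lab hk (n' n) (r' a b e)).trans (h.lab hk (n' ht.1) (r' _ _ this.2)).symm
  obtain ⟨u, nu, eu⟩ := h.ex hp
  have := sec (X := X) (Y := G) hP _ _ ?_ (fun x => gd _ (fun p hp =>
    let ⟨k, hk, r⟩ := h.exR (ha x) (hi x) 0 hp; ⟨k, hk, h.all (ha x) (hi x) hp hk r⟩) (hi x)) ?_ x (a, a + u)
    ⟨by simpa using nu, p, hp, by simpa using eu⟩
  · have m : p ∈ C.lab P (x • (a + u) - x • a) := (show _ = _ from this) ▸ ⟨hp, by simpa using eu⟩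
    exact h.crit (ha x) (hi x) hp hp nu eu m.2
  · refine ((Set.ncard_le_ncard (t := C.lab P '' {0}ᶜ) ?_ (Set.toFinite _)).trans (Set.ncard_image_le
      (Set.toFinite _))).trans_lt ((Set.ncard_lt_ncard (t := Set.univ) (Set.ssubset_univ_iff.2 fun e => ?_)
        (Set.toFinite _)).trans_le (by rwa [Set.ncard_univ]))
    · rintro _ ⟨s, hs, rfl⟩
      exact ⟨_, hs.1, rfl⟩
    · exact (e.ge trivial : (0 : V) ∈ ({0}ᶜ : Set V)) rfl
  · rintro x s1 ⟨n1, p1, h1, e1⟩ s2 ⟨n2, p2, h2, e2⟩ s3 ⟨n3, p3, h3, e3⟩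
    obtain ⟨g, hg, r1, r2, r3⟩ := h.tri (ha x) (hi x) h1 h2 h3
    have k : ∀ {s : V × V} {p}, s.2 - s.1 ≠ 0 → p ∈ P → p (s.2 - s.1) = s.2 - s.1 → R (fun v => x • v) 0 p (C.cj g p) →
        C.lab P (g • s.2 - g • s.1) = C.lab P (x • s.2 - x • s.1) := fun {s p} n hp e r => by
      have m := h.cj g hg p hp
      rw [← smul_sub, h.lab m (sne g n) (cj_fix e), h.lab m (sub_ne_zero.2 ((hi x).ne (sub_ne_zero.1 n)))
        (by simpa using h.all (ha x) (hi x) hp m r s.1 _ e)]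
    exact ⟨⟨g, hg⟩, gd (g • ·) (fun p hp => ⟨_, h.cj g hg p hp, fun a u e => by
      simpa only [smul_add, add_sub_cancel_left] using cj_fix e⟩) (MulAction.injective g),
      k n1 h1 e1 r1, k n2 h2 e2 r2, k n3 h3 e3 r3⟩

end C

theorem ham {V : Type u} [AddCommGroup V] [Finite V] {n : ℕ} (hP : PP.{u} n) (hV : Nat.card V ≤ n) {X : Type u}
    [Group X] [MulAction X V] [Group.IsPerfect X] (G : Subgroup (Gm V)) [Group.IsSolvable G] (hD : Dec G)
    (ha : ∀ x : X, Af3 G (fun v => x • v)) (x : X) (v : V) : x • v = v := by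
  obtain ⟨P, h1, h2, h3, h4⟩ := hD
  have h : C.Dc G P := ⟨h1, h2, h3, h4⟩
  rw [← h.sum' (x • v), ← h.sum' v]
  refine (Finset.sum_congr rfl fun p hp => ?_).trans (h.sum' _)
  rw [h.sum']
  have gd : ∀ (x : X) a b, p a = p b → p (x • a) = p (x • b) := fun x a b e => by
    rw [← add_sub_cancel a b]
    refine h.ind (T := fun b => p (x • a) = p (x • b)) rfl _ fun c q hq k => ?_
    by_cases n : p = q
    · rwa [← n, map_sub, e, sub_self, add_zero]
    · have := h.ort hp hq n (h.dir hP hV ha x hq c _ (h.pp hq (b - a)))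
      rw [map_sub, sub_eq_zero] at this
      exact k.trans this.symm
  refine secA hP G Set.univ p ((Set.ncard_lt_ncard (t := Set.univ) (Set.ssubset_univ_iff.2 fun e => ?_)
    (Set.toFinite _)).trans_le (by rwa [Set.ncard_univ])) (fun x a _ => ⟨trivial, fun b _ => gd x a b⟩)
    (fun x a _ b _ c _ => ?_) x v trivial
  · refine (h.idem p hp).2.2 (AddMonoidHom.ext fun w => ?_)
    obtain ⟨z, -, rfl⟩ : w ∈ p '' Set.univ := e.ge trivial
    exact h.pp hp z
  by_cases e : p b = p a ∧ p c = p a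
  · have k : ∀ b, p b = p a → p (x • a - a + (1 : Gm V) • b) = p (x • b) := fun b e => by
      rw [one_smul, map_add, map_sub, e, sub_add_cancel, gd x a b e.symm]
    exact ⟨x • a - a, 1, one_mem _, fun s _ => ⟨trivial, fun t _ e => by simp only [map_add, one_smul, e]⟩,
      k a rfl, k b e.1, k c e.2⟩
  obtain ⟨t, g, hg, e1, e2, e3⟩ := ha x (p a) (p b) (p c)
  have k : ∀ b, p b ≠ p a → x • p b = t + g • p b → C.cj g p = p := fun b n e2 => by
    have m : p (p b - p a) = p b - p a := by rw [map_sub, h.pp hp, h.pp hp]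
    have := h.dir hP hV ha x hp (p a) _ m
    simp only [add_sub_cancel, e1, e2, add_sub_add_left_eq_sub, ← smul_sub] at this
    exact h.un (h.cj g hg p hp) hp (C.sne g (sub_ne_zero.2 n)) (C.cj_fix m) this
  have cm : ∀ s, p (g • s) = g • p s := fun s => by
    rw [← C.cj_smul, (not_and_or.1 e).elim (k b · e2) (k c · e3)]
  have k' : ∀ a, x • p a = t + g • p a → p (t + g • a) = p (x • a) := fun a e => by
    rw [← gd x _ _ (h.pp hp a), e, map_add, map_add, cm, cm, h.pp hp]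
  exact ⟨t, g, hg, fun s _ => ⟨trivial, fun s' _ e => by simp only [map_add, cm, e]⟩, k' a e1, k' b e2, k' c e3⟩

end CF.C3c
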