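import Cfsg.Agent.C3c.S

/-! Centralisers of noncommutative normal subgroups; commutative invariant rings. -/

set_option autoImplicit false

namespace CF.C3c

open Subgroup

universe u

namespace Ce

variable {V : Type u} [AddCommGroup V] {R : Subring (AddMonoid.End V)} {u v w : V} {g : Gm V}

/-- conjugation as a ring homomorphism -/
def cjH (g : Gm V) : AddMonoid.End V →+* AddMonoid.End V :=
  MulSemiringAction.toRingHom (ConjAct (Gm V)) _ (ConjAct.toConjAct g)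

theorem cjH_def (g : Gm V) (a : AddMonoid.End V) : cjH g a = g * a * (g⁻¹ : Gm V) := rfl

theorem cjH_inv (g : Gm V) (a : AddMonoid.End V) : cjH g⁻¹ (cjH g a) = a :=
  inv_smul_smul (ConjAct.toConjAct g) a

theorem cjH_inv' (g : Gm V) (a : AddMonoid.End V) : cjH g (cjH g⁻¹ a) = a :=
  smul_inv_smul (ConjAct.toConjAct g) a

theorem cjH_smul (g : Gm V) (a : AddMonoid.End V) (v : V) : a (g • v) = g • cjH g⁻¹ a v :=
  (smul_inv_smul g _).symm

theorem cj_closure {E : Subgroup (Gm V)} (hg : g ∈ normalizer (E : Set (Gm V))) {a : AddMonoid.End V}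
    (ha : a ∈ Subring.closure (Units.val '' (E : Set (Gm V)))) :
    cjH g a ∈ Subring.closure (Units.val '' (E : Set (Gm V))) :=
  Subring.mem_comap.1 ((Subring.closure_le (t := .comap (cjH g) (.closure (Units.val '' (E : Set (Gm V)))))).2 (by
    rintro _ ⟨e, he, rfl⟩
    exact Subring.subset_closure ⟨_, (hg e).1 he, rfl⟩) ha)

/-- the annihilator of `v` kills `u` -/
def Le (R : Subring (AddMonoid.End V)) (v u : V) : Prop := ∀ a ∈ R, a v = 0 → a u = 0

theorem Le.trans (h : Le R u v) (k : Le R v w) : Le R u w := fun a ha e => k a ha (h a ha e)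

theorem Le.smul (hg : ∀ a ∈ R, cjH g⁻¹ a ∈ R) (h : Le R v u) : Le R (g • v) (g • u) := fun a ha e => by
  rw [cjH_smul, smul_eq_zero_iff_eq] at e ⊢
  exact h _ (hg a ha) e

/-- the vectors killed by the annihilator of `v` -/
def M (R : Subring (AddMonoid.End V)) (v : V) : AddSubgroup V where
  carrier := {u | Le R v u}
  zero_mem' a _ _ := map_zero a
  add_mem' h k a ha e := by rw [map_add, h a ha e, k a ha e, add_zero]
  neg_mem' h a ha e := by rw [map_neg, h a ha e, neg_zero]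

/-- maximal annihilator -/
def Mx (R : Subring (AddMonoid.End V)) (v : V) : Prop := v ≠ 0 ∧ ∀ u, u ≠ 0 → Le R v u → Le R u v

theorem ex_mx [Finite V] [Nontrivial V] (R : Subring (AddMonoid.End V)) : ∃ v, Mx R v := by
  obtain ⟨v, hv, k⟩ := Set.exists_max_image {v : V | v ≠ 0} (fun v => {a | a ∈ R ∧ a v = 0}.ncard) (Set.toFinite _)
    (exists_ne 0)
  exact ⟨v, hv, fun u hu l a ha e => ((Set.eq_of_subset_of_ncard_le (s := {a | a ∈ R ∧ a v = 0})
    (t := {a | a ∈ R ∧ a u = 0}) (fun a ha => ⟨ha.1, l a ha.1 ha.2⟩) (k u hu) (Set.toFinite _)).ge ⟨ha, e⟩).2⟩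

theorem Mx.smul (hg : ∀ a ∈ R, cjH g a ∈ R) (hg' : ∀ a ∈ R, cjH g⁻¹ a ∈ R) (h : Mx R v) : Mx R (g • v) :=
  ⟨(smul_ne_zero_iff_ne g).2 h.1, fun u hu l => by
    have := (h.2 (g⁻¹ • u) ((smul_ne_zero_iff_ne _).2 hu) (inv_smul_smul g v ▸ l.smul (g := g⁻¹) hg)).smul hg'
    rwa [smul_inv_smul] at this⟩

theorem ex_idem {M : Type*} [Monoid M] [Finite M] (a : M) : ∃ k, a ^ (k + 1) * a ^ (k + 1) = a ^ (k + 1) := by
  letI : TopologicalSpace M := ⊥
  haveI : DiscreteTopology M := ⟨rfl⟩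
  obtain ⟨_, ⟨k, rfl⟩, e⟩ := exists_idempotent_in_compact_subsemigroup (fun _ => continuous_of_discreteTopology)
    (Set.range fun k => a ^ (k + 1)) (Set.range_nonempty _) (Set.toFinite _).isCompact (by
      rintro _ ⟨k, rfl⟩ _ ⟨l, rfl⟩
      exact ⟨k + 1 + l, by simp only [← pow_add, add_assoc]⟩)
  exact ⟨k, e⟩

/-- minimal idempotents -/
def Mi (R : Subring (AddMonoid.End V)) (e : AddMonoid.End V) : Prop :=
  (e ∈ R ∧ e * e = e ∧ e ≠ 0) ∧ ∀ f, f ∈ R ∧ f * f = f ∧ f ≠ 0 → f * e = f → f = e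

theorem ex_mi [Finite V] (hc : ∀ a ∈ R, ∀ b ∈ R, a * b = b * a) {e : AddMonoid.End V}
    (he : e ∈ R ∧ e * e = e ∧ e ≠ 0) : ∃ p, Mi R p ∧ p * e = p := by
  obtain ⟨p, hp, k⟩ := Set.exists_min_image {f | (f ∈ R ∧ f * f = f ∧ f ≠ 0) ∧ f * e = f}
    (fun f => {g | g * f = g}.ncard) (Set.toFinite _) ⟨e, he, he.2.1⟩
  refine ⟨p, ⟨hp.1, fun f hf l => ?_⟩, hp.2⟩
  have : p * f = p := (Set.eq_of_subset_of_ncard_le (s := {g | g * f = g}) (t := {g | g * p = g})
    (fun g (hg : g * f = g) => show g * p = g by rw [← hg, mul_assoc, l])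
    (k f ⟨hf, by rw [← l, mul_assoc, hp.2]⟩) (Set.toFinite _)).ge hp.1.2.1
  rw [← l, hc f hf.1 p hp.1.1, this]

end Ce
open Ce

variable {V : Type u} [AddCommGroup V] [Finite V] {n : ℕ}

theorem ce (hP : PP.{u} n) (hV : Nat.card V ≤ n) (G E X : Subgroup (Gm V)) [Group.IsSolvable G]
    [Group.IsPerfect X] (hI : Irr G) (hE : G ≤ normalizer (E : Set (Gm V)))
    (hn : ∃ a ∈ E, ∃ b ∈ E, a * b ≠ b * a) (hX : X ≤ cl2 G)
    (hc : ∀ x ∈ X, ∀ e ∈ E, x * e = e * x) : X = ⊥ := by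
  obtain ⟨a, ha, b, hb, ne⟩ := hn
  have : Nontrivial V := not_subsingleton_iff_nontrivial.1 fun _ => ne (gm_ext fun _ => Subsingleton.elim ..)
  set R := Subring.closure (Units.val '' (E : Set (Gm V)))
  have nR : ∀ g ∈ G, ∀ a ∈ R, cjH g a ∈ R := fun g hg a => cj_closure (hE hg)
  have cR : ∀ x ∈ X, ∀ v u, Le R v u → Le R v (x • u) := fun x hx v u l a ha e => by
    have : a * x = x * a := (Subring.closure_le (t := .centralizer {x.1})).2 (by
      rintro _ ⟨e, he, rfl⟩ _ rfl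
      exact congrArg Units.val (hc x hx e he)) ha _ rfl |>.symm
    exact (congrArg (· u) this).trans ((congrArg x.1 (l a ha e)).trans (map_zero _))
  have fix : ∀ v, Mx R v → ∀ x ∈ X, x • v = v := fun v hv x hx => by
    refine linM hP G X (M R v) ((Set.ncard_lt_ncard (t := Set.univ) (Set.ssubset_univ_iff.2 fun e => ne ?_)
      (Set.toFinite _)).trans_le (by rwa [Set.ncard_univ])) (fun x hx => cR x hx v) (fun x hx a ha b hb => ?_) x hx v
      fun _ _ e => e
    · have l : ∀ u, Le R v u := fun u => e.ge trivial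
      have : NoZeroDivisors R := ⟨fun {a b} k => or_iff_not_imp_right.2 fun n => by
        obtain ⟨w, hw⟩ := DFunLike.ne_iff.1 (mt Subtype.ext n)
        exact Subtype.ext (DFunLike.ext _ _ fun u => (hv.2 _ hw (l _)).trans (l u) a a.2
          (congrArg (fun c : R => c.1 w) k))⟩
      have : Nontrivial R := ⟨0, 1, fun e => hv.1 (congrArg (fun c : R => c.1 v) e).symm⟩
      have := NoZeroDivisors.to_isDomain R
      exact Units.ext (congrArg Subtype.val ((Finite.isDomain_to_isField R).mul_comm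
        ⟨a, Subring.subset_closure ⟨a, ha, rfl⟩⟩ ⟨b, Subring.subset_closure ⟨b, hb, rfl⟩⟩))
    · have k : ∀ g ∈ G, ∀ a ∈ M R v, a ≠ 0 → g • a = x • a → ∀ m ∈ M R v, g • m ∈ M R v := fun g hg a ha n e m hm =>
        (e ▸ cR x hx v a ha :).trans (((hv.2 a n ha).trans hm).smul (nR _ (inv_mem hg)))
      obtain ⟨g, hg, e1, e2⟩ := hX hx a b
      by_cases a0 : a = 0
      · by_cases b0 : b = 0
        · exact ⟨1, one_mem _, fun m hm => by rwa [one_smul], by simp [a0], by simp [b0]⟩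
        · exact ⟨g, hg, k g hg b hb b0 e2, e1, e2⟩
      · exact ⟨g, hg, k g hg a ha a0 e1, e1, e2⟩
  obtain ⟨v, hv⟩ := ex_mx R
  have t := (hI (AddSubgroup.closure {v | Mx R v}) fun g hg w hw =>
    AddSubgroup.mem_comap.1 ((AddSubgroup.closure_le (.comap g.1 (.closure {v | Mx R v}))).2
      (fun u hu => AddSubgroup.subset_closure (Mx.smul (nR g hg) (nR _ (inv_mem hg)) hu)) hw)).resolve_left
    fun e => hv.1 (AddSubgroup.mem_bot.1 (e ▸ AddSubgroup.subset_closure hv))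
  exact eq_bot_iff.2 fun x hx => gm_ext fun w =>
    (AddSubgroup.closure_le (AddMonoidHom.eqLocus x.1 (AddMonoidHom.id V))).2 (fun u hu => fix u hu x hx) (t.ge trivial)

theorem ring_dich [Nontrivial V] (G : Subgroup (Gm V)) (hI : Irr G) (R : Subring (AddMonoid.End V))
    (hc : ∀ a ∈ R, ∀ b ∈ R, a * b = b * a)
    (hG : ∀ g ∈ G, ∀ a ∈ R, (g : AddMonoid.End V) * a * (g⁻¹ : Gm V) ∈ R) :
    Dec G ∨ ∀ a ∈ R, a ≠ 0 → ∃ b ∈ R, a * b = 1 := by
  classical
  replace hG : ∀ g ∈ G, ∀ a ∈ R, cjH g a ∈ R := hG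
  by_cases h : ∃ e, (e ∈ R ∧ e * e = e ∧ e ≠ 0) ∧ e ≠ 1
  · obtain ⟨e, he, e1⟩ := h
    have m : ∀ {p}, p ∈ (Set.toFinite {p | Mi R p}).toFinset ↔ Mi R p := by simp
    have ort : ∀ p, Mi R p → ∀ q, Mi R q → p ≠ q → p * q = 0 := fun p hp q hq n => by_contra fun z => by
      have c := hc p hp.1.1 q hq.1.1
      have k : p * q ∈ R ∧ p * q * (p * q) = p * q ∧ p * q ≠ 0 := ⟨mul_mem hp.1.1 hq.1.1, by
        rw [mul_assoc, ← mul_assoc q, ← c, mul_assoc, hq.1.2.1, ← mul_assoc, hp.1.2.1], z⟩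
      exact n ((hp.2 _ k (by rw [mul_assoc, ← c, ← mul_assoc, hp.1.2.1])).symm.trans
        (hq.2 _ k (by rw [mul_assoc, hq.1.2.1])))
    refine .inl ⟨(Set.toFinite {p | Mi R p}).toFinset, fun p hp => ⟨(m.1 hp).1.2.1, (m.1 hp).1.2.2, fun p1 =>
      e1 (p1 ▸ (m.1 hp).2 e he (by rw [p1, mul_one]))⟩, fun p hp q hq => ort p (m.1 hp) q (m.1 hq), ?_,
      fun g hg p hp => m.2 ?_⟩
    · generalize hs : ∑ p ∈ (Set.toFinite {p | Mi R p}).toFinset, p = s
      have ps : ∀ p, Mi R p → p * s = p := fun p hp => by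
        rw [← hs, Finset.mul_sum, Finset.sum_eq_single_of_mem p (m.2 hp) fun q hq n => ort p hp q (m.1 hq) n.symm,
          hp.1.2.1]
      have ss : s * s = s := by
        nth_rw 1 [← hs]
        rw [Finset.sum_mul, Finset.sum_congr rfl fun p hp => ps p (m.1 hp), hs]
      by_contra n
      obtain ⟨p, hp, k⟩ := ex_mi hc (e := 1 - s) ⟨sub_mem (one_mem _) (hs ▸ sum_mem fun p hp => (m.1 hp).1.1),
        by rw [mul_sub, sub_mul, sub_mul, ss]; simp, sub_ne_zero.2 (Ne.symm n)⟩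
      rw [mul_sub, mul_one, ps p hp, sub_self] at k
      exact hp.1.2.2 k.symm
    · have k : ∀ g ∈ G, ∀ {p}, p ∈ R ∧ p * p = p ∧ p ≠ 0 → cjH g p ∈ R ∧ cjH g p * cjH g p = cjH g p ∧ cjH g p ≠ 0 :=
        fun g hg p hp => ⟨hG g hg p hp.1, by rw [← map_mul, hp.2.1], fun z => hp.2.2 (by
          rw [← cjH_inv g p, z, map_zero])⟩
      refine ⟨k g hg (m.1 hp).1, fun f hf l => ?_⟩
      rw [← cjH_def, ← (m.1 hp).2 _ (k _ (inv_mem hg) hf) (by
        rw [← cjH_inv g p, ← map_mul, cjH_def g p, l]), cjH_inv']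
  refine .inr fun a ha a0 => ?_
  obtain ⟨k, e⟩ := ex_idem a
  by_cases z : a ^ (k + 1) = 0
  swap
  · exact ⟨a ^ k, pow_mem ha k, (pow_succ' a k).symm.trans (by_contra fun n => h ⟨_, ⟨pow_mem ha _, e, z⟩, n⟩)⟩
  obtain ⟨v, hv⟩ := ex_mx R
  let W : AddSubgroup V :=
    { carrier := {w | ∀ c ∈ R, IsNilpotent c → c w = 0}
      zero_mem' := fun c _ _ => map_zero c
      add_mem' := fun h k c hc n => by rw [map_add, h c hc n, k c hc n, add_zero]
      neg_mem' := fun h c hc n => by rw [map_neg, h c hc n, neg_zero] }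
  have vW : v ∈ W := fun c hc' ⟨j, hj⟩ => by
    have ex : ∃ i, (c ^ i) v = 0 := ⟨j, by rw [hj]; rfl⟩
    obtain ⟨i, hi⟩ := Nat.exists_eq_succ_of_ne_zero (n := Nat.find ex) fun e => hv.1 (by
      have := Nat.find_spec ex
      rwa [e] at this)
    have := Nat.find_spec ex
    rw [hi, pow_succ'] at this
    exact hv.2 _ (Nat.find_min ex (m := i) (by omega)) (fun b hb e =>
      (congrArg (· v) (hc b hb _ (pow_mem hc' i))).trans ((congrArg (c ^ i) e).trans (map_zero _))) c hc' this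
  have t := (hI W fun g hg w hw c hc n => by
    rw [cjH_smul, hw _ (hG _ (inv_mem hg) c hc) (n.map _), smul_zero]).resolve_left
      fun e => hv.1 (AddSubgroup.mem_bot.1 (e ▸ vW))
  exact absurd (DFunLike.ext _ _ fun w => (t.ge trivial : w ∈ W) a ha ⟨_, z⟩) a0

end CF.C3c
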