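import Cfsg.Agent.C3c.Sl

/-! Linear parts of affine actions, and covering by subgroups. -/

set_option autoImplicit false
set_option linter.unusedSectionVars false

namespace CF.C3c

open Subgroup

universe u

variable {V : Type u} [AddCommGroup V] [Finite V] {n : ℕ}

namespace Dl

/-- The linear part of an affine action. -/
def lam {X : Type u} [Group X] [MulAction X V]
    (hadd : ∀ (x : X) (a b : V), x • (a + b) - x • (0 : V) = (x • a - x • (0 : V)) + (x • b - x • (0 : V))) :
    X →* AddMonoid.End V where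
  toFun x := AddMonoidHom.mk' (fun v => x • v - x • (0 : V)) (hadd x)
  map_one' := AddMonoidHom.ext fun v => by
    change (1 : X) • v - (1 : X) • (0 : V) = v
    rw [one_smul, one_smul, sub_zero]
  map_mul' x y := AddMonoidHom.ext fun v => by
    change (x * y) • v - (x * y) • (0 : V) = x • (y • v - y • (0 : V)) - x • (0 : V)
    have h := hadd x (y • v - y • (0 : V)) (y • (0 : V))
    rw [sub_add_cancel] at h
    rw [mul_smul, mul_smul]
    have h2 : x • y • v = x • (y • v - y • (0 : V)) - x • (0 : V) + (x • y • (0 : V) - x • (0 : V)) +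
      x • (0 : V) := by rw [← h, sub_add_cancel]
    rw [h2]; abel

end Dl

theorem linp {X : Type u} [Group X] [MulAction X V] [Group.IsPerfect X] (G : Subgroup (Gm V))
    (ha : ∀ x : X, Af3 G (fun v => x • v))
    (hadd : ∀ (x : X) (a b : V), x • (a + b) - x • (0 : V) = (x • a - x • (0 : V)) + (x • b - x • (0 : V)))
    (hL : ∀ Y : Subgroup (Gm V), Y ≤ cl2 G → Group.IsPerfect Y → Y = ⊥) (x : X) (v : V) :
    x • v = v := by
  let f : X →* Gm V := (Dl.lam hadd).toHomUnits
  have hf : ∀ (y : X) (u : V), f y • u = y • u - y • (0 : V) := fun _ _ => rfl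
  have hle : f.range ≤ cl2 G := by
    rintro _ ⟨y, rfl⟩ a b
    obtain ⟨t, g, hg, h0, h1, h2⟩ := ha y 0 a b
    simp only [smul_zero, add_zero] at h0 h1 h2
    refine ⟨g, hg, ?_, ?_⟩
    · rw [hf, h1, h0, add_sub_cancel_left]
    · rw [hf, h2, h0, add_sub_cancel_left]
  have hb := hL _ hle (Group.IsPerfect.range f)
  have h1 : ∀ (y : X) (u : V), y • u = u + y • (0 : V) := by
    intro y u
    have hy : f y = 1 := by
      have : f y ∈ f.range := ⟨y, rfl⟩
      rwa [hb, mem_bot] at this
    have := hf y u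
    rw [hy, one_smul] at this
    exact (sub_eq_iff_eq_add.1 this.symm)
  let τ : X →* Multiplicative V := MonoidHom.mk' (fun y => Multiplicative.ofAdd (y • (0 : V))) (by
    intro a b
    rw [← ofAdd_add, mul_smul, h1 a (b • (0 : V)), add_comm])
  have h2 : x • (0 : V) = 0 := by
    have := hom_triv τ x
    exact Multiplicative.ofAdd.injective this
  rw [h1, h2, add_zero]

theorem cov {ι : Type*} (I : Finset ι) (K : ι → AddSubgroup V) (hp : ∀ i ∈ I, K i ≠ ⊤)
    (hd : ∀ i ∈ I, ∀ j ∈ I, i ≠ j → K i ⊓ K j = ⊥) (hc : ∀ v, ∃ i ∈ I, v ∈ K i) :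
    Nat.card V ≤ (I.card - 1) ^ 2 := by
  classical
  have := Fintype.ofFinite V
  choose c hc1 hc2 using hc
  have hK : ∀ j ∈ I, (Finset.univ.filter (fun v => v ∈ K j)).card ≤ I.card - 1 := by
    intro j hj
    obtain ⟨v, hv⟩ : ∃ v, v ∉ K j := by
      by_contra h
      push Not at h
      exact hp j hj ((AddSubgroup.eq_top_iff' _).2 h)
    rw [← Finset.card_erase_of_mem hj]
    refine Finset.card_le_card_of_injOn (fun w => c (v + w)) ?_ ?_
    · intro w hw
      have hw' : w ∈ K j := by simpa using hw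
      simp only [Finset.coe_erase, Set.mem_sdiff, Finset.mem_coe, Set.mem_singleton_iff]
      refine ⟨hc1 _, fun h => hv ?_⟩
      have h1 := hc2 (v + w)
      rw [h] at h1
      simpa using (K j).sub_mem h1 hw'
    · intro a ha b hb hab
      have ha' : a ∈ K j := by simpa using ha
      have hb' : b ∈ K j := by simpa using hb
      have hne : c (v + a) ≠ j := fun h => hv (by
        have h1 := hc2 (v + a)
        rw [h] at h1
        simpa using (K j).sub_mem h1 ha')
      have h1 := hc2 (v + a)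
      have h2 := hc2 (v + b)
      have hab' : c (v + a) = c (v + b) := hab
      rw [← hab'] at h2
      have h3 : a - b ∈ K (c (v + a)) ⊓ K j :=
        ⟨by simpa using (K _).sub_mem h1 h2, (K j).sub_mem ha' hb'⟩
      rw [hd _ (hc1 _) _ hj hne, AddSubgroup.mem_bot] at h3
      exact sub_eq_zero.1 h3
  have hsub : (Finset.univ : Finset V).erase 0 ⊆
      I.biUnion (fun j => (Finset.univ.filter (fun v => v ∈ K j)).erase 0) := by
    intro v hv
    rw [Finset.mem_biUnion]
    exact ⟨c v, hc1 v, by simpa using ⟨(Finset.mem_erase.1 hv).1, hc2 v⟩⟩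
  have h1 := (Finset.card_le_card hsub).trans Finset.card_biUnion_le
  have h2 : ∑ j ∈ I, ((Finset.univ.filter (fun v => v ∈ K j)).erase 0).card ≤
      ∑ _j ∈ I, (I.card - 1 - 1) := Finset.sum_le_sum fun j hj => by
    rw [Finset.card_erase_of_mem (by simp)]
    exact Nat.sub_le_sub_right (hK j hj) 1
  rw [Finset.sum_const, smul_eq_mul] at h2
  rw [Finset.card_erase_of_mem (Finset.mem_univ _), Finset.card_univ] at h1
  have h3 : 1 ≤ I.card - 1 := by
    refine le_trans ?_ (hK _ (hc1 0))
    exact Finset.card_pos.2 ⟨0, by simp⟩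
  rw [Nat.card_eq_fintype_card]
  obtain ⟨m, hm⟩ : ∃ m, I.card = m + 2 := ⟨I.card - 2, by omega⟩
  rw [hm] at h2 ⊢
  have h4 : m + 2 - 1 - 1 = m := by omega
  have h5 : m + 2 - 1 = m + 1 := by omega
  rw [h4] at h2
  rw [h5]
  have h6 : Fintype.card V - 1 ≤ (m + 2) * m := h1.trans h2
  have h7 : (m + 1) ^ 2 = (m + 2) * m + 1 := by ring
  omega

end CF.C3c
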