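import Cfsg.Agent.C3c.Sl
import Cfsg.Agent.C3c.Dl
import Cfsg.Agent.C3c.B

/-! The closure is semilinear. -/

set_option autoImplicit false
set_option linter.unusedSectionVars false

namespace CF.C3c

open Subgroup

universe u

variable {F V : Type u} [Field F] [Finite F] [AddCommGroup V] [Finite V] [Module F V]
  {G E X : Subgroup (Gm V)} {n r : ℕ} {a b c e s t x y : Gm V} {v w : V}

theorem Cl.lt (m : ℕ) : m ^ 2 < 2 ^ (m + 1) := by
  induction m with
  | zero => simp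
  | succ m ih =>
    have := Nat.lt_two_pow_self (n := m)
    rw [pow_succ 2 (m + 1), pow_succ 2 m] at *
    nlinarith

theorem Fl.cl_nz (h : Fl F G) : cl2 G ≤ normalizer (Zs F V : Set (Gm V)) := fun g hg => sl_iff.2 fun k => by
  classical
  obtain ⟨p, hp⟩ := CharP.exists F
  have pr := Fact.mk (CharP.char_is_prime F p)
  let _ := ZMod.algebra F p
  have := Fintype.ofFinite (F ≃ₐ[ZMod p] F)
  by_contra! ne
  have c := cov (Finset.univ.image fun σ : F ≃ₐ[ZMod p] F => σ k) (fun l => AddMonoidHom.eqLocus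
    ((g : AddMonoid.End V).comp (DistribSMul.toAddMonoidHom V k)) ((DistribSMul.toAddMonoidHom V l).comp (g : AddMonoid.End V)))
    (fun l _ e => let ⟨v, hv⟩ := ne l; hv (e.ge (AddSubgroup.mem_top v)))
    (fun l _ l' _ d => eq_bot_iff.2 fun v hv => by
      by_contra v0
      exact d (smul_left_injective F ((smul_ne_zero_iff_ne g).2 v0) (hv.1.symm.trans hv.2)))
    fun v => by
      obtain ⟨a, ha, e1, e2⟩ := hg v (k • v)
      obtain ⟨σ, e⟩ := sl (h.nz ha)
      exact ⟨σ k, Finset.mem_image.2 ⟨.ofRingEquiv (f := σ) fun x =>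
        RingHom.congr_fun (RingHom.ext_zmod (σ.toRingHom.comp (algebraMap _ F)) (algebraMap _ F)) x, Finset.mem_univ _, rfl⟩,
        show g • k • v = σ k • g • v by rw [← e2, e, e1]⟩
  have c1 := (Finset.card_image_le (s := Finset.univ) (f := fun σ : F ≃ₐ[ZMod p] F => σ k)).trans
    (Finset.card_univ.trans_le (by convert AlgEquiv.card_le (F := ZMod p) (K := F)) : _ ≤ Module.finrank (ZMod p) F)
  have := h.nt
  obtain ⟨v, hv⟩ := exists_ne (0 : V)
  have c2 := Nat.card_le_card_of_injective _ (smul_left_injective F hv)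
  rw [Module.natCard_eq_pow_finrank (K := ZMod p) (V := F), Nat.card_zmod] at c2
  have c3 := Cl.lt (Module.finrank (ZMod p) F - 1)
  rw [Nat.sub_add_cancel Module.finrank_pos] at c3
  exact (((Nat.pow_le_pow_left pr.out.two_le _).trans c2).trans
    (c.trans (Nat.pow_le_pow_left (Nat.sub_le_sub_right c1 1) 2))).not_gt c3

theorem Fl.case0 (h : Fl F G) (h0 : G ⊓ Ln F V ≤ Zs F V) : cl2 G ⊓ Ln F V ≤ Zs F V := fun g hg => scal hg.2 fun v => by
  by_cases v0 : v = 0
  · exact ⟨0, by simp [v0]⟩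
  obtain ⟨γ, hγ⟩ := IsCyclic.exists_monoid_generator (α := Fˣ)
  obtain ⟨a, ha, e1, e2⟩ := hg.1 v ((γ : F) • v)
  obtain ⟨σ, e⟩ := sl (h.nz ha)
  rw [hg.2, e, ← e1] at e2
  have := smul_left_injective F ((smul_ne_zero_iff_ne a).2 v0) e2
  obtain ⟨μ, rfl⟩ := h0 ⟨ha, ln_of_gen hγ fun v => by rw [e, this]⟩
  exact ⟨μ, e1.symm⟩

theorem Fl.f2 (h : Fl F G) : 2 < Nat.card F ∨ G = ⊥ := by
  by_contra! k
  have := h.sol
  have := (nontrivial_iff_ne_bot G).2 k.2
  have : Subsingleton Fˣ := Finite.card_le_one_iff_subsingleton.1 (by rw [Nat.card_units]; omega)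
  have z : Zs F V = ⊥ := eq_bot_iff.2 fun _ ⟨μ, e⟩ => by rw [← e, Subsingleton.elim μ 1, map_one]; rfl
  obtain ⟨A, nA, ne, ab⟩ := B.ex_ab G
  refine ne ((map_eq_bot_iff_of_injective A G.subtype_injective).1 (eq_bot_iff.2 (z ▸ h.mab _ (z ▸ bot_le)
    (map_subtype_le A) (fun g hg => mem_normalizer_fintype ?_) ?_)))
  · rintro _ ⟨a, ha, rfl⟩
    exact ⟨_, nA.conj_mem a ha ⟨g, hg⟩, rfl⟩
  · rintro _ ⟨a, ha, rfl⟩ _ ⟨b, hb, rfl⟩
    exact congrArg Subtype.val (ab a ha b hb)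

end CF.C3c
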