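import Cfsg.Agent.C3c.Sl

/-! A map that agrees with semilinear affine maps on all triples is affine. -/

set_option autoImplicit false
set_option linter.unusedSectionVars false

namespace CF.C3c

open Subgroup

universe u

variable {F V : Type u} [Field F] [Finite F] [AddCommGroup V] [Finite V] [Module F V]
  {G E X : Subgroup (Gm V)} {n r : ℕ} {a b c e s t x y : Gm V} {v w : V}

namespace D

theorem tr_eq [Algebra (ZMod (ringChar F)) F] (σ : F ≃+* F) (k : F) :
    Algebra.trace (ZMod (ringChar F)) F (σ k) = Algebra.trace (ZMod (ringChar F)) F k := by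
  let τ : F ≃ₐ[ZMod (ringChar F)] F := AlgEquiv.ofRingEquiv (f := σ) (fun z => by
    have := RingHom.ext_zmod ((σ : F →+* F).comp (algebraMap (ZMod (ringChar F)) F))
      (algebraMap (ZMod (ringChar F)) F)
    exact DFunLike.congr_fun this z)
  exact Algebra.trace_eq_of_algEquiv τ k

theorem line0 (hG : G ≤ normalizer (Zs F V : Set (Gm V))) {f : V → V} (h : Af3 G f) (p d : V)
    (k : F) : ∃ σ : F ≃+* F, f (p + k • d) = f p + σ k • (f (p + d) - f p) := by
  obtain ⟨t, g, hg, h0, h1, h2⟩ := h p (p + d) (p + k • d)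
  obtain ⟨σ, hσ⟩ := sl (hG hg)
  refine ⟨σ, ?_⟩
  rw [h0, h1, h2, smul_add, smul_add, hσ]
  have : t + (g • p + g • d) - (t + g • p) = g • d := by abel
  rw [this, add_assoc]

theorem line (hG : G ≤ normalizer (Zs F V : Set (Gm V))) {f : V → V} (h : Af3 G f) (p d : V)
    (k : F) : ∃ l : F, f (p + k • d) = f p + l • (f (p + d) - f p) :=
  let ⟨σ, hσ⟩ := line0 hG h p d k
  ⟨σ k, hσ⟩

theorem line' (hG : G ≤ normalizer (Zs F V : Set (Gm V))) {f : V → V} (hi : Function.Injective f)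
    (h : Af3 G f) (p : V) {d : V} (hd : d ≠ 0) (l : F) :
    ∃ k : F, f (p + k • d) = f p + l • (f (p + d) - f p) := by
  choose L hL using line hG h p d
  have hinj : Function.Injective L := by
    intro k k' hk
    have h1 : f (p + k • d) = f (p + k' • d) := by rw [hL, hL, hk]
    exact smul_left_injective F hd (add_left_cancel (hi h1))
  obtain ⟨k, hk⟩ := Finite.surjective_of_injective hinj l
  exact ⟨k, by rw [hL, hk]⟩

theorem key (hG : G ≤ normalizer (Zs F V : Set (Gm V))) {f : V → V} (hi : Function.Injective f)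
    (h : Af3 G f) (hv : v ≠ 0) (hw : ∀ k : F, w ≠ k • v) {α β : F}
    (he : f (w + v) - f 0 = α • (f v - f 0) + β • (f w - f 0)) : β = 1 := by
  by_contra hβ
  have h1 : (1 - β) ≠ 0 := sub_ne_zero.2 (Ne.symm hβ)
  obtain ⟨k, hk⟩ := line' hG hi h w hv (1 - β)⁻¹
  obtain ⟨k', hk'⟩ := line' hG hi h 0 hv ((1 - β)⁻¹ * α)
  have h2 : f (w + v) - f w = α • (f v - f 0) - (1 - β) • (f w - f 0) := by
    have : f (w + v) = α • (f v - f 0) + β • (f w - f 0) + f 0 := by rw [← he, sub_add_cancel]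
    rw [this]; module
  have h3 : f (w + k • v) = f (0 + k' • v) := by
    rw [hk, hk', h2, smul_sub, smul_smul, smul_smul, inv_mul_cancel₀ h1, one_smul, zero_add]
    abel
  have h4 := hi h3
  refine hw (k' - k) ?_
  rw [zero_add] at h4
  rw [sub_smul, ← h4, add_sub_cancel_right]

theorem comb (hG : G ≤ normalizer (Zs F V : Set (Gm V))) (hF : 2 < Nat.card F) {f : V → V}
    (h : Af3 G f) (v w : V) :
    ∃ α β : F, f (v + w) - f 0 = α • (f v - f 0) + β • (f w - f 0) := by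
  obtain ⟨γ, h0, h1⟩ : ∃ γ : F, γ ≠ 0 ∧ γ ≠ 1 := by
    by_contra hc
    push Not at hc
    have hs : (Set.univ : Set F) ⊆ {0, 1} := by
      intro γ _
      by_cases hγ : γ = 0
      · exact Or.inl hγ
      · exact Or.inr (hc γ hγ)
    have h2 := Set.ncard_le_ncard hs
    rw [Set.ncard_univ, Set.ncard_pair (zero_ne_one' F)] at h2
    omega
  have h2 : (1 - γ) ≠ 0 := sub_ne_zero.2 (Ne.symm h1)
  obtain ⟨l, hl⟩ := line hG h (γ⁻¹ • v) ((1 - γ)⁻¹ • w - γ⁻¹ • v) (1 - γ)
  obtain ⟨l1, hl1⟩ := line hG h 0 v γ⁻¹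
  obtain ⟨l2, hl2⟩ := line hG h 0 w (1 - γ)⁻¹
  have e1 : γ⁻¹ • v + (1 - γ) • ((1 - γ)⁻¹ • w - γ⁻¹ • v) = v + w := by
    rw [smul_sub, smul_smul, smul_smul, mul_inv_cancel₀ h2, one_smul, sub_mul, one_mul,
      mul_inv_cancel₀ h0, sub_smul, one_smul]
    abel
  rw [e1, add_sub_cancel] at hl
  simp only [zero_add] at hl1 hl2
  refine ⟨l1 - l * l1, l * l2, ?_⟩
  rw [hl, hl1, hl2]; module

theorem ind (hG : G ≤ normalizer (Zs F V : Set (Gm V))) (hF : 2 < Nat.card F) {f : V → V}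
    (hi : Function.Injective f) (h : Af3 G f) (hv : v ≠ 0) (hw : ∀ k : F, w ≠ k • v) :
    f (v + w) - f 0 = (f v - f 0) + (f w - f 0) := by
  obtain ⟨α, β, he⟩ := comb hG hF h v w
  have hw0 : w ≠ 0 := by simpa using hw 0
  have hv' : ∀ k : F, v ≠ k • w := by
    intro k hk
    have hk0 : k ≠ 0 := by
      rintro rfl
      exact hv (by simpa using hk)
    exact hw k⁻¹ (by rw [hk, smul_smul, inv_mul_cancel₀ hk0, one_smul])
  have hβ : β = 1 := key hG hi h hv hw (α := α) (by rw [add_comm w v, he])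
  have hα : α = 1 := key hG hi h hw0 hv' (α := β) (by rw [he, add_comm])
  rw [he, hα, hβ, one_smul, one_smul]

end D

theorem aff1 (hG : G ≤ normalizer (Zs F V : Set (Gm V))) (hd : ∃ z : V, ∀ v, ∃ k : F, v = k • z)
    (f : V → V) (hi : Function.Injective f) (h : Af3 G f) (p q : V) :
    f (p + q) - f 0 = (f p - f 0) + (f q - f 0) := by
  obtain ⟨z, hz⟩ := hd
  by_cases hz0 : z = 0
  · have : ∀ v : V, v = 0 := fun v => by
      obtain ⟨k, hk⟩ := hz v
      rw [hk, hz0, smul_zero]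
    rw [this (f (p + q) - f 0), this (_ + _)]
  let : Algebra (ZMod (ringChar F)) F := ZMod.algebra F (ringChar F)
  obtain ⟨δ, hδ⟩ := hz (f (p + q) - f 0 - ((f p - f 0) + (f q - f 0)))
  by_cases hδ0 : δ = 0
  · rw [hδ0, zero_smul] at hδ
    exact sub_eq_zero.1 hδ
  exfalso
  obtain ⟨α, hα⟩ := FiniteField.trace_to_zmod_nondegenerate F hδ0
  have hα0 : α ≠ 0 := by
    rintro rfl
    simp at hα
  obtain ⟨β, hβ⟩ := Finite.surjective_of_injective hi (α⁻¹ • z + f 0)
  have hβ0 : β ≠ 0 := by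
    rintro rfl
    have : α⁻¹ • z = 0 := by simpa using hβ.symm
    exact hz0 ((smul_eq_zero.1 this).resolve_left (inv_ne_zero hα0))
  obtain ⟨j, hj⟩ := hz β
  have hj0 : j ≠ 0 := by
    rintro rfl
    exact hβ0 (by simpa using hj)
  have hβs : ∀ u : V, ∃ k : F, u = k • β := fun u => by
    obtain ⟨k, hk⟩ := hz u
    exact ⟨k * j⁻¹, by rw [hj, smul_smul, inv_mul_cancel_right₀ hj0, hk]⟩
  obtain ⟨k1, h1⟩ := hβs p
  obtain ⟨k2, h2⟩ := hβs q
  obtain ⟨σ1, e1⟩ := D.line0 hG h 0 β k1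
  obtain ⟨σ2, e2⟩ := D.line0 hG h 0 β k2
  obtain ⟨σ3, e3⟩ := D.line0 hG h 0 β (k1 + k2)
  simp only [zero_add] at e1 e2 e3
  rw [add_smul, ← h1, ← h2] at e3
  rw [← h1] at e1
  rw [← h2] at e2
  rw [hβ, add_sub_cancel_right] at e1 e2 e3
  have e4 : δ • z = ((σ3 (k1 + k2) - (σ1 k1 + σ2 k2)) * α⁻¹) • z := by
    rw [← hδ, e1, e2, e3]; module
  have e5 : δ * α = σ3 (k1 + k2) - (σ1 k1 + σ2 k2) := by
    rw [smul_left_injective F hz0 e4, inv_mul_cancel_right₀ hα0]
  apply hα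
  rw [e5, map_sub, D.tr_eq, map_add, map_add, D.tr_eq, D.tr_eq, sub_self]

theorem aff2 (hG : G ≤ normalizer (Zs F V : Set (Gm V))) (hF : 2 < Nat.card F)
    (hd : ∀ z : V, ∃ v, ∀ k : F, v ≠ k • z) (f : V → V) (hi : Function.Injective f) (h : Af3 G f)
    (p q : V) : f (p + q) - f 0 = (f p - f 0) + (f q - f 0) := by
  have h1 : ∀ (j : F) (u : V), (∀ k : F, u ≠ k • p) →
      f (j • p + u) - f 0 = (f (j • p) - f 0) + (f u - f 0) := by
    intro j u hu
    by_cases h0 : j • p = 0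
    · rw [h0, zero_add, sub_self, zero_add]
    · exact D.ind hG hF hi h h0 fun k hk => hu (k * j) (by rw [hk, smul_smul])
  by_cases hq : ∀ k : F, q ≠ k • p
  · simpa only [one_smul] using h1 1 q hq
  push Not at hq
  obtain ⟨k, rfl⟩ := hq
  obtain ⟨u, hu⟩ := hd p
  have e1 := h1 (1 + k) u hu
  have e2 := h1 1 (k • p + u) fun l hl => hu (l - k) (by rw [sub_smul, ← hl, add_sub_cancel_left])
  have e3 := h1 k u hu
  rw [add_smul, one_smul] at e1
  rw [one_smul, ← add_assoc, e1, e3, ← add_assoc] at e2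
  exact add_right_cancel e2

theorem aff (hG : G ≤ normalizer (Zs F V : Set (Gm V))) (hF : 2 < Nat.card F ∨ G = ⊥)
    (f : V → V) (hi : Function.Injective f) (h : Af3 G f) (p q : V) :
    f (p + q) - f 0 = (f p - f 0) + (f q - f 0) := by
  rcases hF with hF | rfl
  · by_cases hd : ∃ z : V, ∀ v, ∃ k : F, v = k • z
    · exact aff1 hG hd f hi h p q
    · push Not at hd
      exact aff2 hG hF hd f hi h p q
  · have h1 : ∀ u, f u - f 0 = u := fun u => by
      obtain ⟨t, g, hg, h0, h1, -⟩ := h 0 u 0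
      rw [mem_bot] at hg
      rw [h0, h1, hg, one_smul, one_smul, add_zero, add_sub_cancel_left]
    rw [h1, h1, h1]

end CF.C3c
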