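import Cfsg.Agent.C3c.Ce
import Cfsg.Agent.Coprime.SemiReg

/-! Maximal solvable irreducible groups. -/

set_option autoImplicit false

namespace CF.C3c

open Subgroup

universe u

variable {V : Type u} [AddCommGroup V] [Finite V]

theorem struct [Nontrivial V] (G₀ : Subgroup (Gm V)) [Group.IsSolvable G₀] (hI : Irr G₀) :
    ∃ G : Subgroup (Gm V), G₀ ≤ G ∧ Group.IsSolvable G ∧
      (Dec G ∨ ∃ (F : Type u) (_ : Field F) (_ : Finite F) (_ : Module F V), Fl F G) := by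
  obtain ⟨G, le, mG⟩ := (Set.toFinite {K : Subgroup (Gm V) | Group.IsSolvable K}).exists_le_maximal
    (a := G₀) ‹_›
  have sol : Group.IsSolvable G := mG.1
  have irr : Irr G := fun W hW => hI W fun g hg => hW g (le hg)
  obtain ⟨A, -, mA⟩ := (Set.toFinite {A : Subgroup (Gm V) | A ≤ G ∧ G ≤ normalizer (A : Set (Gm V)) ∧
    ∀ a ∈ A, ∀ b ∈ A, a * b = b * a}).exists_le_maximal (a := ⊥)
      ⟨bot_le, le_normalizer_of_normal, fun a ha b _ => by rw [mem_bot.1 ha, one_mul, mul_one]⟩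
  set R := Subring.closure (Units.val '' (A : Set (Gm V)))
  have hc : ∀ a ∈ R, ∀ b ∈ R, a * b = b * a := fun a ha b hb =>
    (Subring.closure_le (t := .centralizer {a})).2 (by
      rintro _ ⟨y, hy, rfl⟩ _ rfl
      exact ((Subring.closure_le (t := .centralizer {y.1})).2 (by
        rintro _ ⟨x, hx, rfl⟩ _ rfl
        exact congrArg Units.val (mA.1.2.2 y hy x hx)) ha _ rfl).symm) hb _ rfl
  have nR : ∀ g ∈ G, ∀ a ∈ R, Ce.cjH g a ∈ R := fun g hg a => Ce.cj_closure (mA.1.2.1 hg)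
  let U : Subgroup (Gm V) :=
    { R.toSubmonoid.comap (Units.coeHom _) with
      inv_mem' := fun {x} hx => by
        obtain ⟨k, e⟩ := mem_powers_iff_mem_zpowers.2 (inv_mem (mem_zpowers x))
        exact e ▸ (R.toSubmonoid.comap (Units.coeHom _)).pow_mem hx k }
  have ab : ∀ a ∈ U, ∀ b ∈ U, a * b = b * a := fun a ha b hb => Units.ext (hc _ ha _ hb)
  have nU : G ≤ normalizer (U : Set (Gm V)) := fun g hg => mem_normalizer_fintype fun a ha => nR g hg _ ha
  have : Group.IsSolvable U := Group.isSolvable_of_comm fun a b => Subtype.ext (ab a a.2 b b.2)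
  have lU : U ≤ G := le_sup_right.trans (mG.2 (CF.Coprime.isSolvable_sup_of_le_normalizer nU) le_sup_left)
  have AU : A ≤ U := fun a ha => Subring.subset_closure ⟨a, ha, rfl⟩
  refine ⟨G, le, sol, (ring_dich G irr R hc nR).imp_right fun h => ?_⟩
  have hF : IsField R := ⟨⟨0, 1, fun e => let ⟨v, hv⟩ := exists_ne (0 : V); hv (congrArg (fun c : R => c.1 v) e).symm⟩,
    fun a b => Subtype.ext (hc _ a.2 _ b.2), fun {a} n =>
      let ⟨b, hb, e⟩ := h a a.2 fun e => n (Subtype.ext e); ⟨⟨b, hb⟩, Subtype.ext e⟩⟩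
  letI := hF.toField
  have e : Zs R V = U := le_antisymm (by rintro _ ⟨μ, rfl⟩; exact μ.1.2) fun g hg =>
    ⟨⟨⟨g.1, hg⟩, ⟨(g⁻¹).1, inv_mem hg⟩, Subtype.ext g.mul_inv, Subtype.ext g.inv_mul⟩, gm_ext fun _ => rfl⟩
  exact ⟨R, inferInstance, inferInstance, inferInstance, ‹_›, sol, irr, fun K hK l => mG.2 hK l, e ▸ lU, e ▸ nU,
    fun B l1 l2 l3 l4 => e ▸ (mA.2 ⟨l2, l3, l4⟩ (AU.trans (e ▸ l1))).trans AU⟩

end CF.C3c
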