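import Cfsg.Agent.C3c.A

/-! The commutator form of a group of symplectic type. -/

set_option autoImplicit false
set_option linter.unusedSectionVars false

namespace CF.C3c

open Subgroup

universe u

variable {F V : Type u} [Field F] [Finite F] [AddCommGroup V] [Finite V] [Module F V]
  {G E X : Subgroup (Gm V)} {n r : ℕ} {a b c e s t x y : Gm V} {v w : V}

theorem Val.nt (h : Val F E r) : Nontrivial V := by
  by_contra hn
  have : Subsingleton V := not_nontrivial_iff_subsingleton.1 hn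
  exact h.ne fun g _ => ⟨1, gm_ext fun v => Subsingleton.elim _ _⟩

theorem Val.scc (h : Val F E r) (ha : a ∈ E) (μ : Fˣ) : a * sc F V μ = sc F V μ * a :=
  sc_comm (h.lin ha) μ

theorem Val.scm (h : Val F E r) (μ : Fˣ) : sc F V μ ∈ E := h.zle (sc_mem μ)

theorem Val.bt_spec (h : Val F E r) (ha : a ∈ E) (hb : b ∈ E) :
    a * b = sc F V (bt F a b) * (b * a) := by
  have h1 : ∃ μ : Fˣ, a * b = sc F V μ * (b * a) := by
    obtain ⟨μ, hμ⟩ := h.comm a ha b hb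
    exact ⟨μ, by rw [hμ]; group⟩
  rw [bt, dif_pos h1]
  exact h1.choose_spec

theorem Val.bt_smul (h : Val F E r) (ha : a ∈ E) (hb : b ∈ E) (v : V) :
    a • b • v = (bt F a b : F) • b • a • v := by
  rw [← mul_smul, h.bt_spec ha hb, mul_smul, mul_smul, sc_smul]

theorem Val.bt_eq (h : Val F E r) (ha : a ∈ E) (hb : b ∈ E) {μ : Fˣ}
    (hμ : a * b = sc F V μ * (b * a)) : bt F a b = μ := by
  have := h.nt
  exact sc_inj (V := V) (mul_right_cancel ((h.bt_spec ha hb).symm.trans hμ))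

theorem Val.bt_one (h : Val F E r) (ha : a ∈ E) (hb : b ∈ E) : bt F a b = 1 ↔ a * b = b * a :=
  ⟨fun h1 => by rw [h.bt_spec ha hb, h1, map_one, one_mul],
    fun h1 => h.bt_eq ha hb (by rw [map_one, one_mul, h1])⟩

theorem Val.bt_mul_left (h : Val F E r) (ha : a ∈ E) (hb : b ∈ E) (hc : c ∈ E) :
    bt F (a * b) c = bt F a c * bt F b c := by
  refine h.bt_eq (E.mul_mem ha hb) hc ?_
  rw [mul_assoc, h.bt_spec hb hc, ← mul_assoc, h.scc ha, mul_assoc, ← mul_assoc a, h.bt_spec ha hc,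
    mul_comm (bt F a c), map_mul]
  simp only [mul_assoc]

theorem Val.bt_mul_right (h : Val F E r) (ha : a ∈ E) (hb : b ∈ E) (hc : c ∈ E) :
    bt F a (b * c) = bt F a b * bt F a c := by
  refine h.bt_eq ha (E.mul_mem hb hc) ?_
  rw [← mul_assoc, h.bt_spec ha hb, mul_assoc, mul_assoc, h.bt_spec ha hc, ← mul_assoc b, h.scc hb,
    map_mul]
  simp only [mul_assoc]

theorem Val.bt_Z_left (h : Val F E r) (ha : a ∈ Zs F V) (hb : b ∈ E) : bt F a b = 1 := by
  obtain ⟨μ, rfl⟩ := ha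
  exact (h.bt_one (h.scm μ) hb).2 (h.scc hb μ).symm

theorem Val.bt_Z_right (h : Val F E r) (ha : a ∈ E) (hb : b ∈ Zs F V) : bt F a b = 1 := by
  obtain ⟨μ, rfl⟩ := hb
  exact (h.bt_one ha (h.scm μ)).2 (h.scc ha μ)

theorem Val.bt_inv_left (h : Val F E r) (ha : a ∈ E) (hb : b ∈ E) :
    bt F a⁻¹ b = (bt F a b)⁻¹ := by
  rw [eq_inv_iff_mul_eq_one, ← h.bt_mul_left (E.inv_mem ha) ha hb, inv_mul_cancel]
  exact h.bt_Z_left (one_mem _) hb

theorem Val.bt_inv_right (h : Val F E r) (ha : a ∈ E) (hb : b ∈ E) :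
    bt F a b⁻¹ = (bt F a b)⁻¹ := by
  rw [eq_inv_iff_mul_eq_one, ← h.bt_mul_right ha (E.inv_mem hb) hb, inv_mul_cancel]
  exact h.bt_Z_right ha (one_mem _)

theorem Val.bt_pow_left (h : Val F E r) (ha : a ∈ E) (hb : b ∈ E) (k : ℕ) :
    bt F (a ^ k) b = bt F a b ^ k := by
  induction k with
  | zero => rw [pow_zero, pow_zero]; exact h.bt_Z_left (one_mem _) hb
  | succ k ih => rw [pow_succ, pow_succ, h.bt_mul_left (E.pow_mem ha k) ha hb, ih]

theorem Val.bt_pow_right (h : Val F E r) (ha : a ∈ E) (hb : b ∈ E) (k : ℕ) :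
    bt F a (b ^ k) = bt F a b ^ k := by
  induction k with
  | zero => rw [pow_zero, pow_zero]; exact h.bt_Z_right ha (one_mem _)
  | succ k ih => rw [pow_succ, pow_succ, h.bt_mul_right ha (E.pow_mem hb k) hb, ih]

theorem Val.bt_self (h : Val F E r) (ha : a ∈ E) : bt F a a = 1 := (h.bt_one ha ha).2 rfl

theorem Val.bt_symm (h : Val F E r) (ha : a ∈ E) (hb : b ∈ E) : bt F b a = (bt F a b)⁻¹ := by
  refine h.bt_eq hb ha ?_
  rw [h.bt_spec ha hb, ← mul_assoc, ← map_mul, inv_mul_cancel, map_one, one_mul]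

theorem Val.bt_one_comm (h : Val F E r) (ha : a ∈ E) (hb : b ∈ E) : bt F a b = 1 ↔ bt F b a = 1 := by
  rw [h.bt_symm ha hb, inv_eq_one]

theorem Val.bt_pow_r (h : Val F E r) (ha : a ∈ E) (hb : b ∈ E) : bt F a b ^ r = 1 := by
  rw [← h.bt_pow_left ha hb, h.bt_Z_left (h.pow a ha) hb]

theorem Val.prim (h : Val F E r) {μ : Fˣ} (h0 : μ ^ r = 1) (h1 : μ ≠ 1) : IsPrimitiveRoot μ r := by
  have := Fact.mk h.pr
  rw [← orderOf_eq_prime h0 h1]
  exact IsPrimitiveRoot.orderOf μ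

theorem Val.bt_prim (h : Val F E r) (ha : a ∈ E) (hb : b ∈ E) (h1 : bt F a b ≠ 1) :
    IsPrimitiveRoot (bt F a b) r := h.prim (h.bt_pow_r ha hb) h1

theorem Val.bt_two (h : Val F E 2) (ha : a ∈ E) (hb : b ∈ E) : bt F a b = 1 ∨ bt F a b = -1 := by
  have h1 : ((bt F a b : Fˣ) : F) ^ 2 = 1 := by
    rw [← Units.val_pow_eq_pow_val, h.bt_pow_r ha hb, Units.val_one]
  rcases sq_eq_one_iff.1 h1 with h2 | h2
  · exact Or.inl (Units.ext h2)
  · exact Or.inr (Units.ext (by simpa using h2))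

theorem Val.ex_bt (h : Val F E r) (ha : a ∈ E) (hz : a ∉ Zs F V) : ∃ b ∈ E, bt F a b ≠ 1 := by
  by_contra hn
  push Not at hn
  exact hz (h.nd a ha fun b hb => (h.bt_one ha hb).1 (hn b hb))

theorem Val.ex_prim (h : Val F E r) : ∃ ω : Fˣ, IsPrimitiveRoot ω r := by
  obtain ⟨a, ha, hz⟩ := SetLike.not_le_iff_exists.1 h.ne
  obtain ⟨b, hb, h1⟩ := h.ex_bt ha hz
  exact ⟨_, h.bt_prim ha hb h1⟩

theorem Val.r_ne (h : Val F E r) : (r : F) ≠ 0 := by
  obtain ⟨ω, hω⟩ := h.ex_prim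
  have : NeZero r := ⟨h.pr.ne_zero⟩
  exact (IsPrimitiveRoot.neZero' (IsPrimitiveRoot.coe_units_iff.2 hω)).out

theorem Val.neg_ne (h : Val F E 2) : (-1 : Fˣ) ≠ 1 := by
  intro h1
  have h2 : (-1 : F) = 1 := by simpa using congrArg Units.val h1
  refine h.r_ne ?_
  push_cast
  linear_combination -h2

theorem Val.bt_two' (h : Val F E 2) (ha : a ∈ E) (hb : b ∈ E) (h1 : bt F a b ≠ 1) : bt F a b = -1 :=
  (h.bt_two ha hb).resolve_left h1

theorem Val.bt_conj (h : Val F E r) (ht : t ∈ NN F E) {σ : F ≃+* F}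
    (hσ : ∀ (k : F) (v : V), t • k • v = σ k • t • v) (ha : a ∈ E) (hb : b ∈ E) :
    (bt F (t * a * t⁻¹) (t * b * t⁻¹) : F) = σ (bt F a b) := by
  have h0 : σ (bt F a b) ≠ 0 := by simp
  have := h.bt_eq (NN.conj ht ha) (NN.conj ht hb) (μ := Units.mk0 _ h0) (gm_ext fun v => by
    simp only [mul_smul, inv_smul_smul, sc_smul, Units.val_mk0]
    rw [h.bt_smul ha hb, hσ])
  rw [this, Units.val_mk0]

theorem Val.bt_conj_one (h : Val F E r) (ht : t ∈ NN F E) (ha : a ∈ E) (hb : b ∈ E) :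
    bt F (t * a * t⁻¹) (t * b * t⁻¹) = 1 ↔ bt F a b = 1 := by
  rw [h.bt_one (NN.conj ht ha) (NN.conj ht hb), h.bt_one ha hb]
  constructor
  · intro h1
    calc a * b = t⁻¹ * (t * a * t⁻¹ * (t * b * t⁻¹)) * t := by group
      _ = b * a := by rw [h1]; group
  · intro h1
    calc t * a * t⁻¹ * (t * b * t⁻¹) = t * (a * b) * t⁻¹ := by group
      _ = _ := by rw [h1]; group

theorem Val.bt_conj_two (h : Val F E 2) (ht : t ∈ NN F E) (ha : a ∈ E) (hb : b ∈ E) :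
    bt F (t * a * t⁻¹) (t * b * t⁻¹) = bt F a b := by
  by_cases h1 : bt F a b = 1
  · rw [h1, (h.bt_conj_one ht ha hb).2 h1]
  · rw [h.bt_two' ha hb h1,
      h.bt_two' (NN.conj ht ha) (NN.conj ht hb) (mt (h.bt_conj_one ht ha hb).1 h1)]

theorem Val.mul_pow (h : Val F E r) (ha : a ∈ E) (hb : b ∈ E) (k : ℕ) :
    (a * b) ^ k = sc F V (bt F b a ^ k.choose 2) * (a ^ k * b ^ k) := by
  induction k with
  | zero => simp
  | succ k ih =>
    have h1 := h.bt_spec (E.pow_mem hb k) ha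
    rw [h.bt_pow_left hb ha] at h1
    have h2 : (k + 1).choose 2 = k.choose 2 + k := by
      rw [Nat.choose_succ_succ' k 1, Nat.choose_one_right, add_comm]
    rw [pow_succ, ih, h2, pow_add, map_mul, pow_succ, pow_succ]
    calc sc F V (bt F b a ^ k.choose 2) * (a ^ k * b ^ k) * (a * b)
        = sc F V (bt F b a ^ k.choose 2) * (a ^ k * (b ^ k * a) * b) := by simp only [mul_assoc]
      _ = _ := by
        rw [h1, ← mul_assoc (a ^ k), h.scc (E.pow_mem ha k)]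
        simp only [mul_assoc]

/-- shifting eigenvalues -/
theorem Val.shift (h : Val F E r) (ha : a ∈ E) (hb : b ∈ E) {μ : F} (hv : a • v = μ • v) :
    a • b • v = ((bt F a b : F) * μ) • b • v := by
  rw [h.bt_smul ha hb, hv, h.lin hb, mul_smul]

theorem ev_ne (hv : v ≠ 0) {μ : F} (h1 : a • v = μ • v) : μ ≠ 0 := by
  rintro rfl
  rw [zero_smul, smul_eq_zero_iff_eq] at h1
  exact hv h1

theorem gm_ne (a : Gm V) (hv : v ≠ 0) : a • v ≠ 0 := fun h1 => hv ((smul_eq_zero_iff_eq a).1 h1)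

theorem Val.bt_ev (h : Val F E r) (ha : a ∈ E) (hb : b ∈ E) (hv : v ≠ 0) (h1 : Ev F a v)
    (h2 : Ev F b v) : bt F a b = 1 := by
  obtain ⟨μ, h1⟩ := h1
  obtain ⟨ν, h2⟩ := h2
  have h3 := h.shift ha hb h1
  rw [h2, h.lin ha, h1, smul_smul, smul_smul] at h3
  have h4 := smul_left_injective F hv h3
  have h5 := mul_ne_zero (ev_ne hv h1) (ev_ne hv h2)
  refine Units.ext (mul_right_cancel₀ h5 ?_)
  simp only [Units.val_one] at h4 ⊢
  linear_combination -h4

/-- eigenvectors move along `E`-orbits -/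
theorem Val.ev_smul (h : Val F E r) (ha : a ∈ E) (hb : b ∈ E) : Ev F a (b • v) ↔ Ev F a v := by
  have key : ∀ b ∈ E, ∀ v : V, Ev F a v → Ev F a (b • v) :=
    fun b hb v ⟨μ, hμ⟩ => ⟨_, h.shift ha hb hμ⟩
  refine ⟨fun h1 => ?_, key b hb v⟩
  simpa using key _ (E.inv_mem hb) _ h1

end CF.C3c
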