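import Cfsg.Agent.C3c.Gs
import Cfsg.Agent.BG.B6

/-! Existence of invariant groups of symplectic type. -/

set_option autoImplicit false
set_option linter.unusedSectionVars false

namespace CF.C3c

open Subgroup CF.BG

universe u

variable {F V : Type u} [Field F] [Finite F] [AddCommGroup V] [Finite V] [Module F V]
  {G E X : Subgroup (Gm V)} {n r : ℕ} {a b c e s t x y : Gm V} {v w : V}

theorem Ge.mul (h : Val F E r) (hq : r ≠ 2 ∨ IsSquare (-1 : F)) (ha : a ∈ E) (hb : b ∈ E) {α β : Fˣ}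
    (e1 : a ^ r = sc F V α) (e2 : b ^ r = sc F V β) : ∃ δ : Fˣ, (a * b) ^ r = sc F V (δ ^ r * (α * β)) := by
  obtain ⟨δ, e⟩ : ∃ δ : Fˣ, bt F b a ^ r.choose 2 = δ ^ r := by
    by_cases r2 : r = 2
    · subst r2
      obtain ⟨i, hi⟩ := hq.resolve_left (by simp)
      rcases h.bt_two hb ha with e | e
      · exact ⟨1, by simp [e]⟩
      · exact ⟨Units.mk0 i (by rintro rfl; simp at hi), Units.ext (by simp [e, hi, sq])⟩
    obtain ⟨k, e⟩ := h.pr.dvd_choose_self two_ne_zero (lt_of_le_of_ne h.pr.two_le (Ne.symm r2))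
    exact ⟨1, by rw [e, pow_mul, h.bt_pow_r hb ha, one_pow, one_pow]⟩
  exact ⟨δ, by rw [h.mul_pow ha hb, e, e1, e2, map_mul, map_mul]⟩

theorem Val.dich (h : Val F E r) (hd : closure {a | a ∈ E ∧ Spl F a} = E ∨
      ∀ a ∈ E, Spl F a → a ∈ Zs F V) : Ok F E r ∨ (Zs F V).relIndex E ≤ 4 := by
  obtain ⟨a, ha, hz⟩ := SetLike.not_le_iff_exists.1 h.ne
  by_cases hq : r ≠ 2 ∨ IsSquare (-1 : F)
  · rcases hd with hd | hd
    · refine .inl (.inl fun x hx => ?_)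
      rw [← hd] at hx
      refine (closure_induction (p := fun x _ => x ∈ E ∧ Spl F x) (fun _ k => k) ⟨one_mem _, h.spl_Z (one_mem _)⟩
        (fun x y _ _ hx hy => ⟨mul_mem hx.1 hy.1, ?_⟩) (fun x _ hx => ⟨inv_mem hx.1, ?_⟩) hx).2
      · obtain ⟨α, e1⟩ := (h.spl_iff hx.1).1 hx.2
        obtain ⟨β, e2⟩ := (h.spl_iff hy.1).1 hy.2
        obtain ⟨δ, e⟩ := Ge.mul h hq hx.1 hy.1 e1 e2
        exact (h.spl_iff (mul_mem hx.1 hy.1)).2 ⟨δ * (α * β), by rw [e, _root_.mul_pow, _root_.mul_pow]⟩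
      · obtain ⟨α, e1⟩ := (h.spl_iff hx.1).1 hx.2
        exact (h.spl_iff (inv_mem hx.1)).2 ⟨α⁻¹, by rw [inv_pow, e1, inv_pow, map_inv]⟩
    refine absurd (h.nd a ha fun b hb => ?_) hz
    obtain ⟨γ, hγ⟩ := IsCyclic.exists_monoid_generator (α := Fˣ)
    obtain ⟨α, e1⟩ := h.pow a ha
    obtain ⟨β, e2⟩ := h.pow b hb
    obtain ⟨i, rfl⟩ := hγ α
    obtain ⟨j, rfl⟩ := hγ β
    have := Fact.mk h.pr
    have ni : (i : ZMod r) ≠ 0 := fun e => by
      obtain ⟨m, rfl⟩ := (ZMod.natCast_eq_zero_iff _ _).1 e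
      exact hz (hd a ha ((h.spl_iff ha).2 ⟨γ ^ m, by rw [← e1, ← pow_mul, mul_comm]⟩))
    obtain ⟨k, m, e⟩ : ∃ k, r ∣ j + i * k :=
      ⟨(-j / i : ZMod r).val, (ZMod.natCast_eq_zero_iff _ _).1 (by push_cast; rw [ZMod.natCast_zmod_val]; field_simp; ring)⟩
    obtain ⟨δ, e3⟩ := Ge.mul h hq hb (pow_mem ha k) e2.symm (β := γ ^ (i * k))
      (by rw [← pow_mul, mul_comm k, pow_mul, ← e1, ← map_pow, ← pow_mul])
    have := Zs_comm (hd _ (mul_mem hb (pow_mem ha k)) ((h.spl_iff (mul_mem hb (pow_mem ha k))).2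
      ⟨δ * γ ^ m, by rw [e3, ← pow_add, e, _root_.mul_pow, ← pow_mul, mul_comm m]⟩)) (h.lin ha)
    rw [mul_assoc, ← pow_succ, pow_succ', ← mul_assoc, ← mul_assoc] at this
    exact (mul_right_cancel this).symm
  rw [not_or, not_not] at hq
  obtain ⟨rfl, hq⟩ := hq
  rcases hd with hd | hd
  · exact .inl (.inr ⟨rfl, hq, hd⟩)
  obtain ⟨c, hc, k⟩ := h.ex_bt ha hz
  have one : ∀ e ∈ E, bt F a e = 1 → e ∈ Zs F V ∨ a * e ∈ Zs F V := fun e he k => by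
    by_cases s : Spl F e
    · exact .inl (hd e he s)
    · exact .inr (hd _ (mul_mem ha he) ((h.spl_mul ha he k).2 (iff_of_false (mt (hd a ha) hz) s)))
  refine .inr ((Nat.card_le_card_of_surjective (fun i : Fin 4 => (QuotientGroup.mk
    (![1, ⟨a, ha⟩, ⟨c, hc⟩, ⟨a * c, mul_mem ha hc⟩] i : E)⁻¹ : E ⧸ (Zs F V).subgroupOf E)) fun q => ?_).trans (by simp))
  obtain ⟨⟨e, he⟩, rfl⟩ := QuotientGroup.mk_surjective q
  simp only [QuotientGroup.eq, inv_inv, mem_subgroupOf]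
  by_cases k' : bt F a e = 1
  · rcases one e he k' with m | m
    exacts [⟨0, by simpa using m⟩, ⟨1, m⟩]
  rcases one _ (mul_mem hc he) (by rw [h.bt_mul_right ha hc he, h.bt_two' ha hc k, h.bt_two' ha he k']; simp) with m | m
  exacts [⟨2, m⟩, ⟨3, by simpa [mul_assoc] using m⟩]

theorem Ge.prime {H : Type*} [Group H] {Z : Subgroup H} {a : H} (hz : a ∉ Z) {n : ℕ} (n0 : n ≠ 0) (h : a ^ n ∈ Z) :
    ∃ r k : ℕ, r.Prime ∧ a ^ k ∉ Z ∧ (a ^ k) ^ r ∈ Z := by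
  induction n using induction_on_primes with
  | zero => exact absurd rfl n0
  | one => exact absurd (pow_one a ▸ h) hz
  | prime_mul p m hp ih =>
    by_cases k : a ^ m ∈ Z
    · exact ih (right_ne_zero_of_mul n0) k
    · exact ⟨p, m, hp, k, by rwa [← pow_mul, mul_comm]⟩

theorem Fl.exVal (h : Fl F G) (Γ K : Subgroup (Gm V)) (hG : G ≤ Γ)
    (hΓ : Γ ≤ normalizer (Zs F V : Set (Gm V))) (hK : K ≤ G) (hL : K ≤ Ln F V) (hZ : Zs F V ≤ K)
    (hn : ¬ K ≤ Zs F V) (hN : Γ ≤ normalizer (K : Set (Gm V))) :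
    ∃ E r, Val F E r ∧ E ≤ K ∧ Γ ≤ normalizer (E : Set (Gm V)) ∧
      (Ok F E r ∨ (Zs F V).relIndex E ≤ 4) := by
  obtain ⟨D, ⟨d1, d2, d3, d4⟩, mn⟩ := exists_minimal_of_wellFoundedLT
    (fun D : Subgroup (Gm V) => Zs F V ≤ D ∧ D ≤ K ∧ ¬ D ≤ Zs F V ∧ Γ ≤ 𝐍 D) ⟨K, hZ, le_rfl, hn, hN⟩
  have min : ∀ {S}, Zs F V ≤ S → S ≤ D → Γ ≤ 𝐍 S → S ≤ Zs F V ∨ D ≤ S := fun a b c =>
    or_iff_not_imp_left.2 fun n => mn ⟨a, b.trans d2, n, c⟩ b
  have dL := d2.trans hL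
  have zc : Zs F V ≤ 𝐂 D := fun z hz => mem_cent.2 fun d hd => (Zs_comm hz (dL hd)).symm
  have cm : ⁅D, D⁆ ≤ Zs F V := by
    rcases min le_sup_right (sup_le (der_le D) d1) (norm_sup (norm_commutator d4 d4) hΓ) with k | k
    · exact le_sup_left.trans k
    have nz : Zs F V ≤ 𝐍 ⁅D, D⁆ := norm_of_cent (cent_mono zc le_rfl (der_le D))
    rw [Sol.eq_bot_of_le_der (H := ⁅D, D⁆) (Sol.mono h.sol ((der_le D).trans (d2.trans hK)))
      (commutator_le.2 fun x hx y hy => ?_)]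
    · exact bot_le
    obtain ⟨a, ha, z, hz, rfl⟩ := (mem_sup_norm' nz).1 (k hx)
    obtain ⟨b, hb, z', hz', rfl⟩ := (mem_sup_norm' nz).1 (k hy)
    have c1 := mem_cent.1 (zc hz) _ hy
    have c2 := mem_cent.1 (zc hz') _ (inv_mem (der_le D ha))
    convert commutator_mem_commutator ha hb using 1
    rw [commutatorElement_def, mul_assoc a z, ← c1, _root_.mul_inv_rev, _root_.mul_inv_rev]
    calc _ = a * b * (z' * a⁻¹) * z'⁻¹ * b⁻¹ := by group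
      _ = _ := by rw [← c2]; group
  have cm' : ∀ a ∈ D, ∀ b ∈ D, a * b * a⁻¹ * b⁻¹ ∈ Zs F V := fun a ha b hb => cm (commutator_mem_commutator ha hb)
  obtain ⟨a, ha, hz⟩ := SetLike.not_le_iff_exists.1 d3
  obtain ⟨r, k, pr, k1, k2⟩ := Ge.prime hz (orderOf_pos a).ne' (pow_orderOf_eq_one a ▸ one_mem _)
  have pw : ∀ a ∈ D, ∀ b ∈ D, ∀ i, ∃ z ∈ Zs F V, (a * b) ^ i = z * (a ^ i * b ^ i) := fun a ha b hb i => by
    induction i with
    | zero => exact ⟨1, one_mem _, by simp⟩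
    | succ i ih =>
      obtain ⟨z, hz, e⟩ := ih
      have m := cm' _ (pow_mem hb i) a ha
      refine ⟨_, mul_mem hz m, ?_⟩
      rw [pow_succ, e, pow_succ, pow_succ, mul_assoc z, mul_assoc z, mul_assoc (a ^ i) a, ← mul_assoc _ (a ^ i),
        Zs_comm m (dL (pow_mem ha i))]
      group
  let S : Subgroup (Gm V) :=
    { carrier := {d | d ∈ D ∧ d ^ r ∈ Zs F V}
      one_mem' := ⟨one_mem _, by simp⟩
      mul_mem' := fun {a b} ha hb => ⟨mul_mem ha.1 hb.1, by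
        obtain ⟨z, hz, e⟩ := pw a ha.1 b hb.1 r
        exact e ▸ mul_mem hz (mul_mem ha.2 hb.2)⟩
      inv_mem' := fun ha => ⟨inv_mem ha.1, by rw [inv_pow]; exact inv_mem ha.2⟩ }
  have v : Val F D r := ⟨pr, d1, dL, d3, cm', fun a ha => (((min (S := S) (fun z hz => ⟨d1 hz, pow_mem hz r⟩)
    (fun _ k => k.1) fun g hg => mem_norm_of_cj_le fun _ hx => by
      obtain ⟨x, k, rfl⟩ := mem_cj_iff.1 hx
      exact ⟨conj_mem_of_norm (d4 hg) k.1, by rw [conj_pow]; exact conj_mem_of_norm (hΓ hg) k.2⟩).resolve_left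
      fun l => k1 (l ⟨pow_mem (by assumption) k, k2⟩)) ha).2, fun a ha c =>
    h.mab (𝐙 D) (le_inf d1 zc) (inf_le_left.trans (d2.trans hK)) (norm_inf_cent (hG.trans d4) (hG.trans d4))
      (fun _ hx _ hy => (center_abel D).mul_comm hx hy) ⟨ha, mem_cent.2 fun b hb => (c b hb).symm⟩⟩
  refine ⟨D, r, v, d2, d4, v.dich ?_⟩
  have l : closure {a | a ∈ D ∧ Spl F a} ≤ D := (closure_le _).2 fun _ k => k.1
  have m : ∀ {a}, a ∈ D → Spl F a → a ∈ closure {a | a ∈ D ∧ Spl F a} := fun k k' => Subgroup.subset_closure ⟨k, k'⟩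
  rcases min (fun z hz => m (d1 hz) (v.spl_Z hz)) l (fun g hg => mem_norm_of_cj_le (cj_le_iff.2
    ((closure_le _).2 fun x k => mem_cj_inv.2 (m (conj_mem_of_norm (d4 hg) k.1) (k.2.conj (hΓ hg)))))) with k | k
  exacts [.inr fun a ha s => k (m ha s), .inl (le_antisymm l k)]

end CF.C3c
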