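import Cfsg.Agent.C3c.G

/-! The groups generated by one or two elements and the scalars. -/

set_option autoImplicit false
set_option linter.unusedSectionVars false

namespace CF.C3c

open Subgroup

universe u

variable {F V : Type u} [Field F] [Finite F] [AddCommGroup V] [Finite V] [Module F V]
  {G E X : Subgroup (Gm V)} {n r : ℕ} {a b c e s t x y : Gm V} {v w : V}

theorem in1_of_Z (he : e ∈ Zs F V) : In1 F x e := by
  obtain ⟨μ, rfl⟩ := he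
  exact ⟨μ, 0, by simp⟩

theorem in1_self : In1 F x x := ⟨1, 1, by simp⟩

theorem in1_pow (k : ℕ) : In1 F x (x ^ k) := ⟨1, k, by simp⟩

theorem In1.in2 (h1 : In1 F x e) : In2 F x y e := by
  obtain ⟨μ, k, rfl⟩ := h1
  exact ⟨μ, k, 0, by simp⟩

theorem in2_right : In2 F x y y := ⟨1, 0, 1, by simp⟩

theorem Val.in1_mem (h : Val F E r) (hx : x ∈ E) (h1 : In1 F x e) : e ∈ E := by
  obtain ⟨μ, k, rfl⟩ := h1
  exact E.mul_mem (h.scm μ) (E.pow_mem hx k)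

theorem Val.in1_mul (h : Val F E r) (hx : x ∈ E) (h1 : In1 F x a) (h2 : In1 F x b) :
    In1 F x (a * b) := by
  obtain ⟨μ, k, rfl⟩ := h1
  obtain ⟨ν, l, rfl⟩ := h2
  refine ⟨μ * ν, k + l, ?_⟩
  rw [map_mul, pow_add, mul_assoc, ← mul_assoc (x ^ k), h.scc (E.pow_mem hx k)]
  simp only [mul_assoc]

theorem Gi.inv_pow (a : Gm V) : ∃ k : ℕ, a⁻¹ = a ^ k := by
  have h1 := orderOf_pos a
  refine ⟨orderOf a - 1, ?_⟩
  rw [inv_eq_iff_mul_eq_one, ← pow_succ', Nat.sub_add_cancel h1, pow_orderOf_eq_one]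

theorem Val.in1_pow' (h : Val F E r) (hx : x ∈ E) (h1 : In1 F x a) (k : ℕ) : In1 F x (a ^ k) := by
  induction k with
  | zero => exact in1_of_Z (by rw [pow_zero]; exact one_mem _)
  | succ k ih => rw [pow_succ]; exact h.in1_mul hx ih h1

theorem Val.in1_inv (h : Val F E r) (hx : x ∈ E) (h1 : In1 F x a) : In1 F x a⁻¹ := by
  obtain ⟨k, hk⟩ := Gi.inv_pow a
  rw [hk]
  exact h.in1_pow' hx h1 k

theorem Val.in1_bt' (h : Val F E r) (hx : x ∈ E) (hy : y ∈ E) (μ : Fˣ) (k : ℕ) :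
    bt F (sc F V μ * x ^ k) y = bt F x y ^ k := by
  rw [h.bt_mul_left (h.scm μ) (E.pow_mem hx k) hy, h.bt_Z_left (sc_mem μ) hy, one_mul,
    h.bt_pow_left hx hy]

theorem Val.in1_bt (h : Val F E r) (hx : x ∈ E) (hy : y ∈ E) (h1 : In1 F x e) (h2 : bt F x y = 1) :
    bt F e y = 1 := by
  obtain ⟨μ, k, rfl⟩ := h1
  rw [h.in1_bt' hx hy, h2, one_pow]

theorem Val.pow_Z (h : Val F E r) (hx : x ∈ E) {k : ℕ} (hk : r ∣ k) : x ^ k ∈ Zs F V := by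
  obtain ⟨l, rfl⟩ := hk
  rw [pow_mul]
  exact pow_mem (h.pow x hx) l

/-- an element of `⟨x⟩Z` that commutes with something `x` does not commute with is a scalar -/
theorem Val.in1_Z (h : Val F E r) (hx : x ∈ E) (hy : y ∈ E) (h1 : In1 F x e) (h2 : bt F x y ≠ 1)
    (h3 : bt F e y = 1) : e ∈ Zs F V := by
  obtain ⟨μ, k, rfl⟩ := h1
  rw [h.in1_bt' hx hy] at h3
  exact mul_mem (sc_mem μ) (h.pow_Z hx ((h.bt_prim hx hy h2).dvd_of_pow_eq_one k h3))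

theorem Val.in1_trans (h : Val F E r) (hx : x ∈ E) (h1 : In1 F x y) (h2 : In1 F y e) :
    In1 F x e := by
  obtain ⟨μ, k, rfl⟩ := h2
  exact h.in1_mul hx (in1_of_Z (sc_mem μ)) (h.in1_pow' hx h1 k)

theorem Val.eq_pow (h : Val F E r) {ζ μ : Fˣ} (hζ : IsPrimitiveRoot ζ r) (hμ : μ ^ r = 1) :
    ∃ k < r, ζ ^ k = μ := by
  have : NeZero r := ⟨h.pr.ne_zero⟩
  exact hζ.eq_pow_of_mem_rootsOfUnity ((mem_rootsOfUnity r μ).2 hμ)

theorem Val.perp1 (h : Val F E r) (ha : a ∈ E) (hb : b ∈ E)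
    (hp : ∀ y ∈ E, bt F b y = 1 → bt F a y = 1) : In1 F b a := by
  by_cases hz : b ∈ Zs F V
  · exact in1_of_Z (h.nd a ha fun y hy => (h.bt_one ha hy).1 (hp y hy (h.bt_Z_left hz hy)))
  obtain ⟨y₀, hy₀, h1⟩ := h.ex_bt hb hz
  have hζ := h.bt_prim hb hy₀ h1
  obtain ⟨k, -, hk⟩ := h.eq_pow hζ (h.bt_pow_r ha hy₀)
  have hk' := E.pow_mem hb k
  have h2 : a * (b ^ k)⁻¹ ∈ Zs F V := by
    have hm := E.mul_mem ha (E.inv_mem hk')
    refine h.nd _ hm fun y hy => (h.bt_one hm hy).1 ?_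
    obtain ⟨j, -, hj⟩ := h.eq_pow hζ (h.bt_pow_r hb hy)
    have hj' := E.pow_mem hy₀ j
    have h3 := hp _ (E.mul_mem hy (E.inv_mem hj')) (by
      rw [h.bt_mul_right hb hy (E.inv_mem hj'), h.bt_inv_right hb hj', h.bt_pow_right hb hy₀, hj,
        mul_inv_cancel])
    rw [h.bt_mul_right ha hy (E.inv_mem hj'), h.bt_inv_right ha hj', h.bt_pow_right ha hy₀,
      mul_inv_eq_one] at h3
    rw [h.bt_mul_left ha (E.inv_mem hk') hy, h.bt_inv_left hk' hy, h.bt_pow_left hb hy, h3, ← hk,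
      ← hj, ← pow_mul, ← pow_mul, mul_comm k, mul_inv_cancel]
  obtain ⟨μ, hμ⟩ := h2
  exact ⟨μ, k, by rw [hμ, inv_mul_cancel_right]⟩

theorem Val.in1_symm (h : Val F E r) (hx : x ∈ E) (h1 : In1 F x e) (hz : e ∉ Zs F V) :
    In1 F e x :=
  h.perp1 hx (h.in1_mem hx h1) fun _ hy h2 => by
    by_contra h3
    exact hz (h.in1_Z hx hy h1 h3 h2)

theorem ev_sc (μ : Fˣ) (v : V) : Ev F (sc F V μ) v := ⟨μ, rfl⟩

theorem Ev.mul (ha : a ∈ Ln F V) (h1 : Ev F a v) (h2 : Ev F b v) : Ev F (a * b) v := by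
  obtain ⟨μ, h1⟩ := h1
  obtain ⟨ν, h2⟩ := h2
  exact ⟨ν * μ, by rw [mul_smul, h2, ha, h1, mul_smul]⟩

theorem Ev.pow (ha : a ∈ Ln F V) (h1 : Ev F a v) (k : ℕ) : Ev F (a ^ k) v := by
  induction k with
  | zero => exact ⟨1, by simp⟩
  | succ k ih => rw [pow_succ']; exact h1.mul ha ih

theorem Ev.inv (ha : a ∈ Ln F V) (h1 : Ev F a v) : Ev F a⁻¹ v := by
  obtain ⟨k, hk⟩ := Gi.inv_pow a
  rw [hk]
  exact h1.pow ha k

theorem ev_Z (ha : a ∈ Zs F V) (v : V) : Ev F a v := by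
  obtain ⟨μ, rfl⟩ := ha
  exact ev_sc μ v

theorem Val.in1_ev (h : Val F E r) (hx : x ∈ E) (h1 : In1 F x e) (h2 : Ev F x v) : Ev F e v := by
  obtain ⟨μ, k, rfl⟩ := h1
  exact (ev_sc μ v).mul (Zs_le_Ln (sc_mem μ)) (h2.pow (h.lin hx) k)

theorem Val.in1_two (h : Val F E 2) (hx : x ∈ E) :
    In1 F x e ↔ e ∈ Zs F V ∨ e * x⁻¹ ∈ Zs F V := by
  constructor
  · rintro ⟨μ, k, rfl⟩
    rcases Nat.even_or_odd' k with ⟨l, rfl | rfl⟩
    · exact Or.inl (mul_mem (sc_mem μ) (h.pow_Z hx ⟨l, rfl⟩))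
    · right
      rw [pow_succ, mul_assoc, mul_inv_cancel_right]
      exact mul_mem (sc_mem μ) (h.pow_Z hx ⟨l, rfl⟩)
  · rintro (h1 | ⟨μ, h1⟩)
    · exact in1_of_Z h1
    · exact ⟨μ, 1, by rw [h1, pow_one, inv_mul_cancel_right]⟩

theorem Val.in2_mem (h : Val F E r) (hx : x ∈ E) (hy : y ∈ E) (h1 : In2 F x y e) : e ∈ E := by
  obtain ⟨μ, k, l, rfl⟩ := h1
  exact E.mul_mem (E.mul_mem (h.scm μ) (E.pow_mem hx k)) (E.pow_mem hy l)

theorem Val.in2_mul (h : Val F E r) (hx : x ∈ E) (hy : y ∈ E) (h1 : In2 F x y a) (h2 : In2 F x y b) :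
    In2 F x y (a * b) := by
  obtain ⟨μ, k, l, rfl⟩ := h1
  obtain ⟨ν, k', l', rfl⟩ := h2
  have hk := E.pow_mem hx k
  have hl := E.pow_mem hy l
  have hk' := E.pow_mem hx k'
  refine ⟨μ * ν * bt F (y ^ l) (x ^ k'), k + k', l + l', ?_⟩
  calc sc F V μ * x ^ k * y ^ l * (sc F V ν * x ^ k' * y ^ l')
      = sc F V μ * (x ^ k * y ^ l * sc F V ν) * x ^ k' * y ^ l' := by simp only [mul_assoc]
    _ = sc F V μ * sc F V ν * (x ^ k * (y ^ l * x ^ k')) * y ^ l' := by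
      rw [h.scc (E.mul_mem hk hl)]; simp only [mul_assoc]
    _ = _ := by
      rw [h.bt_spec hl hk', ← mul_assoc (x ^ k), h.scc hk, map_mul, map_mul, pow_add, pow_add]
      simp only [mul_assoc]

theorem Val.in2_pow (h : Val F E r) (hx : x ∈ E) (hy : y ∈ E) (h1 : In2 F x y a) (k : ℕ) :
    In2 F x y (a ^ k) := by
  induction k with
  | zero => exact (in1_of_Z (by rw [pow_zero]; exact one_mem _)).in2
  | succ k ih => rw [pow_succ]; exact h.in2_mul hx hy ih h1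

theorem Val.in2_inv (h : Val F E r) (hx : x ∈ E) (hy : y ∈ E) (h1 : In2 F x y a) :
    In2 F x y a⁻¹ := by
  obtain ⟨k, hk⟩ := Gi.inv_pow a
  rw [hk]
  exact h.in2_pow hx hy h1 k

theorem Val.in2_bt (h : Val F E r) (hx : x ∈ E) (hy : y ∈ E) (hc : c ∈ E) (h1 : In2 F x y e)
    (h2 : bt F x c = 1) (h3 : bt F y c = 1) : bt F e c = 1 := by
  obtain ⟨μ, k, l, rfl⟩ := h1
  rw [h.bt_mul_left (E.mul_mem (h.scm μ) (E.pow_mem hx k)) (E.pow_mem hy l) hc, h.in1_bt' hx hc,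
    h.bt_pow_left hy hc, h2, h3, one_pow, one_pow, one_mul]

theorem Val.in2_ev (h : Val F E r) (hx : x ∈ E) (hy : y ∈ E) (h1 : In2 F x y e) (h2 : Ev F x v)
    (h3 : Ev F y v) : Ev F e v := by
  obtain ⟨μ, k, l, rfl⟩ := h1
  exact (h.in1_ev hx ⟨μ, k, rfl⟩ h2).mul (h.lin (h.in1_mem hx ⟨μ, k, rfl⟩)) (h3.pow (h.lin hy) l)

theorem Val.in2_two (h : Val F E 2) (hx : x ∈ E) (hy : y ∈ E) :
    In2 F x y e ↔ In1 F x e ∨ In1 F x (e * y⁻¹) := by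
  constructor
  · rintro ⟨μ, k, l, rfl⟩
    rcases Nat.even_or_odd' l with ⟨m, rfl | rfl⟩
    · exact Or.inl (h.in1_mul hx ⟨μ, k, rfl⟩ (in1_of_Z (h.pow_Z hy ⟨m, rfl⟩)))
    · right
      rw [pow_succ, mul_assoc, mul_inv_cancel_right]
      exact h.in1_mul hx ⟨μ, k, rfl⟩ (in1_of_Z (h.pow_Z hy ⟨m, rfl⟩))
  · rintro (h1 | h1)
    · exact h1.in2
    · simpa using h.in2_mul hx hy h1.in2 in2_right

theorem Val.in2_swap (h : Val F E r) (hx : x ∈ E) (hy : y ∈ E) (h1 : In2 F x y e) :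
    In2 F y x e := by
  obtain ⟨μ, k, l, rfl⟩ := h1
  exact h.in2_mul hy hx (h.in2_mul hy hx (in1_of_Z (sc_mem μ)).in2 (h.in2_pow hy hx in2_right k))
    (in1_pow l).in2

theorem ev_conj_fix (ht : t ∈ normalizer (Zs F V : Set (Gm V))) (hv : v ≠ 0) (h : Ev F e v) :
    Ev F (t * e * t⁻¹) (t • v) := by
  obtain ⟨μ, hμ⟩ := h
  obtain ⟨ν, hν⟩ := (ht (sc F V (Units.mk0 μ (ev_ne hv hμ)))).1 (sc_mem _)
  refine ⟨ν, ?_⟩
  rw [← sc_smul, hν]
  simp only [mul_smul, inv_smul_smul, hμ, sc_smul, Units.val_mk0]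

theorem Gen.conj (hg : Gen F E x v) (hx : x ∈ E) (ht : t ∈ NN F E) (hv : t • v = v) :
    In1 F x (t * x * t⁻¹) := by
  refine hg.2.2 _ (NN.conj ht hx) ?_
  have := ev_conj_fix ht.2 hg.1 hg.2.1
  rwa [hv] at this

theorem Val.perp2 (h : Val F E r) (ha : a ∈ E) (hb : b ∈ E) (hc : c ∈ E)
    (hp : ∀ y ∈ E, bt F b y = 1 → bt F c y = 1 → bt F a y = 1) : In2 F b c a := by
  by_cases hz : ∀ y ∈ E, bt F b y = 1 → bt F c y = 1
  · exact (h.perp1 ha hb fun y hy h1 => hp y hy h1 (hz y hy h1)).in2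
  push Not at hz
  obtain ⟨y₀, hy₀, h0, h1⟩ := hz
  have hζ := h.bt_prim hc hy₀ h1
  obtain ⟨k, -, hk⟩ := h.eq_pow hζ (h.bt_pow_r ha hy₀)
  have hk' := E.pow_mem hc k
  have h2 : In1 F b (a * (c ^ k)⁻¹) := by
    refine h.perp1 (E.mul_mem ha (E.inv_mem hk')) hb fun y hy hby => ?_
    obtain ⟨j, -, hj⟩ := h.eq_pow hζ (h.bt_pow_r hc hy)
    have hj' := E.pow_mem hy₀ j
    have h3 := hp _ (E.mul_mem hy (E.inv_mem hj')) (by
      rw [h.bt_mul_right hb hy (E.inv_mem hj'), h.bt_inv_right hb hj', h.bt_pow_right hb hy₀, hby,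
        h0, one_pow, mul_inv_cancel]) (by
      rw [h.bt_mul_right hc hy (E.inv_mem hj'), h.bt_inv_right hc hj', h.bt_pow_right hc hy₀, hj,
        mul_inv_cancel])
    rw [h.bt_mul_right ha hy (E.inv_mem hj'), h.bt_inv_right ha hj', h.bt_pow_right ha hy₀,
      mul_inv_eq_one] at h3
    rw [h.bt_mul_left ha (E.inv_mem hk') hy, h.bt_inv_left hk' hy, h.bt_pow_left hc hy, h3, ← hk,
      ← hj, ← pow_mul, ← pow_mul, mul_comm k, mul_inv_cancel]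
  simpa using h.in2_mul hb hc h2.in2 (h.in2_pow hb hc in2_right k)

end CF.C3c
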