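import Cfsg.Agent.C3c.Sl

/-! Elements with an eigenvector. -/

set_option autoImplicit false
set_option linter.unusedSectionVars false

namespace CF.C3c

open Subgroup

universe u

variable {F V : Type u} [Field F] [Finite F] [AddCommGroup V] [Finite V] [Module F V]
  {G E X : Subgroup (Gm V)} {n r : ℕ} {a b c e s t x y : Gm V} {v w : V}

theorem pow_ev (ha : a ∈ Ln F V) {μ : F} (hv : a • v = μ • v) (k : ℕ) : a ^ k • v = μ ^ k • v := by
  induction k with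
  | zero => simp
  | succ k ih => rw [pow_succ', mul_smul, ih, ha, hv, pow_succ, mul_smul]

theorem sum_fix (h1 : s ^ r = 1) (v : V) :
    s • ∑ j ∈ Finset.range r, s ^ j • v = ∑ j ∈ Finset.range r, s ^ j • v := by
  have h2 := Finset.sum_range_succ (fun j => s ^ j • v) r
  rw [Finset.sum_range_succ', h1, pow_zero] at h2
  rw [Finset.smul_sum, ← add_right_cancel h2]
  exact Finset.sum_congr rfl fun j _ => by rw [pow_succ', mul_smul]

theorem sc_mul_pow (ha : a ∈ Ln F V) (μ : Fˣ) (k : ℕ) :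
    (sc F V μ * a) ^ k = sc F V (μ ^ k) * a ^ k := by
  rw [Commute.mul_pow (sc_comm ha μ).symm, map_pow]

theorem Gs.tot (h : Val F E r) (hs : s ∈ E) {ω : Fˣ} (hω : IsPrimitiveRoot ω r) (v : V) :
    ∑ i ∈ Finset.range r, ∑ j ∈ Finset.range r, (sc F V (ω ^ i) * s) ^ j • v = (r : F) • v := by
  rw [Finset.sum_comm, Finset.sum_eq_single 0]
  · simp [Nat.cast_smul_eq_nsmul]
  · intro j hj h0
    have h1 : ω ^ j ≠ 1 := fun h1 =>
      h0 (Nat.eq_zero_of_dvd_of_lt (hω.dvd_of_pow_eq_one j h1) (Finset.mem_range.1 hj))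
    have h2 := IsPrimitiveRoot.coe_units_iff.2
      (h.prim (μ := ω ^ j) (by rw [← pow_mul, mul_comm, pow_mul, hω.pow_eq_one, one_pow]) h1)
    have h3 := h2.geom_sum_eq_zero h.pr.one_lt
    simp only [sc_mul_pow (h.lin hs), mul_smul, sc_smul]
    rw [← Finset.sum_smul]
    have : ∑ i ∈ Finset.range r, (((ω ^ i) ^ j : Fˣ) : F) = 0 := by
      rw [← h3]
      exact Finset.sum_congr rfl fun i _ => by
        rw [← pow_mul, mul_comm, pow_mul, Units.val_pow_eq_pow_val]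
    rw [this, zero_smul]
  · intro h0
    exact absurd (Finset.mem_range.2 h.pr.pos) h0

theorem Gs.one (h : Val F E r) (hs : s ∈ E) (h1 : s ^ r = 1) {μ : Fˣ} (hμ : μ ^ r = 1) :
    (sc F V μ * s) ^ r = 1 := by
  rw [sc_mul_pow (h.lin hs), hμ, h1, map_one, one_mul]

theorem Val.decomp (h : Val F E r) (hs : s ∈ E) (h1 : s ^ r = 1) (W : AddSubgroup V)
    (hW : ∀ (μ : Fˣ) (v : V), μ ^ r = 1 → s • v = (μ : F) • v → v ∈ W) : W = ⊤ := by
  obtain ⟨ω, hω⟩ := h.ex_prim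
  rw [eq_top_iff]
  intro v _
  rw [← smul_inv_smul₀ h.r_ne v, ← Gs.tot h hs hω]
  refine W.sum_mem fun i _ => ?_
  have h2 : (ω ^ i) ^ r = 1 := by rw [← pow_mul, mul_comm, pow_mul, hω.pow_eq_one, one_pow]
  refine hW (ω ^ i)⁻¹ _ (by rw [inv_pow, h2, inv_one]) ?_
  have h3 := sum_fix (Gs.one h hs h1 h2) ((r : F)⁻¹ • v)
  rw [mul_smul, sc_smul] at h3
  rw [Units.val_inv_eq_inv_val, eq_inv_smul_iff₀ (Units.ne_zero _), h3]

theorem Gs.ex (h : Val F E r) (hs : s ∈ E) (h1 : s ^ r = 1) :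
    ∃ (μ : Fˣ) (v : V), μ ^ r = 1 ∧ v ≠ 0 ∧ s • v = (μ : F) • v := by
  have := h.nt
  by_contra hn
  push Not at hn
  refine bot_ne_top (h.decomp hs h1 ⊥ fun μ v hμ hv => ?_)
  by_contra h0
  exact hn μ v hμ h0 hv

theorem Val.spl_iff (h : Val F E r) (ha : a ∈ E) :
    Spl F a ↔ ∃ μ : Fˣ, a ^ r = sc F V (μ ^ r) := by
  constructor
  · rintro ⟨v, hv, μ, hμ⟩
    obtain ⟨ν, hν⟩ := h.pow a ha
    refine ⟨Units.mk0 μ (ev_ne hv hμ), ?_⟩
    have h1 := pow_ev (h.lin ha) hμ r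
    rw [← hν, sc_smul] at h1
    rw [← hν]
    congr 1
    exact Units.ext (by simpa using smul_left_injective F hv h1)
  · rintro ⟨μ, hμ⟩
    obtain ⟨ν, v, -, hv, h1⟩ := Gs.ex h (E.mul_mem (h.scm μ⁻¹) ha) (by
      rw [sc_mul_pow (h.lin ha), hμ, ← map_mul, inv_pow, inv_mul_cancel, map_one])
    have := Spl.sc_mul (F := F) μ ⟨v, hv, _, h1⟩
    rwa [← mul_assoc, ← map_mul, mul_inv_cancel, map_one, one_mul] at this

theorem Val.spl_Z (h : Val F E r) (ha : a ∈ Zs F V) : Spl F a := by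
  have := h.nt
  obtain ⟨v, hv⟩ := exists_ne (0 : V)
  exact ⟨v, hv, ev_Z ha v⟩

theorem Val.norm (h : Val F E r) (ha : a ∈ E) (hs : Spl F a) :
    ∃ μ : Fˣ, (sc F V μ * a) ^ r = 1 := by
  obtain ⟨μ, hμ⟩ := (h.spl_iff ha).1 hs
  exact ⟨μ⁻¹, by rw [sc_mul_pow (h.lin ha), hμ, ← map_mul, inv_pow, inv_mul_cancel, map_one]⟩

theorem Val.eig (h : Val F E r) (hs : s ∈ E) (hz : s ∉ Zs F V) (h1 : s ^ r = 1) {μ : Fˣ}
    (hμ : μ ^ r = 1) : ∃ v : V, v ≠ 0 ∧ s • v = (μ : F) • v := by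
  obtain ⟨ν, v, hν, hv, h2⟩ := Gs.ex h hs h1
  obtain ⟨e, he, h3⟩ := h.ex_bt hs hz
  obtain ⟨k, -, hk⟩ := h.eq_pow (h.bt_prim hs he h3) (μ := μ * ν⁻¹)
    (by rw [_root_.mul_pow, inv_pow, hμ, hν, inv_one, one_mul])
  refine ⟨e ^ k • v, gm_ne _ hv, ?_⟩
  rw [h.shift hs (E.pow_mem he k) h2, h.bt_pow_right hs he, hk, ← Units.val_mul, inv_mul_cancel_right]

/-- a split element can be scaled so that its averaging operator does not kill `v` -/
theorem Val.avg (h : Val F E r) (hs : s ∈ E) (h1 : Spl F s) (hv : v ≠ 0) :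
    ∃ μ : Fˣ, (sc F V μ * s) ^ r = 1 ∧ ∑ j ∈ Finset.range r, (sc F V μ * s) ^ j • v ≠ 0 := by
  obtain ⟨μ, hμ⟩ := h.norm hs h1
  obtain ⟨ω, hω⟩ := h.ex_prim
  have hs' := E.mul_mem (h.scm μ) hs
  have h2 := Gs.tot h hs' hω v
  obtain ⟨i, -, hi⟩ := Finset.exists_ne_zero_of_sum_ne_zero
    (h2.trans_ne (smul_ne_zero h.r_ne hv))
  refine ⟨ω ^ i * μ, ?_, ?_⟩
  · rw [map_mul, mul_assoc]
    exact Gs.one h hs' hμ (by rw [← pow_mul, mul_comm, pow_mul, hω.pow_eq_one, one_pow])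
  · rwa [map_mul, mul_assoc]

theorem Gs.spl_sq (h : Val F E 2) (ha : a ∈ E) {α : Fˣ} (hα : a ^ 2 = sc F V α) :
    Spl F a ↔ IsSquare (α : F) := by
  have := h.nt
  rw [h.spl_iff ha, hα]
  constructor
  · rintro ⟨μ, hμ⟩
    exact ⟨μ, by rw [sc_inj hμ, pow_two, Units.val_mul]⟩
  · rintro ⟨μ, hμ⟩
    have h0 : μ ≠ 0 := fun h0 => α.ne_zero (by rw [hμ, h0, mul_zero])
    exact ⟨Units.mk0 μ h0, congrArg _ (Units.ext (by rw [hμ, pow_two]; rfl))⟩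

theorem Gs.sq_mul (α β : Fˣ) :
    IsSquare ((α * β : Fˣ) : F) ↔ (IsSquare (α : F) ↔ IsSquare (β : F)) := by
  classical
  have := Fintype.ofFinite F
  rw [← quadraticChar_one_iff_isSquare (Units.ne_zero _), ← quadraticChar_one_iff_isSquare α.ne_zero,
    ← quadraticChar_one_iff_isSquare β.ne_zero, Units.val_mul, map_mul]
  rcases quadraticChar_dichotomy α.ne_zero with h1 | h1 <;>
    rcases quadraticChar_dichotomy β.ne_zero with h2 | h2 <;> simp [h1, h2]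

theorem Gs.mul_sq (h : Val F E 2) (ha : a ∈ E) (hb : b ∈ E) {α β : Fˣ} (hα : sc F V α = a ^ 2)
    (hβ : sc F V β = b ^ 2) : (a * b) ^ 2 = sc F V (bt F b a * (α * β)) := by
  rw [h.mul_pow ha hb, ← hα, ← hβ, map_mul, map_mul]
  simp

theorem Val.spl_mul (h : Val F E 2) (ha : a ∈ E) (hb : b ∈ E) (h1 : bt F a b = 1) :
    Spl F (a * b) ↔ (Spl F a ↔ Spl F b) := by
  obtain ⟨α, hα⟩ := h.pow a ha
  obtain ⟨β, hβ⟩ := h.pow b hb
  rw [Gs.spl_sq h (E.mul_mem ha hb) (Gs.mul_sq h ha hb hα hβ), Gs.spl_sq h ha hα.symm, Gs.spl_sq h hb hβ.symm,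
    (h.bt_one_comm ha hb).1 h1, one_mul, Gs.sq_mul]

theorem Val.spl_mul' (h : Val F E 2) (hq : ¬ IsSquare (-1 : F)) (ha : a ∈ E) (hb : b ∈ E)
    (h1 : bt F a b ≠ 1) : Spl F (a * b) ↔ ¬ (Spl F a ↔ Spl F b) := by
  obtain ⟨α, hα⟩ := h.pow a ha
  obtain ⟨β, hβ⟩ := h.pow b hb
  rw [Gs.spl_sq h (E.mul_mem ha hb) (Gs.mul_sq h ha hb hα hβ), Gs.spl_sq h ha hα.symm, Gs.spl_sq h hb hβ.symm,
    h.bt_two' hb ha (mt (h.bt_one_comm ha hb).2 h1), Gs.sq_mul, Gs.sq_mul]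
  simp only [Units.val_neg, Units.val_one, hq, false_iff]

theorem Ok.gen (h : Ok F E r) : closure {a | a ∈ E ∧ Spl F a} = E := by
  rcases h with h | h
  · rw [show {a | a ∈ E ∧ Spl F a} = (E : Set (Gm V)) from
      Set.ext fun a => ⟨fun h1 => h1.1, fun h1 => ⟨h1, h a h1⟩⟩, closure_eq]
  · exact h.2.2

theorem Val.ex_spl (h : Val F E r) (ho : Ok F E r) : ∃ x ∈ E, x ∉ Zs F V ∧ Spl F x := by
  by_contra hn
  push Not at hn
  refine h.ne (ho.gen ▸ (closure_le _).2 fun a ha => ?_)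
  by_contra h1
  exact hn a ha.1 h1 ha.2

theorem Val.ex_spl_bt (h : Val F E r) (ho : Ok F E r) (ha : a ∈ E) (hz : a ∉ Zs F V) :
    ∃ s ∈ E, Spl F s ∧ bt F s a ≠ 1 := by
  by_contra hn
  push Not at hn
  refine hz (h.nd a ha fun b hb => ?_)
  have : E ≤ centralizer {a} := ho.gen ▸ (closure_le _).2 fun s hs =>
    mem_centralizer_singleton_iff.2 ((h.bt_one hs.1 ha).1 (hn s hs.1 hs.2))
  exact (mem_centralizer_singleton_iff.1 (this hb)).symm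

end CF.C3c
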