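import Cfsg.Agent.C3c.Gs

/-! A linear map moving every vector inside its `E`-orbit normalises the split classes up to inversion. -/

set_option autoImplicit false
set_option linter.unusedSectionVars false

namespace CF.C3c

open Subgroup

universe u

variable {F V : Type u} [Field F] [Finite F] [AddCommGroup V] [Finite V] [Module F V]
  {G E X : Subgroup (Gm V)} {n r : ℕ} {a b c e s t x y : Gm V} {v w : V}

theorem H1.two (h : Val F E r) (hE : ∀ v : V, ∃ e ∈ E, y • v = e • v) (hs : s ∈ E) {μ ν α β : F} (hv : v ≠ 0)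
    (hw : w ≠ 0) (v1 : s • v = μ • v) (v2 : s • y • v = α • y • v) (w1 : s • w = ν • w)
    (w2 : s • y • w = β • y • w) : α * ν = β * μ ∨ α * μ = β * ν := by
  obtain ⟨e, he, k⟩ := hE (v + w)
  rw [smul_add, smul_add] at k
  have e1 := h.shift hs he v1
  have e2 := h.shift hs he w1
  generalize (bt F s e : F) = θ at e1 e2
  have nz : ∀ {g : Gm V} {u : V}, u ≠ 0 → g • u ≠ 0 := fun hu => (smul_ne_zero_iff_ne _).2 hu
  by_cases c : θ * μ = θ * ν
  · have ab : α = β := by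
      by_contra ab
      obtain ⟨P, p1, p0⟩ := proj (h.lin hs) α
      have k' := congrArg P k
      rw [map_add, p1 _ v2, p0 _ _ (Ne.symm ab) w2, add_zero] at k'
      have e3 : s • (e • v + e • w) = (θ * μ) • (e • v + e • w) := by rw [smul_add, e1, e2, ← c, smul_add]
      by_cases d : θ * μ = α
      · rw [p1 _ (d ▸ e3), ← k] at k'
        exact nz hw (left_eq_add.1 k')
      · exact nz hv (k'.trans (p0 _ _ d e3))
    by_cases d : θ = 0
    · rw [d, zero_mul, zero_smul] at e1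
      exact absurd e1 (nz (nz hv))
    rw [ab, mul_left_cancel₀ d c]
    exact .inl rfl
  have one : ∀ {l l' : F} {p q : V}, p ≠ 0 → y • v + y • w = p + q → s • p = l • p → s • q = l' • q → l ≠ l' →
      α = l ∨ β = l := fun {l l' p q} hp k f1 f2 d => by
    by_contra! ne
    obtain ⟨P, p1, p0⟩ := proj (h.lin hs) l
    have k' := congrArg P k
    rw [map_add, map_add, p0 _ _ ne.1 v2, p0 _ _ ne.2 w2, p1 _ f1, p0 _ _ d.symm f2, add_zero, add_zero] at k'
    exact hp k'.symm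
  rcases one (nz hv) k e1 e2 c with rfl | rfl <;>
    rcases one (nz hw) (k.trans (add_comm _ _)) e2 e1 (Ne.symm c) with d | d
  exacts [absurd d c, .inl (by rw [d]; ring), .inr (by rw [d]; ring), absurd d c]

theorem H1.core (h : Val F E r) (hy : y ∈ Ln F V) (hE : ∀ v : V, ∃ e ∈ E, y • v = e • v) (hs : s ∈ E)
    (hz : s ∉ Zs F V) (h1 : s ^ r = 1) : ∃ c : Fˣ, s * y = sc F V c * y * s ∨ s * y * s = sc F V c * y := by
  have ev : ∀ {μ : Fˣ} {v : V}, s • v = (μ : F) • v → ∃ α : Fˣ, s • y • v = (α : F) • y • v := fun {μ v} k => by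
    obtain ⟨e, he, k'⟩ := hE v
    exact ⟨bt F s e * μ, by rw [k', h.shift hs he k, Units.val_mul]⟩
  obtain ⟨v, hv, v1⟩ := h.eig hs hz h1 (one_pow r)
  obtain ⟨c, v2⟩ := ev v1
  have eq : ∀ {a b : Gm V}, (∀ (μ : Fˣ) (w : V), w ≠ 0 → s • w = (μ : F) • w → a • w = b • w) → a = b :=
    fun {a b} k => gm_ext fun w => by
      have := h.decomp hs h1 (AddMonoidHom.eqLocus (a : AddMonoid.End V) (b : AddMonoid.End V)) fun μ w _ e => by
        by_cases w0 : w = 0
        · exact w0 ▸ zero_mem _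
        · exact k μ w w0 e
      exact (this ▸ AddSubgroup.mem_top w : w ∈ AddMonoidHom.eqLocus _ _)
  refine ⟨c, or_iff_not_imp_left.2 fun n => eq fun ν w hw w1 => ?_⟩
  obtain ⟨β, w2⟩ := ev w1
  obtain ⟨μ, u, hu, u1, n⟩ : ∃ (μ : Fˣ) (u : V), u ≠ 0 ∧ s • u = (μ : F) • u ∧
      (s * y) • u ≠ (sc F V c * y * s) • u := by
    by_contra! k
    exact n (eq k)
  obtain ⟨α, u2⟩ := ev u1
  have na : (α : F) ≠ c * μ := fun e => n (by rw [mul_smul, mul_smul, mul_smul, u2, u1, hy, sc_smul, e, mul_smul])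
  have k : (β : F) * ν = c := by
    have r1 := (H1.two h hE hs hv hu v1 v2 u1 u2).resolve_left fun e => na (by simpa using e.symm)
    rcases H1.two h hE hs hv hw v1 v2 w1 w2 with r2 | r2
    · rcases H1.two h hE hs hu hw u1 u2 w1 w2 with r3 | r3
      · refine absurd (mul_right_cancel₀ ν.ne_zero ?_) na
        rw [r3, mul_right_comm, r2, Units.val_one, mul_one]
      · rw [← r3, ← r1, Units.val_one, mul_one]
    · rw [← r2, Units.val_one, mul_one]
  rw [mul_smul, mul_smul, mul_smul, w1, hy, h.lin hs, w2, sc_smul, ← k, mul_comm, mul_smul]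

theorem Val.h1 (h : Val F E r) (hy : y ∈ Ln F V) (hE : ∀ v : V, ∃ e ∈ E, y • v = e • v) (hs : s ∈ E)
    (h1 : Spl F s) : y * s * y⁻¹ * s⁻¹ ∈ Zs F V ∨ y * s * y⁻¹ * s ∈ Zs F V := by
  by_cases hz : s ∈ Zs F V
  · exact .inl (by rw [← Zs_comm hz hy]; simp)
  obtain ⟨μ, k⟩ := h.norm hs h1
  have sl := h.lin hs
  obtain ⟨c, e | e⟩ := H1.core h hy hE (mul_mem (h.scm μ) hs) (fun e => hz ((mul_mem_cancel_left (sc_mem μ)).1 e)) k
  · refine .inl (mem_Zs.2 ⟨c⁻¹, ?_⟩)
    rw [← mul_assoc _ _ s, sc_comm (mul_mem (Zs_le_Ln (sc_mem c)) hy), mul_assoc, mul_assoc, mul_right_inj] at e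
    rw [map_inv, eq_mul_inv_iff_mul_eq, eq_mul_inv_iff_mul_eq, mul_assoc, e]; group
  · refine .inr (mem_Zs.2 ⟨(μ * μ)⁻¹ * c, (mul_left_cancel (a := s) ?_)⟩)
    rw [mul_assoc _ s, mul_assoc, ← mul_assoc _ _ s, sc_comm (mul_mem sl hy)] at e
    rw [sc_comm sl, map_mul, map_inv, map_mul, ← mul_inv_cancel_right (sc F V c) y, ← e]
    group

end CF.C3c
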