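import Cfsg.Agent.C3c.A
import Cfsg.Agent.Perm.AltOn

/-! Sections of an action; affine sections. -/

set_option autoImplicit false

namespace CF.C3c

open Subgroup

universe u

namespace Sec

variable {S : Type u} {L : Type*} [Finite S] (D : Set S) (π : S → L)

/-- the permutations preserving `D` and the fibres of `π` -/
def GP : Subgroup (Equiv.Perm S) :=
  let M : Submonoid (Equiv.Perm S) :=
    { carrier := {σ | Good D π σ}
      one_mem' := fun _ ha => ⟨ha, fun _ _ e => e⟩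
      mul_mem' := fun {σ τ} hσ hτ a ha => ⟨(hσ _ (hτ a ha).1).1, fun b hb e =>
        (hσ _ (hτ a ha).1).2 _ (hτ b hb).1 ((hτ a ha).2 b hb e)⟩ }
  { M with
    inv_mem' := fun {σ} hσ => by
      obtain ⟨k, e⟩ := mem_powers_iff_mem_zpowers.2 (inv_mem (mem_zpowers σ))
      exact e ▸ M.pow_mem hσ k }

/-- the set of fibres -/
abbrev Q : Type u := Quotient (Setoid.ker fun a : D => π a)

instance : MulAction (GP D π) (Q D π) where
  smul g := Quotient.map (fun a => ⟨g.1 a, (g.2 a a.2).1⟩) fun a b e => (g.2 a a.2).2 b b.2 e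
  one_smul a := Quotient.inductionOn a fun _ => rfl
  mul_smul _ _ a := Quotient.inductionOn a fun _ => rfl

theorem card_Q : Nat.card (Q D π) = (π '' D).ncard := by
  rw [Nat.card_congr (Setoid.quotientKerEquivRange _), Set.image_eq_range, Nat.card_coe_set_eq]

end Sec

section S

theorem sec {n : ℕ} (hP : PP.{u} n) {S X Y : Type u} {L : Type*} [Finite S] [Group X] [Group Y]
    [MulAction X S] [MulAction Y S] [Group.IsSolvable Y] [Group.IsPerfect X] (D : Set S) (π : S → L)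
    (hc : (π '' D).ncard < n) (hX : ∀ x : X, Good D π (fun s => x • s))
    (ha : ∀ x : X, ∀ a ∈ D, ∀ b ∈ D, ∀ c ∈ D, ∃ y : Y, Good D π (fun s => y • s) ∧
      π (y • a) = π (x • a) ∧ π (y • b) = π (x • b) ∧ π (y • c) = π (x • c)) :
    ∀ x : X, ∀ a ∈ D, π (x • a) = π a := by
  intro x a h
  letI := MulAction.compHom (Sec.Q D π) ((MulAction.toPermHom X S).codRestrict (Sec.GP D π) hX)
  letI := MulAction.compHom (Sec.Q D π) ((MulAction.toPermHom Y S).subgroupComap (Sec.GP D π))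
  refine Quotient.exact (hP (Sec.Q D π) X ((Sec.GP D π).comap (MulAction.toPermHom Y S)) (Sec.card_Q D π ▸ hc)
    inferInstance inferInstance (fun x a b c => ?_) x (Quotient.mk _ ⟨a, h⟩))
  induction a using Quotient.inductionOn with | _ a => ?_
  induction b using Quotient.inductionOn with | _ b => ?_
  induction c using Quotient.inductionOn with | _ c => ?_
  obtain ⟨y, hy, e1, e2, e3⟩ := ha x a a.2 b b.2 c c.2
  exact ⟨⟨y, hy⟩, Quotient.sound e1, Quotient.sound e2, Quotient.sound e3⟩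

theorem sec4 {S X : Type u} {L : Type*} [Finite S] [Group X] [MulAction X S] [Group.IsPerfect X]
    (D : Set S) (π : S → L) (hc : (π '' D).ncard ≤ 4) (hX : ∀ x : X, Good D π (fun s => x • s)) :
    ∀ x : X, ∀ a ∈ D, π (x • a) = π a := by
  intro x a h
  let f := (MulAction.toPermHom _ (Sec.Q D π)).comp ((MulAction.toPermHom X S).codRestrict (Sec.GP D π) hX)
  have := CF.Perm.isSolvable_perm (X := Sec.Q D π) (Sec.card_Q D π ▸ hc)
  have p := Group.IsPerfect.range f
  have : Subsingleton f.range := not_nontrivial_iff_subsingleton.1 fun _ =>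
    Group.IsPerfect.not_isSolvable (G := f.range) inferInstance
  have e : f x = 1 := congrArg Subtype.val (Subsingleton.elim (⟨_, x, rfl⟩ : f.range) 1)
  exact Quotient.exact (congrArg (· (Quotient.mk _ ⟨a, h⟩)) e)

end S

section Sa

variable {V : Type u} [AddCommGroup V] [Finite V] {n : ℕ}

namespace Sec

/-- the affine group with linear parts in `G` -/
def Af (G : Subgroup (Gm V)) : Subgroup (Equiv.Perm V) where
  carrier := {σ | ∃ t, ∃ g ∈ G, ∀ v, σ v = t + g • v}
  one_mem' := ⟨0, 1, one_mem _, fun v => by simp⟩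
  mul_mem' := by
    rintro σ τ ⟨t, g, hg, e⟩ ⟨s, k, hk, f⟩
    exact ⟨t + g • s, g * k, mul_mem hg hk, fun v => by
      rw [Equiv.Perm.mul_apply, e, f, smul_add, mul_smul, add_assoc]⟩
  inv_mem' := by
    rintro σ ⟨t, g, hg, e⟩
    exact ⟨-(g⁻¹ • t), g⁻¹, inv_mem hg, fun v => by
      rw [Equiv.Perm.inv_eq_iff_eq, e, smul_add, smul_neg, smul_inv_smul, smul_inv_smul, add_neg_cancel_left]⟩

theorem solv_Af (G : Subgroup (Gm V)) [Group.IsSolvable G] : Group.IsSolvable (Af G) := by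
  choose t g hg e using fun σ : Af G => σ.2
  have e0 : ∀ σ v, g σ • v = σ.1 v - σ.1 0 := fun σ v => by rw [e, e, smul_zero, add_zero, add_sub_cancel_left]
  refine Group.isSolvable_of_ker_le_range (G' := Multiplicative V) (G'' := G)
    (MonoidHom.mk' (fun s => ⟨Equiv.addLeft s.toAdd, s.toAdd, 1, one_mem _, fun v => by simp⟩)
      fun a b => Subtype.ext (Equiv.ext fun v => add_assoc _ _ _))
    (MonoidHom.mk' (fun σ => ⟨g σ, hg σ⟩) fun σ τ => Subtype.ext (gm_ext fun v => ?_)) fun σ hσ =>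
      ⟨Multiplicative.ofAdd (t σ), Subtype.ext (Equiv.ext fun v => ?_)⟩
  · change g (σ * τ) • v = (g σ * g τ) • v
    rw [mul_smul, e0 τ, smul_sub, e0, e0, e0]
    simp
  · rw [e σ, show g σ = 1 from congrArg Subtype.val hσ, one_smul]; rfl

end Sec

theorem secA (hP : PP.{u} n) {X : Type u} {L : Type*} [Group X] [MulAction X V]
    [Group.IsPerfect X] (G : Subgroup (Gm V)) [Group.IsSolvable G] (D : Set V) (π : V → L)
    (hc : (π '' D).ncard < n) (hX : ∀ x : X, Good D π (fun s => x • s))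
    (ha : ∀ x : X, ∀ a ∈ D, ∀ b ∈ D, ∀ c ∈ D, ∃ t : V, ∃ g ∈ G, Good D π (fun s => t + g • s) ∧
      π (t + g • a) = π (x • a) ∧ π (t + g • b) = π (x • b) ∧ π (t + g • c) = π (x • c)) :
    ∀ x : X, ∀ a ∈ D, π (x • a) = π a :=
  have := Sec.solv_Af G
  sec (Y := Sec.Af G) hP D π hc hX fun x a h1 b h2 c h3 =>
    let ⟨t, g, hg, k⟩ := ha x a h1 b h2 c h3
    ⟨⟨Equiv.addLeft t * MulAction.toPerm g, t, g, hg, fun _ => rfl⟩, k⟩

theorem linM (hP : PP.{u} n) (G X : Subgroup (Gm V)) [Group.IsSolvable G] [Group.IsPerfect X]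
    (M : AddSubgroup V) (hc : Nat.card M < n) (hX : ∀ x ∈ X, ∀ m ∈ M, x • m ∈ M)
    (ha : ∀ x ∈ X, ∀ a ∈ M, ∀ b ∈ M, ∃ g ∈ G, (∀ m ∈ M, g • m ∈ M) ∧ g • a = x • a ∧ g • b = x • b) :
    ∀ x ∈ X, ∀ m ∈ M, x • m = m := fun x hx =>
  secA (X := X) hP G M id (by rwa [Set.image_id]) (fun x a h => ⟨hX x x.2 a h, fun _ _ e => congrArg (x • ·) e⟩)
    (fun x a h1 b h2 c h3 => by
      obtain ⟨g, hg, k, e1, e2⟩ := ha x x.2 _ (sub_mem h2 h1) _ (sub_mem h3 h1)
      rw [smul_sub, smul_sub] at e1 e2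
      refine ⟨x.1 • a - g • a, g, hg, fun s hs => ⟨add_mem (sub_mem (hX x x.2 a h1) (k a h1)) (k s hs),
        fun _ _ e => congrArg (_ + g • ·) e⟩, sub_add_cancel _ _, ?_, ?_⟩
      · exact (sub_add_comm _ _ _).trans (by rw [sub_add_comm, sub_add_eq_add_sub, add_sub_assoc, e1]; exact add_sub_cancel _ _)
      · exact (sub_add_comm _ _ _).trans (by rw [sub_add_comm, sub_add_eq_add_sub, add_sub_assoc, e2]; exact add_sub_cancel _ _))
    ⟨x, hx⟩

theorem linS (hP : PP.{u} n) (G X : Subgroup (Gm V)) [Group.IsSolvable G] [Group.IsPerfect X]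
    (hc : Nat.card V < n)
    (ha : ∀ x ∈ X, ∀ a b : V, ∃ g ∈ G,
      (g • a = x • a ∧ g • b = x • b) ∨ (g • a = -(x • a) ∧ g • b = -(x • b))) : X = ⊥ := by
  let f : G × ℤˣ →* Gm V := MonoidHom.noncommCoprod G.subtype (Units.map (Int.castRingHom _).toMonoidHom)
    fun g s => Units.ext (Int.cast_commute _ _).symm.eq
  have : Group.IsSolvable f.range := Group.isSolvable_of_surjective f.rangeRestrict_surjective
  refine eq_bot_iff.2 fun x hx => gm_ext fun v => linM hP f.range X ⊤ (by rwa [AddSubgroup.card_top])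
    (fun _ _ _ _ => trivial) (fun x hx a _ b _ => ?_) x hx v trivial
  obtain ⟨g, hg, k | k⟩ := ha x hx a b
  · exact ⟨g, ⟨(⟨g, hg⟩, 1), by simp [f]⟩, fun _ _ => trivial, k⟩
  · have e : ∀ v : V, f (⟨g, hg⟩, -1) • v = -(g • v) := fun v => by simp [f, gm_smul]
    exact ⟨_, ⟨(⟨g, hg⟩, -1), rfl⟩, fun _ _ => trivial, by rw [e, k.1, neg_neg], by rw [e, k.2, neg_neg]⟩

end Sa

end CF.C3c
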