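import Cfsg.Agent.C3c.Ge
import Cfsg.Agent.C3c.H1
import Cfsg.Agent.C3c.S
import Cfsg.Agent.C3c.Ce
import Cfsg.Agent.C3c.Cl

/-! A group of symplectic type normalised by the closure. -/

set_option autoImplicit false
set_option linter.unusedSectionVars false

namespace CF.C3c

open Subgroup CF.BG

universe u

variable {F V : Type u} [Field F] [Finite F] [AddCommGroup V] [Finite V] [Module F V]
  {G E X : Subgroup (Gm V)} {n r : ℕ} {a b c e s t x y : Gm V} {v w : V}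

theorem nv_norm (hE : G ≤ normalizer (E : Set (Gm V))) :
    cl2 G ≤ normalizer (Nv G E : Set (Gm V)) := fun h hh => mem_norm_of_cj_le fun _ hx => by
  obtain ⟨y, hy, rfl⟩ := mem_cj_iff.1 hx
  refine ⟨mul_mem (mul_mem hh hy.1) (inv_mem hh), fun v => ?_⟩
  obtain ⟨e, he, k⟩ := hy.2 (h⁻¹ • v)
  obtain ⟨g, hg, k1, k2⟩ := hh (h⁻¹ • v) (e • h⁻¹ • v)
  refine ⟨_, conj_mem_of_norm (hE hg) he, ?_⟩
  rw [smul_inv_smul, ← eq_inv_smul_iff] at k1
  rw [mul_smul, mul_smul, k, ← k2, mul_smul, mul_smul, ← k1]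

theorem Fl.nv_solv (hP : PP.{u} n) (hV : Nat.card V ≤ n) (h : Fl F G) (hv : Val F E r)
    (hE : G ≤ normalizer (E : Set (Gm V))) (ho : Ok F E r ∨ (Zs F V).relIndex E ≤ 4) :
    Group.IsSolvable (Nv G E) := solv_of_perf _ fun X l _ => by
  have lc : X ≤ cl2 G := fun _ k => (l k).1
  have lL : X ≤ Ln F V := perf_lin (lc.trans h.cl_nz)
  have := h.sol
  rcases ho with ho | ho
  · obtain ⟨a, ha, hz⟩ := SetLike.not_le_iff_exists.1 hv.ne
    refine ce hP hV G E X h.irr hE (by by_contra! k; exact hz (hv.nd a ha (k a ha))) lc fun x hx e he => ?_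
    rw [← ho.gen] at he
    refine (mem_cent1.1 ((closure_le (𝐂₁ x)).2 (fun s hs => mem_cent1.2 ?_) he)).symm
    have sL := hv.lin hs.1
    let K : Subgroup X :=
      { carrier := {x | (x : Gm V) * s * (x : Gm V)⁻¹ * s⁻¹ ∈ Zs F V}
        one_mem' := by simp
        mul_mem' := fun {x y} hx hy => by
          have := mul_mem (conj_mem_of_norm (Ln_le_nz (lL x.2)) hy) hx
          rwa [show _ * _ = (x * y : Gm V) * s * (x * y : Gm V)⁻¹ * s⁻¹ by group] at this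
        inv_mem' := fun {x} hx => by
          have := conj_mem_of_norm' (Ln_le_nz (lL x.2)) (inv_mem hx)
          rwa [show _ * _ = (x : Gm V)⁻¹ * s * (x : Gm V)⁻¹⁻¹ * s⁻¹ by group] at this }
    refine (cent_of_Z lL (fun x hx => ?_) x hx).symm
    have := sq_top K fun x => by
      rcases hv.h1 (lL x.2) (l x.2).2 hs.1 hs.2 with k | k
      · exact K.mul_mem k k
      have := mul_mem (conj_mem_of_norm (Ln_le_nz (lL x.2)) k) (conj_mem_of_norm (Ln_le_nz sL) (inv_mem k))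
      rwa [show _ * _ = (x * x : Gm V) * s * (x * x : Gm V)⁻¹ * s⁻¹ by group] at this
    exact (this ▸ mem_top _ : (⟨x, hx⟩ : X) ∈ K)
  refine perf_Z fun x hx => scal (lL hx) fun v => ?_
  have sp : ∀ x : X, ∀ {a b : V}, Submodule.span F {a} = Submodule.span F {b} →
      Submodule.span F {x • a} ≤ Submodule.span F {x • b} := fun x a b e => by
    obtain ⟨k, rfl⟩ := Submodule.mem_span_singleton.1 (e ▸ Submodule.mem_span_singleton_self a)
    exact (Submodule.span_singleton_le_iff_mem _ _).2 (Submodule.mem_span_singleton.2 ⟨k, (lL x.2 k b).symm⟩)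
  have := sec4 (X := X) {u | ∃ e ∈ E, u = e • v} (fun u => Submodule.span F {u}) (le_trans (Set.ncard_le_ncard
    (t := (fun q : E ⧸ (Zs F V).subgroupOf E => Submodule.span F {(q.out : Gm V) • v}) '' Set.univ) ?_)
    ((Set.ncard_image_le (Set.toFinite _)).trans ((Set.ncard_univ _).trans_le ho))) (fun x a ⟨e, he, k⟩ => ⟨?_, fun b _ e =>
      le_antisymm (sp x e) (sp x e.symm)⟩) ⟨x, hx⟩ v ⟨1, one_mem _, (one_smul _ _).symm⟩
  · obtain ⟨k, e⟩ := Submodule.mem_span_singleton.1 (this ▸ Submodule.mem_span_singleton_self _)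
    exact ⟨k, e.symm⟩
  · rintro _ ⟨_, ⟨e, he, rfl⟩, rfl⟩
    obtain ⟨⟨z, μ, hz⟩, k⟩ := QuotientGroup.mk_out_eq_mul ((Zs F V).subgroupOf E) ⟨e, he⟩
    refine ⟨QuotientGroup.mk ⟨e, he⟩, trivial, ?_⟩
    simp only [k, coe_mul, mul_smul]
    rw [← show _ = (z : Gm V) from hz, sc_smul, hv.lin he, Submodule.span_singleton_smul_eq μ.isUnit]
  · obtain ⟨e', he', k'⟩ := (l x.2).2 a
    exact ⟨e' * e, mul_mem he' he, by rw [mul_smul, ← k]; exact k'⟩

theorem Fl.step1 (hP : PP.{u} n) (hV : Nat.card V ≤ n) (h : Fl F G) (h0 : ¬ G ⊓ Ln F V ≤ Zs F V) :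
    ∃ E r, Val F E r ∧ cl2 G ≤ normalizer (E : Set (Gm V)) ∧
      (Ok F E r ∨ (Zs F V).relIndex E ≤ 4) := by
  obtain ⟨E, r, v, l, nE, o⟩ := h.exVal G (G ⊓ Ln F V) le_rfl h.nz inf_le_left inf_le_right (le_inf h.zle Zs_le_Ln) h0
    (norm_inf (le_norm_self G) (h.nz.trans nz_ln))
  have lN : E ≤ Nv G E := fun e he => ⟨le_cl2 G (l he).1, fun _ => ⟨e, he, rfl⟩⟩
  have lG : Nv G E ≤ G := le_sup_right.trans (h.mx _
    (Sol.sup h.sol (h.nv_solv hP hV v nE o) ((le_cl2 G).trans (nv_norm nE))) le_sup_left)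
  obtain ⟨E', r', v', -, k⟩ := h.exVal (cl2 G) (Nv G E ⊓ Ln F V) (le_cl2 G) h.cl_nz (inf_le_left.trans lG) inf_le_right
    (le_inf (v.zle.trans lN) Zs_le_Ln) (fun k => v.ne ((le_inf lN v.lin).trans k))
    (norm_inf (nv_norm nE) (h.cl_nz.trans nz_ln))
  exact ⟨E', r', v', k⟩

end CF.C3c
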