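import Cfsg.Agent.C3c.Gs
import Cfsg.Agent.C3c.Gi

/-! Generic vectors. -/

set_option autoImplicit false
set_option linter.unusedSectionVars false

namespace CF.C3c

open Subgroup

universe u

variable {F V : Type u} [Field F] [Finite F] [AddCommGroup V] [Finite V] [Module F V]
  {G E X : Subgroup (Gm V)} {n r : ℕ} {a b c e s t u x y z : Gm V} {v w p q p' q' : V} {α β κ : F}

namespace I

theorem add (h : s • p = α • p) (k : s • q = α • q) : s • (p + q) = α • (p + q) := by rw [smul_add, smul_add, h, k]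

theorem mul (hs : s ∈ Ln F V) (h : s • p = α • p) (κ : F) : s • κ • p = α • κ • p := by rw [hs, h, smul_comm]

theorem sep (n : α ≠ β) (h1 : s • p = α • p) (h2 : s • q = β • q) (h3 : s • p' = α • p') (h4 : s • q' = β • q')
    (e : p + q = p' + q') : p = p' ∧ q = q' := by
  have f : p - p' = q' - q := by rw [sub_eq_sub_iff_add_eq_add, e, add_comm]
  have g : α • (p - p') = β • (p - p') := by
    rw [smul_sub, ← h1, ← h3, ← smul_sub, f, smul_sub, h2, h4, smul_sub]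
  have : p - p' = 0 := by_contra fun k => n (smul_left_injective F k g)
  exact ⟨sub_eq_zero.1 this, (sub_eq_zero.1 (f ▸ this)).symm⟩

theorem ne1 (h : α ≠ 0) {η : Fˣ} (k : η ≠ 1) : α ≠ η * α := fun e =>
  k (Units.ext ((mul_eq_right₀ h).1 e.symm))

theorem sh1 (h : Val F E r) (ha : a ∈ E) (hb : b ∈ E) (k : bt F a b = 1) (hv : a • v = α • v) :
    a • b • v = α • b • v := by simpa [k] using h.shift ha hb hv

theorem base (h : Val F E r) (hx : x ∈ E) (hy : y ∈ E) (hz : z ∈ E) (xz : bt F x z = 1) (yz : bt F y z ≠ 1)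
    (hv : v ≠ 0) (hw : w ≠ 0) (x1 : x • v = β • v) (x2 : x • w = β • w) (y1 : y • v = α • v) (y2 : y • w = α • w)
    (k : ∀ e ∈ E, ∀ κ : F, bt F y e ≠ 1 → e • v + e • z • w ≠ κ • v + κ • z • w) :
    ∃ w : V, w ≠ 0 ∧ Ev F x w ∧ ¬ Ev F y w ∧ ∀ e ∈ E, Ev F e w → Ev F e v := by
  have n := ne1 (ev_ne hv y1) yz
  have y3 := h.shift hy hz y2
  have l := h.lin hy
  refine ⟨v + z • w, fun e => hv (sep n y1 y3 (by simp) (by simp) (e.trans (add_zero 0).symm)).1,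
    ⟨β, add x1 (sh1 h hx hz xz x2)⟩, fun ⟨κ, e⟩ => ?_, fun e he ⟨κ, f⟩ => ?_⟩
  · rw [smul_add, smul_add, y1, y3] at e
    obtain ⟨e1, e2⟩ := sep n (mul l y1 _) (mul l y3 _) (mul l y1 _) (mul l y3 _) e
    exact n ((smul_left_injective F hv e1).trans (smul_left_injective F (gm_ne z hw) e2).symm)
  · rw [smul_add, smul_add] at f
    have t : bt F y e = 1 := by_contra fun t => k e he κ t f
    exact ⟨κ, (sep n (sh1 h hy he t y1) (sh1 h hy he t y3) (mul l y1 _) (mul l y3 _) f).1⟩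

theorem caseA (h : Val F E 2) (hx : x ∈ E) (hv : v ≠ 0) (hxv : Ev F x v) (hy : y ∈ E) (hyv : Ev F y v)
    (h1 : ¬ In1 F x y) (hu : u ∈ E) (huv : Ev F u v) (h2 : ¬ In2 F x y u) :
    ∃ w : V, w ≠ 0 ∧ Ev F x w ∧ ¬ Ev F y w ∧ ∀ e ∈ E, Ev F e w → Ev F e v := by
  have h3 : ¬ In2 F x u y := fun k => ((h.in2_two hx hu).1 k).elim h1 fun k =>
    h2 ((h.in2_two hx hy).2 (.inr (by simpa using h.in1_inv hx k)))
  obtain ⟨a, ha, a1, a2, a3⟩ : ∃ a ∈ E, bt F x a = 1 ∧ bt F u a = 1 ∧ bt F y a ≠ 1 := by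
    by_contra! k; exact h3 (h.perp2 hy hx hu k)
  obtain ⟨b, hb, b1, b2, b3⟩ : ∃ b ∈ E, bt F x b = 1 ∧ bt F y b = 1 ∧ bt F u b ≠ 1 := by
    by_contra! k; exact h2 (h.perp2 hu hx hy k)
  obtain ⟨l, x1⟩ := hxv
  obtain ⟨α, y1⟩ := hyv
  obtain ⟨β, u1⟩ := huv
  have n := ne1 (ev_ne hv y1) a3
  have m := ne1 (ev_ne hv u1) b3
  have y2 := add y1 (sh1 h hy hb b2 y1)
  have y3 := h.shift hy ha y1
  have u2 := h.shift hu hb u1
  have u3 := sh1 h hu ha a2 u1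
  have ly := h.lin hy
  have sq : ∀ {c d e f}, c ∈ E → d ∈ E → e ∈ E → f ∈ E → bt F c d ≠ 1 → bt F e f ≠ 1 → ∀ γ : F,
      (bt F c d : F) * (bt F e f * γ) = γ ∧ (bt F c d : F) * γ = bt F e f * γ := fun c d e f p q γ => by
    simp [h.bt_two' c d p, h.bt_two' e f q]
  refine ⟨v + b • v + a • v, fun e => gm_ne a hv (sep n y2 y3 (by simp) (by simp) (e.trans (add_zero 0).symm)).2,
    ⟨l, add (add x1 (sh1 h hx hb b1 x1)) (sh1 h hx ha a1 x1)⟩, fun ⟨κ, e⟩ => ?_, fun e he ⟨κ, f⟩ => ?_⟩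
  · rw [smul_add, smul_add κ, y2, y3] at e
    obtain ⟨e1, e2⟩ := sep n (mul ly y2 _) (mul ly y3 _) (mul ly y2 _) (mul ly y3 _) e
    exact n ((smul_left_injective F (fun t => hv (sep m u1 u2 (by simp) (by simp) (t.trans (add_zero 0).symm)).1)
      e1).trans (smul_left_injective F (gm_ne a hv) e2).symm)
  rw [smul_add, smul_add κ] at f
  by_cases t : bt F y e = 1
  · exact (h.ev_smul he ha).1 ⟨κ, (sep n (sh1 h hy he t y2) (sh1 h hy he t y3) (mul ly y2 _) (mul ly y3 _) f).2⟩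
  have f := (sep n ((sq hy he hy ha t a3 α).1 ▸ h.shift hy he y3) ((sq hy he hy ha t a3 α).2 ▸ h.shift hy he y2)
    (mul ly y2 _) (mul ly y3 _) ((add_comm _ _).trans f)).2
  rw [smul_add, ← add_zero (κ • _)] at f
  by_cases k : bt F u e = 1
  · exact (gm_ne e (gm_ne b hv) (sep m (sh1 h hu he k u1) (sh1 h hu he k u2) (mul (h.lin hu) u3 _) (by simp) f).2).elim
  · exact (gm_ne e hv (sep m ((sq hu he hu hb k b3 β).1 ▸ h.shift hu he u2) ((sq hu he hu hb k b3 β).2 ▸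
      h.shift hu he u1) (mul (h.lin hu) u3 _) (by simp) ((add_comm _ _).trans f)).2).elim

end I
open I

theorem Val.gen_step (h : Val F E r) (hn : r = 2 → ∀ x y, ¬ Exc F E x y) (hx : x ∈ E)
    (hz : x ∉ Zs F V) (hv : v ≠ 0) (hxv : Ev F x v) (hy : y ∈ E) (hyv : Ev F y v) (h1 : ¬ In1 F x y) :
    ∃ w : V, w ≠ 0 ∧ Ev F x w ∧ ¬ Ev F y w ∧ ∀ e ∈ E, Ev F e w → Ev F e v := by
  obtain ⟨z, mz, z1, z2⟩ : ∃ z ∈ E, bt F x z = 1 ∧ bt F y z ≠ 1 := by
    by_contra! k; exact h1 (h.perp1 hy hx k)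
  obtain ⟨β, x1⟩ := id hxv
  obtain ⟨α, y1⟩ := id hyv
  have a0 := ev_ne hv y1
  have ly := h.lin hy
  by_cases hr : r = 2
  · subst hr
    by_cases hA : ∃ u ∈ E, Ev F u v ∧ ¬ In2 F x y u
    · obtain ⟨u, hu, u1, u2⟩ := hA
      exact caseA h hx hv hxv hy hyv h1 hu u1 u2
    obtain ⟨u, hu, u1, u2, u3, u4⟩ : ∃ u ∈ E, bt F x u = 1 ∧ bt F y u = 1 ∧ Spl F u ∧ ¬ In2 F x y u := by
      by_contra! k
      exact hn rfl x y ⟨hx, hy, ⟨v, hv, hxv⟩, ⟨v, hv, hyv⟩, hz, h1, h.bt_ev hx hy hv hxv hyv, k⟩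
    obtain ⟨μ, e⟩ := h.norm hu u3
    have hs := E.mul_mem (h.scm μ) hu
    have ns : ¬ Ev F (sc F V μ * u) v := fun ⟨κ, k⟩ => hA ⟨u, hu, ⟨(μ⁻¹ : Fˣ) * κ, by
      rw [mul_smul, ← k, mul_smul, sc_smul, smul_smul, Units.inv_mul, one_smul]⟩, u4⟩
    have s1 : ∀ {c}, c ∈ E → bt F c u = 1 → bt F c (sc F V μ * u) = 1 := fun p q => by
      rw [h.bt_mul_right p (h.scm μ) hu, q, h.bt_Z_right p (sc_mem μ), mul_one]
    replace u1 := s1 hx u1
    replace u2 := s1 hy u2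
    generalize sc F V μ * u = s at e hs ns u1 u2
    have s2 : s • (v + s • v) = (1 : F) • (v + s • v) := by
      rw [smul_add, ← mul_smul, ← pow_two, e, one_smul, one_smul, add_comm]
    have y2 := add y1 (sh1 h hy hs u2 y1)
    refine base h hx hy mz z1 z2 hv (fun k => ns ⟨-1, by rw [neg_one_smul, eq_neg_of_add_eq_zero_right k]⟩) x1
      (add x1 (sh1 h hx hs u1 x1)) y1 y2 fun e he κ t f => ns ((h.ev_smul hs he).1 ?_)
    have y3 := h.shift hy mz y2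
    have := (sep (ne1 a0 z2) (by simpa [h.bt_two' hy he t, h.bt_two' hy mz z2] using h.shift hy he y3)
      (by simpa [h.bt_two' hy he t, h.bt_two' hy mz z2] using h.shift hy he y1) (mul ly y1 _) (mul ly y3 _)
      ((add_comm _ _).trans f)).2
    exact ⟨_, this ▸ mul (h.lin hs) (h.shift hs mz s2) κ⟩
  refine base h hx hy mz z1 z2 hv hv x1 x1 y1 y1 fun e he κ t f => ?_
  have y3 := h.shift hy mz y1
  have y4 := h.shift hy he y1
  have y5 := h.shift hy he y3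
  have n : (bt F y e : F) * α ≠ bt F y e * (bt F y z * α) := fun k => ne1 a0 z2 (mul_left_cancel₀ (Units.ne_zero _) k)
  obtain ⟨P, p1, p2⟩ := proj ly (bt F y e * α)
  obtain ⟨Q, q1, q2⟩ := proj ly (bt F y e * (bt F y z * α))
  have e1 : (bt F y z : F) * α = bt F y e * α := by_contra fun k => gm_ne e hv (by
    simpa [p1 _ y4, p2 _ _ n.symm y5, p2 _ _ (ne1 a0 t) (mul ly y1 κ), p2 _ _ k (mul ly y3 κ)] using congrArg P f)
  have e2 : α = bt F y e * (bt F y z * α) := by_contra fun k => gm_ne e (gm_ne z hv) (by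
    simpa [q1 _ y5, q2 _ _ n y4, q2 _ _ k (mul ly y1 κ), q2 _ _ (e1 ▸ n) (mul ly y3 κ)] using congrArg Q f)
  rw [← mul_right_cancel₀ a0 e1, ← mul_assoc, eq_comm, mul_eq_right₀ a0, ← Units.val_mul, Units.val_eq_one,
    ← pow_two] at e2
  exact hr ((Nat.prime_dvd_prime_iff_eq h.pr Nat.prime_two).1 ((h.bt_prim hy mz z2).dvd_of_pow_eq_one 2 e2))

theorem Val.exGen (h : Val F E r) (hn : r = 2 → ∀ x y, ¬ Exc F E x y) (hx : x ∈ E)
    (hz : x ∉ Zs F V) (hs : Spl F x) : ∃ v, Gen F E x v := by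
  obtain ⟨v, ⟨hv, hxv⟩, m⟩ := Set.exists_min_image {v | v ≠ 0 ∧ Ev F x v} (fun v => {e | e ∈ E ∧ Ev F e v}.ncard)
    (Set.toFinite _) hs
  refine ⟨v, hv, hxv, fun e he k => by_contra fun n => ?_⟩
  obtain ⟨w, w1, w2, w3, w4⟩ := h.gen_step hn hx hz hv hxv he k n
  exact (m w ⟨w1, w2⟩).not_gt (Set.ncard_lt_ncard ⟨fun e p => ⟨p.1, w4 e p.1 p.2⟩, fun l => w3 (l ⟨he, k⟩).2⟩)

theorem Val.card_lt (h : Val F E r) (hx : x ∈ E) (hg : Gen F E x v) :
    (Zs F V).relIndex E < Nat.card V := by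
  have := h.nt
  have r0 := h.pr.pos
  have a : ∀ e : MulAction.stabilizer E v, ∃ k : Fin r, ∃ μ : Fˣ, (e : E) = sc F V μ * x ^ k.1 := fun e => by
    obtain ⟨μ, k, f⟩ := hg.2.2 e e.1.2 ⟨1, (one_smul F v).symm ▸ e.2⟩
    obtain ⟨ν, g⟩ := h.pow_Z hx (dvd_mul_right r (k / r))
    exact ⟨⟨k % r, Nat.mod_lt _ r0⟩, μ * ν, by rw [f, map_mul, g, mul_assoc, ← pow_add, Nat.div_add_mod]⟩
  choose k μ f using a
  have c1 : Nat.card (MulAction.stabilizer E v) ≤ r := (Nat.card_le_card_of_injective k fun e e' t => by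
    have p : ((e : E) : Gm V) • v = ((e' : E) : Gm V) • v := e.2.trans e'.2.symm
    rw [f e, f e', t, mul_smul, mul_smul, sc_smul, sc_smul] at p
    exact Subtype.ext (Subtype.ext (by
      rw [f e, f e', t, Units.ext (smul_left_injective F (gm_ne _ hg.1) p)]))).trans (by simp)
  have c2 : r ≤ Nat.card ((Zs F V).subgroupOf E) := by
    obtain ⟨ω, p⟩ := h.ex_prim
    rw [Nat.card_congr (subgroupOfEquivOfLe h.zle).toEquiv, Zs, ← Nat.card_congr (MonoidHom.ofInjective sc_inj).toEquiv,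
      p.eq_orderOf]
    exact Nat.le_of_dvd Nat.card_pos (orderOf_dvd_natCard ω)
  have c3 : (MulAction.stabilizer E v).index < Nat.card V := by
    rw [MulAction.index_stabilizer, ← Set.ncard_univ]
    exact Set.ncard_lt_ncard ⟨Set.subset_univ _, fun l => let ⟨e, p⟩ := l (Set.mem_univ 0); gm_ne (e : Gm V) hg.1 p⟩
  have c4 := ((Zs F V).subgroupOf E).card_mul_index.trans (MulAction.stabilizer E v).card_mul_index.symm
  exact lt_of_le_of_lt (Nat.le_of_mul_le_mul_left (c4.le.trans (Nat.mul_le_mul_right _ (c1.trans c2))) Nat.card_pos) c3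

end CF.C3c
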