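import Cfsg.Agent.C3c.Gs

/-! Pinning pairs, odd exponent. -/

set_option autoImplicit false
set_option linter.unusedSectionVars false

namespace CF.C3c

open Subgroup

universe u

variable {F V : Type u} [Field F] [Finite F] [AddCommGroup V] [Finite V] [Module F V]
  {G E X : Subgroup (Gm V)} {n r : ℕ} {a b c e s t x y : Gm V} {v w : V}

/-- comparing two sums of two eigenvectors -/
theorem cmp2 (hs : s ∈ Ln F V) {p q p' q' : V} {α β α' β' : F} (hp : s • p = α • p)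
    (hq : s • q = β • q) (hp' : s • p' = α' • p') (hq' : s • q' = β' • q') (h1 : α ≠ β)
    (h2 : α' ≠ β') (h0 : p ≠ 0) (h0' : p' ≠ 0) (h : p' + q' = p + q) :
    (α' = α ∧ p' = p ∧ q' = q) ∨ (β' = α ∧ α' = β ∧ q' = p ∧ p' = q) := by
  obtain ⟨P, hP1, hP2⟩ := proj hs α
  have h3 := congrArg P h
  rw [map_add, map_add, hP1 p hp, hP2 β q h1.symm hq, add_zero] at h3
  by_cases h4 : α' = α
  · rw [hP1 p' (h4 ▸ hp'), hP2 β' q' (h4 ▸ h2.symm) hq', add_zero] at h3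
    exact Or.inl ⟨h4, h3, by rwa [h3, add_right_inj] at h⟩
  · rw [hP2 α' p' h4 hp', zero_add] at h3
    by_cases h5 : β' = α
    · rw [hP1 q' (h5 ▸ hq')] at h3
      have h6 : p' = q := by rwa [h3, add_comm, add_right_inj] at h
      refine Or.inr ⟨h5, smul_left_injective F h0' ?_, h3, h6⟩
      change α' • p' = β • p'
      rw [← hp', h6, hq]
    · rw [hP2 β' q' h5 hq'] at h3
      exact absurd h3.symm h0

/-- comparing two sums of three eigenvectors whose first terms have the same eigenvalue -/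
theorem cmp3 (hs : s ∈ Ln F V) {o p q o' p' q' : V} {γ α β α' β' : F} (ho : s • o = γ • o)
    (ho' : s • o' = γ • o') (hp : s • p = α • p)
    (hq : s • q = β • q) (hp' : s • p' = α' • p') (hq' : s • q' = β' • q') (h1 : α ≠ γ) (h2 : β ≠ γ)
    (h3 : α' ≠ γ) (h4 : β' ≠ γ) (h : o' + (p' + q') = o + (p + q)) : o' = o ∧ p' + q' = p + q := by
  obtain ⟨P, hP1, hP2⟩ := proj hs γ
  have h5 := congrArg P h
  simp only [map_add, hP1 o ho, hP1 o' ho', hP2 α p h1 hp, hP2 β q h2 hq, hP2 α' p' h3 hp',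
    hP2 β' q' h4 hq', add_zero] at h5
  exact ⟨h5, by rwa [h5, add_right_inj] at h⟩

theorem Val.sq_ne (h : Val F E r) (hr : r ≠ 2) {ζ : Fˣ} (h0 : ζ ^ r = 1) (h1 : ζ ≠ 1) :
    ζ * ζ ≠ 1 := fun h2 =>
  hr ((Nat.prime_dvd_prime_iff_eq h.pr Nat.prime_two).1
    ((h.prim h0 h1).dvd_of_pow_eq_one 2 (by rw [pow_two, h2])))

theorem J1.ne1 {ζ : Fˣ} {l : F} (hl : l ≠ 0) (h : ζ ≠ 1) : (ζ : F) * l ≠ l := fun h1 =>
  h (Units.ext (mul_right_cancel₀ hl (by rw [h1, Units.val_one, one_mul])))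

theorem J1.eq1 {ζ θ : Fˣ} {l : F} (hl : l ≠ 0) (h : (ζ : F) * l = θ * l) : ζ = θ :=
  Units.ext (mul_right_cancel₀ hl h)

theorem J1.ne2 {ζ : Fˣ} {l : F} (hl : l ≠ 0) (h : ζ ≠ 1) : (ζ : F) * l ≠ ((ζ * ζ : Fˣ) : F) * l :=
  fun h1 => h (mul_eq_left.1 (J1.eq1 hl h1).symm)

theorem Val.shift2 (h : Val F E r) (ha : a ∈ E) (hb : b ∈ E) {μ : F} (hv : a • v = μ • v) :
    a • b • b • v = (((bt F a b * bt F a b : Fˣ) : F) * μ) • b • b • v := by
  rw [h.shift ha hb (h.shift ha hb hv), Units.val_mul, mul_assoc]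

theorem fix_of_eq (h : a • v = b • v) : Ev F (b⁻¹ * a) v := ⟨1, by rw [mul_smul, h, inv_smul_smul, one_smul]⟩

theorem Val.Z_conj (h : Val F E r) (ha : a ∈ E) (h1 : a⁻¹ * b ∈ Zs F V) : b * a⁻¹ ∈ Zs F V := by
  have : b * a⁻¹ = a⁻¹ * b := by
    calc b * a⁻¹ = a * (a⁻¹ * b) * a⁻¹ := by group
      _ = a⁻¹ * b := by rw [← Zs_comm h1 (h.lin ha), mul_inv_cancel_right]
  rwa [this]

theorem smul_one_of (hv : v ≠ 0) {μ : Fˣ} (h : (μ : F) • v = v) : μ = 1 :=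
  Units.ext (smul_left_injective F hv (h.trans (one_smul F v).symm))

theorem Val.pin1 (h : Val F E r) (hr : r ≠ 2) (ha : a ∈ E) (hb : b ∈ E) (h1 : a ^ r = 1)
    (hab : bt F b a ≠ 1) (hg : Gen F E b v) : Pin F E a b := by
  refine ⟨v, (bt F b a : F) • v + (a • v + a • a • v), fun t ht hv hw => ?_⟩
  obtain ⟨σ, hσ⟩ := sl ht.2
  obtain ⟨l, hl⟩ := hg.2.1
  have hl0 := ev_ne hg.1 hl
  have hb' := hg.conj hb ht hv
  have ha' := NN.conj ht ha
  have hbE := NN.conj ht hb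
  have hc := h.bt_conj ht hσ hb ha
  have hc1 := h.bt_conj_one ht hb ha
  have hw' : σ (bt F b a) • v + ((t * a * t⁻¹) • v + (t * a * t⁻¹) • (t * a * t⁻¹) • v) =
      (bt F b a : F) • v + (a • v + a • a • v) := by
    rw [← hw, smul_add, smul_add, hσ, hv]
    simp only [mul_smul, inv_smul_smul, inv_smul_eq_iff.2 hv.symm]
  generalize t * a * t⁻¹ = a' at *
  generalize t * b * t⁻¹ = b' at *
  have hθ : bt F b a' ≠ 1 := fun h2 => hab (hc1.1 (h.in1_bt hb ha' hb' h2))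
  have hL := h.lin hb
  obtain ⟨e1, e2⟩ := cmp3 hL (γ := l) (by rw [hL, hl, smul_comm]) (by rw [hL, hl, smul_comm])
    (h.shift hb ha hl) (h.shift2 hb ha hl) (h.shift hb ha' hl) (h.shift2 hb ha' hl)
    (J1.ne1 hl0 hab) (J1.ne1 hl0 (h.sq_ne hr (h.bt_pow_r hb ha) hab)) (J1.ne1 hl0 hθ)
    (J1.ne1 hl0 (h.sq_ne hr (h.bt_pow_r hb ha') hθ)) hw'
  have e3 : bt F b' a' = bt F b a := Units.ext (hc.trans (smul_left_injective F hg.1 e1))
  rcases cmp2 hL (h.shift hb ha hl) (h.shift2 hb ha hl) (h.shift hb ha' hl) (h.shift2 hb ha' hl)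
    (J1.ne2 hl0 hab) (J1.ne2 hl0 hθ) (gm_ne _ hg.1) (gm_ne _ hg.1) e2 with
    ⟨f1, f2, f3⟩ | ⟨f1, f2, f3, f4⟩
  · left
    have hs := E.mul_mem (E.inv_mem ha) ha'
    rw [f2, h.bt_smul ha' ha, f2] at f3
    have g1 := smul_one_of (gm_ne _ (gm_ne _ hg.1)) f3
    refine ⟨h.Z_conj ha (h.in1_Z hb ha (hg.2.2 _ hs (fix_of_eq f2)) hab ?_),
      h.in1_Z hb ha' (h.in1_mul hb hb' (h.in1_inv hb in1_self)) hθ ?_⟩
    · rw [h.bt_mul_left (E.inv_mem ha) ha' ha, g1, h.bt_inv_left ha ha, h.bt_self ha, inv_one, one_mul]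
    · rw [h.bt_mul_left hbE (E.inv_mem hb) ha', h.bt_inv_left hb ha', e3, J1.eq1 hl0 f1,
        mul_inv_cancel]
  · right
    have g1 := J1.eq1 hl0 f1
    have g2 := J1.eq1 hl0 f2
    have g3 : bt F b a ^ 3 = 1 := by
      rw [g2] at g1
      refine mul_right_cancel (b := bt F b a) ?_
      rw [one_mul]
      conv_rhs => rw [← g1]
      rw [pow_succ, pow_two]
      simp only [mul_assoc]
    have hr3 : r = 3 := (Nat.prime_dvd_prime_iff_eq h.pr Nat.prime_three).1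
      ((h.bt_prim hb ha hab).dvd_of_pow_eq_one 3 g3)
    have h3 : a * (a * a) = 1 := by rw [← h1, hr3, pow_succ', pow_two]
    have haa := E.mul_mem ha ha
    rw [f4, ← mul_smul a a, h.bt_smul ha' haa, f4, ← mul_smul, ← mul_smul, mul_assoc, mul_assoc,
      ← mul_assoc a a a, mul_assoc a a a, h3, mul_one] at f3
    have g4 := smul_one_of (gm_ne _ hg.1) f3
    have g5 : bt F a' a = 1 := by
      by_contra g5
      exact h.sq_ne hr (h.bt_pow_r ha' ha) g5 (by rw [← h.bt_mul_right ha' ha ha, g4])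
    have h4 : (a * a)⁻¹ = a := by rw [inv_eq_iff_mul_eq_one, mul_assoc, h3]
    have g6 : Ev F (a * a') v := by
      have := fix_of_eq (F := F) (f4.trans (mul_smul a a v).symm)
      rwa [h4] at this
    refine ⟨?_, h.in1_Z hb ha' (h.in1_mul hb hb' in1_self) hθ ?_⟩
    · have := h.in1_Z hb ha (hg.2.2 _ (E.mul_mem ha ha') g6) hab
        (by rw [h.bt_mul_left ha ha' ha, g5, h.bt_self ha, one_mul])
      rwa [(h.bt_one ha' ha).1 g5]
    · rw [h.bt_mul_left hbE hb ha', e3, g2, ← g3, pow_succ', pow_two]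

theorem Val.pin2 (h : Val F E r) (hr : r ≠ 2) (ha : a ∈ E) (hb : b ∈ E) (hx : x ∈ E)
    (hxb : bt F x b = 1) (hxa : bt F x a ≠ 1) (hab : bt F a b = 1) (hbz : b ∉ Zs F V)
    (hg : Gen F E x v) (h1 : b ^ r = 1) (hz : ∑ j ∈ Finset.range r, b ^ j • v ≠ 0) :
    Pin F E a b := by
  refine ⟨v, b • v + (a • v + a • a • ∑ j ∈ Finset.range r, b ^ j • v), fun t ht hv hw => ?_⟩
  obtain ⟨l, hl⟩ := hg.2.1
  have hl0 := ev_ne hg.1 hl
  have hx' := hg.conj hx ht hv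
  have ha' := NN.conj ht ha
  have hb' := NN.conj ht hb
  have hxE := NN.conj ht hx
  have c1 := (h.bt_conj_one ht hx hb).2 hxb
  have c2 := mt (h.bt_conj_one ht hx ha).1 hxa
  have c3 := (h.bt_conj_one ht ha hb).2 hab
  have hw' : (t * b * t⁻¹) • v + ((t * a * t⁻¹) • v + (t * a * t⁻¹) • (t * a * t⁻¹) •
      ∑ j ∈ Finset.range r, (t * b * t⁻¹) ^ j • v) =
      b • v + (a • v + a • a • ∑ j ∈ Finset.range r, b ^ j • v) := by
    rw [← hw, smul_add, smul_add]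
    simp only [conj_pow, mul_smul, inv_smul_smul, inv_smul_eq_iff.2 hv.symm, Finset.smul_sum]
  generalize t * a * t⁻¹ = a' at *
  generalize t * b * t⁻¹ = b' at *
  generalize t * x * t⁻¹ = x' at *
  have hxz : x' ∉ Zs F V := fun h2 => c2 (h.bt_Z_left h2 ha')
  have d1 : bt F x b' = 1 := h.in1_bt hxE hb' (h.in1_symm hx hx' hxz) c1
  have hθ : bt F x a' ≠ 1 := fun h2 => c2 (h.in1_bt hx ha' hx' h2)
  have hL := h.lin hx
  have hev : ∀ y ∈ E, bt F x y = 1 → x • y • v = l • y • v := fun y hy h2 => by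
    rw [h.shift hx hy hl, h2, Units.val_one, one_mul]
  have hsum : ∀ y ∈ E, bt F x y = 1 →
      x • ∑ j ∈ Finset.range r, y ^ j • v = l • ∑ j ∈ Finset.range r, y ^ j • v := fun y hy h2 => by
    rw [Finset.smul_sum, Finset.smul_sum]
    exact Finset.sum_congr rfl fun j _ =>
      hev _ (E.pow_mem hy j) (by rw [h.bt_pow_right hx hy, h2, one_pow])
  obtain ⟨e1, e2⟩ := cmp3 hL (hev b hb hxb) (hev b' hb' d1) (h.shift hx ha hl)
    (h.shift2 hx ha (hsum b hb hxb)) (h.shift hx ha' hl) (h.shift2 hx ha' (hsum b' hb' d1))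
    (J1.ne1 hl0 hxa) (J1.ne1 hl0 (h.sq_ne hr (h.bt_pow_r hx ha) hxa)) (J1.ne1 hl0 hθ)
    (J1.ne1 hl0 (h.sq_ne hr (h.bt_pow_r hx ha') hθ)) hw'
  have hs := E.mul_mem (E.inv_mem hb) hb'
  have s1 := hg.2.2 _ hs (fix_of_eq e1)
  have s2 : bt F b' b = 1 := by
    have := h.in1_bt hx hb s1 hxb
    rwa [h.bt_mul_left (E.inv_mem hb) hb' hb, h.bt_inv_left hb hb, h.bt_self hb, inv_one,
      one_mul] at this
  have s3 : ∀ j : ℕ, b' ^ j • v = b ^ j • v := fun j => by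
    induction j with
    | zero => rfl
    | succ j ih =>
      rw [pow_succ', mul_smul, ih, h.bt_smul hb' (E.pow_mem hb j), h.bt_pow_right hb' hb, s2, one_pow,
        Units.val_one, one_smul, e1, pow_succ, mul_smul]
  simp only [s3] at e2
  have hz1 := sum_fix h1 v
  generalize hzz : ∑ j ∈ Finset.range r, b ^ j • v = z at *
  have hxz' : x • z = l • z := hzz ▸ hsum b hb hxb
  rcases cmp2 hL (h.shift hx ha hl) (h.shift2 hx ha hxz') (h.shift hx ha' hl) (h.shift2 hx ha' hxz')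
    (J1.ne2 hl0 hxa) (J1.ne2 hl0 hθ) (gm_ne _ hg.1) (gm_ne _ hg.1) e2 with
    ⟨f1, f2, f3⟩ | ⟨f1, f2, f3, f4⟩
  · left
    have s4 : bt F a' b = 1 := by
      have := h.in1_bt hx hb (hg.2.2 _ (E.mul_mem (E.inv_mem ha) ha') (fix_of_eq f2)) hxb
      rwa [h.bt_mul_left (E.inv_mem ha) ha' hb, h.bt_inv_left ha hb, hab, inv_one, one_mul] at this
    have s5 : a' • z = a • z := by
      rw [← hzz, Finset.smul_sum, Finset.smul_sum]
      refine Finset.sum_congr rfl fun j _ => ?_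
      rw [h.bt_smul ha' (E.pow_mem hb j), h.bt_smul ha (E.pow_mem hb j), h.bt_pow_right ha' hb,
        h.bt_pow_right ha hb, s4, hab, f2]
    rw [s5, h.bt_smul ha' ha, s5] at f3
    have g1 := smul_one_of (gm_ne _ (gm_ne _ hz)) f3
    have g2 := h.in1_Z hx ha (hg.2.2 _ (E.mul_mem (E.inv_mem ha) ha') (fix_of_eq f2)) hxa (by
      rw [h.bt_mul_left (E.inv_mem ha) ha' ha, g1, h.bt_inv_left ha ha, h.bt_self ha, inv_one, one_mul])
    refine ⟨h.Z_conj ha g2, h.Z_conj hb (h.in1_Z hx ha' s1 hθ ?_)⟩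
    rw [h.bt_mul_left (E.inv_mem hb) hb' ha', h.bt_inv_left hb ha', (h.bt_one_comm ha' hb).1 s4,
      (h.bt_one_comm ha' hb').1 c3, inv_one, one_mul]
  · exfalso
    have g1 : Ev F b (a' • v) := by
      rw [f4, h.ev_smul hb ha, h.ev_smul hb ha]
      exact ⟨1, by rw [hz1, one_smul]⟩
    exact hbz (h.in1_Z hx ha (hg.2.2 _ hb ((h.ev_smul hb ha').1 g1)) hxa ((h.bt_one_comm ha hb).1 hab))

end CF.C3c
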