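import Cfsg.Agent.C3c.J1

/-! Pinning pairs. -/

set_option autoImplicit false
set_option linter.unusedSectionVars false

namespace CF.C3c

open Subgroup

universe u

variable {F V : Type u} [Field F] [Finite F] [AddCommGroup V] [Finite V] [Module F V]
  {G E X : Subgroup (Gm V)} {n r : ℕ} {a b c e s t x y : Gm V} {v w : V}

theorem NN.inv_conj (ht : t ∈ NN F E) (h : Spl F (t * a * t⁻¹)) : Spl F a := by
  have := h.conj (inv_mem ht).2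
  simpa [mul_assoc] using this

theorem NN.notZ (ht : t ∈ NN F E) (h : a ∉ Zs F V) : t * a * t⁻¹ ∉ Zs F V :=
  fun h1 => h ((ht.2 a).2 h1)

theorem J3.core (h : Val F E 2) (hq : ¬ IsSquare (-1 : F)) (ha : a ∈ E) (hy : y ∈ E) (hs : s ∈ E)
    (hna : ¬ Spl F a) (hsa : bt F s a ≠ 1) (hsy : bt F s y = 1) (hg : Gen F E s v)
    (ht : t ∈ NN F E) (hv : t • v = v) (hw : t • (y • v + a • v) = y • v + a • v) :
    t * a * t⁻¹ * a⁻¹ ∈ Zs F V ∧ t * y * t⁻¹ * y⁻¹ ∈ Zs F V := by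
  obtain ⟨l, hl⟩ := hg.2.1
  have hl0 := ev_ne hg.1 hl
  have hs' := hg.conj hs ht hv
  have ha' := NN.conj ht ha
  have hy' := NN.conj ht hy
  have hsE := NN.conj ht hs
  have c1 := (h.bt_conj_one ht hs hy).2 hsy
  have c2 := mt (h.bt_conj_one ht hs ha).1 hsa
  have c3 := h.bt_conj_two ht hy ha
  have c4 := mt (NN.inv_conj ht) hna
  have hw' : (t * y * t⁻¹) • v + (t * a * t⁻¹) • v = y • v + a • v := by
    rw [← hw, smul_add]
    simp only [mul_smul, inv_smul_eq_iff.2 hv.symm]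
  generalize t * a * t⁻¹ = a' at *
  generalize t * y * t⁻¹ = y' at *
  generalize t * s * t⁻¹ = s' at *
  have hsz : s' ∉ Zs F V := fun h2 => c2 (h.bt_Z_left h2 ha')
  have d1 : bt F s y' = 1 := h.in1_bt hsE hy' (h.in1_symm hs hs' hsz) c1
  have d2 : bt F s a' ≠ 1 := fun h2 => c2 (h.in1_bt hs ha' hs' h2)
  have hev : ∀ y ∈ E, bt F s y = 1 → s • y • v = l • y • v := fun y hy h2 => by
    rw [h.shift hs hy hl, h2, Units.val_one, one_mul]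
  rcases cmp2 (h.lin hs) (hev y hy hsy) (h.shift hs ha hl) (hev y' hy' d1) (h.shift hs ha' hl)
    (J1.ne1 hl0 hsa).symm (J1.ne1 hl0 d2).symm (gm_ne _ hg.1) (gm_ne _ hg.1) hw' with
    ⟨-, f2, f3⟩ | ⟨f1, -⟩
  swap
  · exact absurd f1 (J1.ne1 hl0 d2)
  have hm := E.mul_mem (E.inv_mem ha) ha'
  have g1 : a⁻¹ * a' ∈ Zs F V := by
    refine h.in1_Z hs ha (hg.2.2 _ hm (fix_of_eq f3)) hsa ?_
    by_contra h2
    have := (h.spl_mul' hq ha hm (mt (h.bt_one_comm ha hm).1 h2)).2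
      fun h3 => hna (h3.2 ⟨v, hg.1, fix_of_eq f3⟩)
    rw [mul_inv_cancel_left] at this
    exact c4 this
  refine ⟨h.Z_conj ha g1, h.Z_conj hy (h.in1_Z hs ha'
    (hg.2.2 _ (E.mul_mem (E.inv_mem hy) hy') (fix_of_eq f2)) d2 ?_)⟩
  have g2 := h.bt_Z_right hy g1
  rw [h.bt_mul_right hy (E.inv_mem ha) ha', h.bt_inv_right hy ha, inv_mul_eq_one] at g2
  rw [h.bt_mul_left (E.inv_mem hy) hy' ha', h.bt_inv_left hy ha', c3, g2, inv_mul_cancel]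

theorem Val.Z_mul (h : Val F E r) {a' b' : Gm V} (ha : a ∈ E) (h1 : a' * a⁻¹ ∈ Zs F V)
    (h2 : b' * b⁻¹ ∈ Zs F V) : a' * b' * (a * b)⁻¹ ∈ Zs F V := by
  have : a' * b' * (a * b)⁻¹ = a' * a⁻¹ * (b' * b⁻¹) := by
    calc a' * b' * (a * b)⁻¹ = a' * a⁻¹ * (a * (b' * b⁻¹) * a⁻¹) := by group
      _ = _ := by rw [← Zs_comm h2 (h.lin ha), mul_inv_cancel_right]
  rw [this]
  exact mul_mem h1 h2

theorem Val.Z_inv (h : Val F E r) {a' : Gm V} (ha : a ∈ E) (h1 : a' * a⁻¹ ∈ Zs F V) :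
    a'⁻¹ * a⁻¹⁻¹ ∈ Zs F V := by
  have := h.Z_conj (E.inv_mem ha) (b := a'⁻¹) (by simpa using inv_mem h1)
  exact this

theorem Val.pin3 (h : Val F E 2) (hq : ¬ IsSquare (-1 : F)) (ha : a ∈ E) (hb : b ∈ E) (hs : s ∈ E)
    (hna : ¬ Spl F a) (hsa : bt F s a ≠ 1) (hg : Gen F E s v) : Pin F E a b := by
  by_cases h1 : bt F s b = 1
  · exact ⟨v, _, fun t ht hv hw => Or.inl (J3.core h hq ha hb hs hna hsa h1 hg ht hv hw)⟩
  · have h2 : bt F s (b * a) = 1 := by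
      rw [h.bt_mul_right hs hb ha, h.bt_two' hs hb h1, h.bt_two' hs ha hsa, neg_mul_neg, one_mul]
    refine ⟨v, (b * a) • v + a • v, fun t ht hv hw => Or.inl ?_⟩
    obtain ⟨h3, h4⟩ := J3.core h hq ha (E.mul_mem hb ha) hs hna hsa h2 hg ht hv hw
    refine ⟨h3, ?_⟩
    have := h.Z_mul (E.mul_mem hb ha) h4 (h.Z_inv ha h3)
    simpa [mul_assoc] using this

theorem Pin.symm (h : Pin F E a b) : Pin F E b a := by
  obtain ⟨v, w, h⟩ := h
  exact ⟨v, w, fun t ht hv hw => (h t ht hv hw).imp And.symm And.symm⟩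

theorem J3.pos (h : Val F E r) (ht : t ∈ NN F E) (hb : b ∈ E) (h1 : In1 F b a)
    (h2 : t * b * t⁻¹ * b⁻¹ ∈ Zs F V) : t * a * t⁻¹ * a⁻¹ ∈ Zs F V := by
  obtain ⟨μ, k, rfl⟩ := h1
  have h3 : t * b ^ k * t⁻¹ * (b ^ k)⁻¹ ∈ Zs F V := by
    induction k with
    | zero => simp
    | succ k ih =>
      have := h.Z_mul (E.pow_mem hb k) ih h2
      simpa [pow_succ, mul_assoc] using this
  have := h.Z_mul (h.scm μ) (mul_mem (NN.conjZ ht (sc_mem μ)) (inv_mem (sc_mem μ))) h3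
  simpa [mul_assoc] using this

theorem J3.neg (h : Val F E r) (ht : t ∈ NN F E) (hb : b ∈ E) (h1 : In1 F b a)
    (h2 : t * b * t⁻¹ * b ∈ Zs F V) : t * a * t⁻¹ * a ∈ Zs F V := by
  obtain ⟨μ, k, rfl⟩ := h1
  have h3 : t * b ^ k * t⁻¹ * (b⁻¹ ^ k)⁻¹ ∈ Zs F V := by
    induction k with
    | zero => simp
    | succ k ih =>
      have := h.Z_mul (b := b⁻¹) (E.pow_mem (E.inv_mem hb) k) ih (by rwa [inv_inv])
      rw [← pow_succ] at this
      simpa [pow_succ, mul_assoc] using this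
  have := h.Z_mul (h.scm μ⁻¹) (mul_mem (NN.conjZ ht (sc_mem μ)) (inv_mem (sc_mem μ⁻¹))) h3
  rw [map_inv, inv_pow, mul_inv_rev, inv_inv, inv_inv, h.scc (E.pow_mem hb k)] at this
  simpa [mul_assoc] using this

theorem Pin.mono (hp : Pin F E a b) (h : Val F E r) (ha : a ∈ E) (hb : b ∈ E) {a' b' : Gm V}
    (h1 : In1 F a a' ∨ In1 F b a') (h2 : In1 F b b') : Pin F E a' b' := by
  obtain ⟨v, w, hp⟩ := hp
  refine ⟨v, w, fun t ht hv hw => (hp t ht hv hw).imp (fun h3 => ⟨?_, J3.pos h ht hb h2 h3.2⟩)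
    fun h3 => ⟨?_, J3.neg h ht hb h2 h3.2⟩⟩
  · exact h1.elim (fun h1 => J3.pos h ht ha h1 h3.1) fun h1 => J3.pos h ht hb h1 h3.2
  · exact h1.elim (fun h1 => J3.neg h ht ha h1 h3.1) fun h1 => J3.neg h ht hb h1 h3.2

theorem J3.in1_sc (μ : Fˣ) : In1 F (sc F V μ * a) a :=
  ⟨μ⁻¹, 1, by rw [pow_one, ← mul_assoc, ← map_mul, inv_mul_cancel, map_one, one_mul]⟩

theorem J3.one (h : Val F E 2) (hg : ∀ x ∈ E, x ∉ Zs F V → Spl F x → ∃ v, Gen F E x v) (ha : a ∈ E)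
    (hs : Spl F a) : ∃ v : V, ∀ t ∈ NN F E, t • v = v → t * a * t⁻¹ * a⁻¹ ∈ Zs F V := by
  by_cases hz : a ∈ Zs F V
  · exact ⟨0, fun t ht _ => mul_mem (NN.conjZ ht hz) (inv_mem hz)⟩
  · obtain ⟨v, hv⟩ := hg a ha hz hs
    exact ⟨v, fun t ht h1 => ((h.in1_two ha).1 (hv.conj ha ht h1)).resolve_left (NN.notZ ht hz)⟩

theorem J3.odd (h : Val F E r) (hr : r ≠ 2) (ho : ∀ a ∈ E, Spl F a)
    (hg : ∀ x ∈ E, x ∉ Zs F V → Spl F x → ∃ v, Gen F E x v) (ha : a ∈ E) (hb : b ∈ E)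
    (hz : b ∉ Zs F V) : Pin F E a b := by
  have key : ∀ a ∈ E, bt F b a ≠ 1 → Pin F E a b := fun a ha h1 => by
    obtain ⟨v, hv⟩ := hg b hb hz (ho b hb)
    obtain ⟨μ, hμ⟩ := h.norm ha (ho a ha)
    have hm := E.mul_mem (h.scm μ) ha
    refine (h.pin1 hr hm hb hμ ?_ hv).mono h hm hb (Or.inl (J3.in1_sc μ)) in1_self
    rwa [h.bt_mul_right hb (h.scm μ) ha, h.bt_Z_right hb (sc_mem μ), one_mul]
  by_cases h1 : In1 F b a
  · obtain ⟨a₀, ha₀, h2⟩ := h.ex_bt hb hz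
    exact (key a₀ ha₀ h2).mono h ha₀ hb (Or.inr h1) in1_self
  by_cases h2 : bt F b a = 1
  swap
  · exact key a ha h2
  have h3 := mt (h.perp1 ha hb) h1
  push Not at h3
  obtain ⟨x, hx, h4, h5⟩ := h3
  obtain ⟨v, hv⟩ := hg x hx (fun h6 => h5 (h.bt_Z_right ha h6)) (ho x hx)
  obtain ⟨μ, h6, h7⟩ := h.avg hb (ho b hb) hv.1
  have hm := E.mul_mem (h.scm μ) hb
  have h8 : ∀ y ∈ E, bt F y (sc F V μ * b) = bt F y b := fun y hy => by
    rw [h.bt_mul_right hy (h.scm μ) hb, h.bt_Z_right hy (sc_mem μ), one_mul]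
  refine (h.pin2 hr ha hm hx ?_ (mt (h.bt_one_comm hx ha).1 h5) ?_ ?_ hv h6 h7).mono h ha hm
    (Or.inl in1_self) (J3.in1_sc μ)
  · rw [h8 x hx, (h.bt_one_comm hb hx).1 h4]
  · rw [h8 a ha, (h.bt_one_comm hb ha).1 h2]
  · exact fun h9 => hz ((mul_mem_cancel_left (sc_mem μ)).1 h9)

theorem Val.pin (h : Val F E r) (ho : Ok F E r)
    (hg : ∀ x ∈ E, x ∉ Zs F V → Spl F x → ∃ v, Gen F E x v) (ha : a ∈ E) (hb : b ∈ E) :
    Pin F E a b := by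
  by_cases hr : r = 2
  · subst hr
    have key : ∀ a ∈ E, ∀ b ∈ E, ¬ Spl F a → Pin F E a b := fun a ha b hb h1 => by
      obtain ⟨s, hs, h2, h3⟩ := h.ex_spl_bt ho ha fun h2 => h1 (h.spl_Z h2)
      obtain ⟨v, hv⟩ := hg s hs (fun h4 => h3 (h.bt_Z_left h4 ha)) h2
      exact h.pin3 (ho.resolve_left fun h4 => h1 (h4 a ha)).2.1 ha hb hs h1 h3 hv
    by_cases h1 : Spl F a
    · by_cases h2 : Spl F b
      · obtain ⟨v, hv⟩ := J3.one h hg ha h1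
        obtain ⟨w, hw⟩ := J3.one h hg hb h2
        exact ⟨v, w, fun t ht h3 h4 => Or.inl ⟨hv t ht h3, hw t ht h4⟩⟩
      · exact (key b hb a ha h2).symm
    · exact key a ha b hb h1
  · have ho' := ho.resolve_right fun h1 => hr h1.1
    by_cases h1 : b ∈ Zs F V
    · by_cases h2 : a ∈ Zs F V
      · exact ⟨0, 0, fun t ht _ _ => Or.inl ⟨mul_mem (NN.conjZ ht h2) (inv_mem h2),
          mul_mem (NN.conjZ ht h1) (inv_mem h1)⟩⟩
      · exact (J3.odd h hr ho' hg hb ha h2).symm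
    · exact J3.odd h hr ho' hg ha hb h1

end CF.C3c
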