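import Cfsg.Agent.C3c.J3

/-! The exceptional configuration: a flag. -/

set_option autoImplicit false
set_option linter.unusedSectionVars false

namespace CF.C3c

open Subgroup

universe u

variable {F V : Type u} [Field F] [Finite F] [AddCommGroup V] [Finite V] [Module F V]
  {G E X : Subgroup (Gm V)} {n r : ℕ} {a b c e s t x y : Gm V} {v w : V}

/-- the centraliser of `x, y` modulo `⟨x, y⟩Z` is anisotropic -/
theorem Exc.aniso (hx : Exc F E x y) (h : Val F E 2) (hc : c ∈ E) (he : e ∈ E) (c1 : bt F x c = 1)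
    (c2 : bt F y c = 1) (c3 : ¬ In2 F x y c) (e1 : bt F x e = 1) (e2 : bt F y e = 1)
    (e3 : bt F c e = 1) : In2 F x y e ∨ In2 F x y (e * c) := by
  by_cases h1 : In2 F x y e
  · exact Or.inl h1
  refine Or.inr (hx.mx _ (E.mul_mem he hc) ?_ ?_ ?_)
  · rw [h.bt_mul_right hx.hx he hc, e1, c1, one_mul]
  · rw [h.bt_mul_right hx.hy he hc, e2, c2, one_mul]
  · rw [h.spl_mul he hc ((h.bt_one_comm hc he).1 e3)]
    exact iff_of_false (fun h2 => h1 (hx.mx e he e1 e2 h2)) fun h2 => c3 (hx.mx c hc c1 c2 h2)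

theorem Val.joint (h : Val F E 2) (hx : x ∈ E) (hy : y ∈ E) (sx : Spl F x) (sy : Spl F y)
    (xy : bt F x y = 1) : ∃ v : V, v ≠ 0 ∧ Ev F x v ∧ Ev F y v := by
  obtain ⟨v, hv, l, hl⟩ := sx
  obtain ⟨μ, h1, h2⟩ := h.avg hy sy hv
  have hm := E.mul_mem (h.scm μ) hy
  refine ⟨_, h2, ⟨l, ?_⟩, h.in1_ev hm (J3.in1_sc μ) ⟨1, by rw [sum_fix h1, one_smul]⟩⟩
  rw [Finset.smul_sum, Finset.smul_sum]
  refine Finset.sum_congr rfl fun j _ => ?_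
  rw [h.shift hx (E.pow_mem hm j) hl, h.bt_pow_right hx hm, h.bt_mul_right hx (h.scm μ) hy,
    h.bt_Z_right hx (sc_mem μ), xy]
  simp

theorem Val.bt_cm (h : Val F E r) (hs : s ∈ E) (ha : a ∈ E) (ht : t ∈ NN F E)
    (h1 : bt F s (t * a * t⁻¹) = bt F s a) : bt F s (cm t a) = 1 := by
  rw [cm, h.bt_mul_right hs (NN.conj ht ha) (E.inv_mem ha), h.bt_inv_right hs ha, h1, mul_inv_cancel]

theorem cm_mem (ht : t ∈ NN F E) (ha : a ∈ E) : cm t a ∈ E :=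
  E.mul_mem (NN.conj ht ha) (E.inv_mem ha)

theorem Val.bt_conj_inv (h : Val F E 2) (ht : t ∈ NN F E) (hs : s ∈ E) (ha : a ∈ E) :
    bt F s (t * a * t⁻¹) = bt F (t⁻¹ * s * t⁻¹⁻¹) a := by
  rw [← h.bt_conj_two ht (NN.conj (inv_mem ht) hs) ha]
  congr 1
  group

theorem Val.bt_congr_left (h : Val F E r) {a' : Gm V} (ha : a ∈ E) (hb : b ∈ E)
    (h1 : a' * a⁻¹ ∈ Zs F V) : bt F a' b = bt F a b := by
  rw [← inv_mul_cancel_right a' a, h.bt_mul_left (h.zle h1) ha hb, h.bt_Z_left h1 hb, one_mul]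

theorem K1.fix (hx : Exc F E x y) (h : Val F E 2) (hv : v ≠ 0) (vx : Ev F x v) (vy : Ev F y v)
    {e₀ e₁ : Gm V} (h₀ : e₀ ∈ E) (h₁ : e₁ ∈ E) (x0 : bt F x e₀ = 1) (y0 : bt F y e₀ = 1)
    (x1 : bt F x e₁ = 1) (y1 : bt F y e₁ ≠ 1) (ht : t ∈ NN F E) (tv : t • v = v)
    (tw : t • (e₀ • v + e₁ • v) = e₀ • v + e₁ • v) :
    (∀ a, In2 F x y a → In2 F x y (t * a * t⁻¹)) ∧ In2 F x y (e₀⁻¹ * (t * e₀ * t⁻¹)) ∧
      t * x * t⁻¹ * x⁻¹ ∈ Zs F V := by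
  have hS : ∀ a ∈ E, Ev F a v → In2 F x y a := fun a ha h1 =>
    hx.mx a ha (h.bt_ev hx.hx ha hv vx h1) (h.bt_ev hx.hy ha hv vy h1) ⟨v, hv, h1⟩
  have hc : ∀ t ∈ NN F E, t • v = v → ∀ a, In2 F x y a → In2 F x y (t * a * t⁻¹) := by
    intro t ht tv a ha
    have := (h.in2_ev hx.hx hx.hy ha vx vy).conj ht.2
    rw [tv] at this
    exact hS _ (NN.conj ht (h.in2_mem hx.hx hx.hy ha)) this
  have tv' : t⁻¹ • v = v := inv_smul_eq_iff.2 tv.symm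
  have h0' := NN.conj ht h₀
  have h1' := NN.conj ht h₁
  have a0 : ∀ s, In2 F x y s → bt F s (t * e₀ * t⁻¹) = 1 := fun s hs => by
    rw [h.bt_conj_inv ht (h.in2_mem hx.hx hx.hy hs) h₀]
    exact h.in2_bt hx.hx hx.hy h₀ (hc _ (inv_mem ht) tv' s hs) x0 y0
  have hy' := hc t ht tv y in2_right
  have hyE := NN.conj ht hx.hy
  have a1 : bt F (t * y * t⁻¹) (t * e₁ * t⁻¹) ≠ 1 := mt (h.bt_conj_one ht hx.hy h₁).1 y1
  have hw : (t * e₀ * t⁻¹) • v + (t * e₁ * t⁻¹) • v = e₀ • v + e₁ • v := by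
    rw [← tw, smul_add]
    simp only [mul_smul, tv']
  obtain ⟨l, hl⟩ := h.in2_ev hx.hx hx.hy hy' vx vy
  have hl0 := ev_ne hv hl
  have hev : ∀ e ∈ E, bt F (t * y * t⁻¹) e = 1 → (t * y * t⁻¹) • e • v = l • e • v := fun e he h2 => by
    rw [h.shift hyE he hl, h2, Units.val_one, one_mul]
  have b0 := hev e₀ h₀ (h.in2_bt hx.hx hx.hy h₀ hy' x0 y0)
  have b0' := hev _ h0' (a0 _ hy')
  have b1' := h.shift hyE h1' hl
  have a2 : bt F (t * y * t⁻¹) e₁ ≠ 1 := by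
    intro h2
    obtain ⟨P, hP1, hP2⟩ := proj (h.lin hyE) ((bt F (t * y * t⁻¹) (t * e₁ * t⁻¹) : F) * l)
    have h3 := congrArg P hw
    rw [map_add, map_add, hP1 _ b1', hP2 _ _ (J1.ne1 hl0 a1).symm b0', hP2 _ _ (J1.ne1 hl0 a1).symm b0,
      hP2 _ _ (J1.ne1 hl0 a1).symm (hev e₁ h₁ h2), zero_add, zero_add] at h3
    exact gm_ne _ hv h3
  rcases cmp2 (h.lin hyE) b0 (h.shift hyE h₁ hl) b0' b1' (J1.ne1 hl0 a2).symm (J1.ne1 hl0 a1).symm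
    (gm_ne _ hv) (gm_ne _ hv) hw with ⟨-, f2, f3⟩ | ⟨f1, -⟩
  swap
  · exact absurd f1 (J1.ne1 hl0 a1)
  refine ⟨hc t ht tv, hS _ (E.mul_mem (E.inv_mem h₀) h0') (fix_of_eq f2), ?_⟩
  have hx' := hc t ht tv x in1_self.in2
  have hxE := NN.conj ht hx.hx
  have hm := E.mul_mem (E.inv_mem h₁) h1'
  have g1 : bt F (t * x * t⁻¹) e₁ = 1 := by
    have h2 := h.bt_ev hxE hm hv (h.in2_ev hx.hx hx.hy hx' vx vy) (fix_of_eq f3)
    rwa [h.bt_mul_right hxE (E.inv_mem h₁) h1', (h.bt_conj_one ht hx.hx h₁).2 x1, mul_one,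
      h.bt_inv_right hxE h₁, inv_eq_one] at h2
  refine ((h.in1_two hx.hx).1 (((h.in2_two hx.hx hx.hy).1 hx').resolve_right fun h2 => y1 ?_)).resolve_left
    (NN.notZ ht hx.nx)
  have h3 := h.in1_bt hx.hx h₁ h2 x1
  rwa [h.bt_mul_left hxE (E.inv_mem hx.hy) h₁, g1, one_mul, h.bt_inv_left hx.hy h₁, inv_eq_one] at h3

theorem Exc.flag (hx : Exc F E x y) (h : Val F E 2) : ∃ v w : V, ∀ t ∈ NN F E, t • v = v → t • w = w →
    ∀ e ∈ E, (cm t)^[6] e ∈ Zs F V := by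
  obtain ⟨v, hv, vx, vy⟩ := h.joint hx.hx hx.hy hx.sx hx.sy hx.xy
  obtain ⟨e₁, h₁, x1, y1⟩ : ∃ e ∈ E, bt F x e = 1 ∧ bt F y e ≠ 1 := by
    have := mt (h.perp1 hx.hy hx.hx) hx.ny
    push Not at this
    exact this
  obtain ⟨e₀, h₀, x0, y0, h4⟩ : ∃ e₀ ∈ E, bt F x e₀ = 1 ∧ bt F y e₀ = 1 ∧ ∀ e ∈ E, bt F x e = 1 →
      bt F y e = 1 → bt F e₀ e = 1 → In2 F x y e ∨ In2 F x y (e * e₀) := by
    by_cases h5 : ∃ c ∈ E, bt F x c = 1 ∧ bt F y c = 1 ∧ ¬ In2 F x y c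
    · obtain ⟨c, hc, c1, c2, c3⟩ := h5
      exact ⟨c, hc, c1, c2, fun e he => hx.aniso h hc he c1 c2 c3⟩
    · push Not at h5
      exact ⟨1, E.one_mem, h.bt_Z_right hx.hx (one_mem _), h.bt_Z_right hx.hy (one_mem _),
        fun e he e1 e2 _ => Or.inl (h5 e he e1 e2)⟩
  refine ⟨v, e₀ • v + e₁ • v, fun t ht tv tw => ?_⟩
  obtain ⟨p1, p2, p3⟩ := K1.fix hx h hv vx vy h₀ h₁ x0 y0 x1 y1 ht tv tw
  obtain ⟨q1, q2, q3⟩ := K1.fix hx h hv vx vy h₀ h₁ x0 y0 x1 y1 (inv_mem ht)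
    (inv_smul_eq_iff.2 tv.symm) (inv_smul_eq_iff.2 tw.symm)
  have s6 : ∀ a ∈ E, bt F x (cm t a) = 1 := fun a ha => h.bt_cm hx.hx ha ht (by
    rw [h.bt_conj_inv ht hx.hx ha, h.bt_congr_left hx.hx ha q3])
  have y2 : In1 F x (t⁻¹ * y * t⁻¹⁻¹ * y⁻¹) :=
    ((h.in2_two hx.hx hx.hy).1 (q1 y in2_right)).resolve_left fun h2 => y1 (by
      obtain ⟨μ, k, h3⟩ := h2
      refine absurd ?_ hx.ny
      have h5 : y = t * sc F V μ * t⁻¹ * (t * x * t⁻¹) ^ k := by rw [conj_pow, eq_comm]; calc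
        _ = t * (sc F V μ * x ^ k) * t⁻¹ := by group
        _ = y := by rw [← h3]; group
      rw [h5]
      exact h.in1_mul hx.hx (in1_of_Z (NN.conjZ ht (sc_mem μ)))
        (h.in1_pow' hx.hx ((h.in1_two hx.hx).2 (Or.inr p3)) k))
  have s5 : ∀ a ∈ E, bt F x a = 1 → bt F y (cm t a) = 1 := fun a ha a1 => h.bt_cm hx.hy ha ht (by
    have h2 := h.in1_bt hx.hx ha y2 a1
    rw [h.bt_mul_left (NN.conj (inv_mem ht) hx.hy) (E.inv_mem hx.hy) ha, h.bt_inv_left hx.hy ha,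
      mul_inv_eq_one] at h2
    rw [h.bt_conj_inv ht hx.hy ha, h2])
  have s4 : ∀ a ∈ E, bt F x a = 1 → bt F y a = 1 → bt F e₀ (cm t a) = 1 := fun a ha a1 a2 =>
    h.bt_cm h₀ ha ht (by
      have h2 := h.in2_bt hx.hx hx.hy ha q2 a1 a2
      rw [h.bt_mul_left (E.inv_mem h₀) (NN.conj (inv_mem ht) h₀) ha, h.bt_inv_left h₀ ha,
        inv_mul_eq_one] at h2
      rw [h.bt_conj_inv ht h₀ ha, h2])
  have s3 : ∀ a ∈ E, bt F x a = 1 → bt F y a = 1 → bt F e₀ a = 1 → In2 F x y (cm t a) := by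
    intro a ha a1 a2 a3
    rcases h4 a ha a1 a2 a3 with h5 | h5
    · exact h.in2_mul hx.hx hx.hy (p1 a h5) (h.in2_inv hx.hx hx.hy h5)
    · have h6 := h.in2_mul hx.hx hx.hy (h.in2_mul hx.hx hx.hy (p1 _ h5) (h.in2_inv hx.hx hx.hy p2))
        (h.in2_inv hx.hx hx.hy h5)
      have h7 : t * (a * e₀) * t⁻¹ * (e₀⁻¹ * (t * e₀ * t⁻¹))⁻¹ * (a * e₀)⁻¹ = cm t a := by
        rw [cm]; group
      rwa [h7] at h6
  have s1 : ∀ a, In1 F x a → cm t a ∈ Zs F V := fun a ha => J3.pos h ht hx.hx ha p3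
  have s2 : ∀ a, In2 F x y a → In1 F x (cm t a) := by
    intro a ha
    rcases (h.in2_two hx.hx hx.hy).1 ha with h5 | h5
    · exact in1_of_Z (s1 a h5)
    · rcases (h.in2_two hx.hx hx.hy).1 (p1 a ha) with h6 | h6
      · have h7 := J3.pos h (inv_mem ht) hx.hx h6 q3
        have h8 : In1 F x a := by
          have := h.in1_mul hx.hx (in1_of_Z h7) h6
          rwa [show t⁻¹ * (t * a * t⁻¹) * t⁻¹⁻¹ * (t * a * t⁻¹)⁻¹ * (t * a * t⁻¹) = a by group] at this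
        exact in1_of_Z (s1 a h8)
      · have := h.in1_mul hx.hx h6 (h.in1_inv hx.hx h5)
        rwa [show t * a * t⁻¹ * y⁻¹ * (a * y⁻¹)⁻¹ = cm t a by rw [cm]; group] at this
  intro e he
  have m1 := cm_mem ht he
  have m2 := cm_mem ht m1
  have m3 := cm_mem ht m2
  exact s1 _ (s2 _ (s3 _ m3 (s6 _ m2) (s5 _ m2 (s6 _ m1)) (s4 _ m2 (s6 _ m1) (s5 _ m1 (s6 _ he)))))

end CF.C3c
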