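import Cfsg.Agent.C3c.U

/-! The order of the quotient in the exceptional case. -/

set_option autoImplicit false
set_option linter.unusedSectionVars false

namespace CF.C3c

open Subgroup

universe u

namespace K2

variable {U : Type*} [AddCommGroup U] [Finite U] {B : U → U → ZMod 2} {S : U → Prop} {x y : U}

theorem spl (P Q : U → Prop) : {u | P u}.ncard = {u | P u ∧ Q u}.ncard + {u | P u ∧ ¬ Q u}.ncard :=
  (Set.ncard_inter_add_ncard_diff_eq_ncard {u | P u} {u | Q u}).symm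

theorem half (P Q : U → Prop) (t : U) (hP : ∀ u, P u → P (u + t)) (hQ : ∀ u, P u → (Q (u + t) ↔ ¬ Q u)) :
    {u | P u}.ncard = 2 * {u | P u ∧ Q u}.ncard ∧ {u | P u ∧ ¬ Q u}.ncard = {u | P u ∧ Q u}.ncard := by
  have h1 := Set.ncard_le_ncard_of_injOn (s := {u | P u ∧ Q u}) (t := {u | P u ∧ ¬ Q u}) (· + t)
    (fun u h => ⟨hP u h.1, fun k => (hQ u h.1).1 k h.2⟩) (add_left_injective t).injOn
  have h2 := Set.ncard_le_ncard_of_injOn (s := {u | P u ∧ ¬ Q u}) (t := {u | P u ∧ Q u}) (· + t)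
    (fun u h => ⟨hP u h.1, (hQ u h.1).2 h.2⟩) (add_left_injective t).injOn
  have := spl P Q
  omega

open Classical in
/-- scalar multiples -/
noncomputable def sm (k : ZMod 2) (u : U) : U := if k = 0 then 0 else u

theorem z2 : ∀ x : ZMod 2, x ≠ 0 → x = 1 := by decide
theorem z3 : ∀ x y : ZMod 2, y ≠ 0 → (x + y = 0 ↔ ¬ x = 0) := by decide
theorem z4 : ∀ x : ZMod 2, x + x = 0 := by decide

theorem core (two : ∀ a : U, a + a = 0) (add : ∀ a b c, B (a + b) c = B a c + B b c) (symm : ∀ a b, B a b = B b a)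
    (alt : ∀ a, B a a = 0) (nd : ∀ a, (∀ b, B a b = 0) → a = 0) (s0 : S 0)
    (m1 : ∀ a b, B a b = 0 → (S (a + b) ↔ (S a ↔ S b)))
    (m2 : (∀ a, S a) ∨ ∀ a b, B a b ≠ 0 → (S (a + b) ↔ ¬ (S a ↔ S b))) (sx : S x) (sy : S y) (x0 : x ≠ 0) (y0 : y ≠ 0)
    (yx : y ≠ x) (xy : B x y = 0) (mx : ∀ e, B x e = 0 → B y e = 0 → S e → e = 0 ∨ e = x ∨ e = y ∨ e = x + y) :
    Nat.card U = 16 ∨ (Nat.card U = 64 ∧ {u | u ≠ 0 ∧ S u}.ncard = 27) := by
  have add' : ∀ a b c, B a (b + c) = B a b + B a c := fun a b c => by rw [symm, add, symm b, symm c]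
  have z : ∀ c, B 0 c = 0 := fun c => by have := add 0 0 c; rwa [add_zero, left_eq_add] at this
  have sB : ∀ k u v, B (sm k u) v = k * B u v := fun k u v => by
    unfold sm; split_ifs with h
    · rw [h, z, zero_mul]
    · rw [z2 k h, one_mul]
  have sB' : ∀ k u v, B v (sm k u) = k * B v u := fun k u v => by rw [symm, sB, symm]
  have sS : ∀ k u, S u → S (sm k u) := fun k u h => by unfold sm; split_ifs; exacts [s0, h]
  have cn : ∀ {a b : U}, a + b = 0 → a = b := fun {a b} e => by rw [← add_zero a, ← two b, ← add_assoc, e, zero_add]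
  have ex : ∀ a, a ≠ 0 → ∃ b, B a b = 1 := fun a h => by
    by_contra! k
    exact h (nd a fun b => by_contra fun e => k b (z2 _ e))
  have yx' : B y x = 0 := (symm ..).trans xy
  obtain ⟨b, xb, yb⟩ : ∃ b, B x b = 0 ∧ B y b = 1 := by
    obtain ⟨b, hb⟩ := ex y y0
    obtain ⟨c, hc⟩ := ex (x + y) fun e => yx (cn e).symm
    rw [add] at hc
    by_cases h1 : B x b = 0
    · exact ⟨b, h1, hb⟩
    by_cases h2 : B x c = 0
    · exact ⟨c, h2, by rwa [h2, zero_add] at hc⟩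
    · rw [z2 _ h2, add_eq_left] at hc
      exact ⟨b + c, by rw [add', z2 _ h1, z2 _ h2, z4], by rw [add', hb, hc, add_zero]⟩
  obtain ⟨a, xa, ya⟩ : ∃ a, B x a = 1 ∧ B y a = 0 := by
    obtain ⟨a, ha⟩ := ex x x0
    exact ⟨a + sm (B y a) b, by rw [add', sB', xb, ha, mul_zero, add_zero], by rw [add', sB', yb, mul_one, z4]⟩
  have sxy : S (x + y) := (m1 x y xy).2 (iff_of_true sx sy)
  have c4 : ∀ P : U → Prop, P 0 → P x → P y → P (x + y) → (∀ u, P u → B x u = 0 ∧ B y u = 0 ∧ S u) →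
      {u | P u}.ncard = 4 := fun P p0 p1 p2 p3 k => Set.ncard_eq_four.2 ⟨0, x, y, x + y, x0.symm, y0.symm,
    fun e => yx (cn e.symm).symm, yx.symm, fun e => y0 (left_eq_add.1 e), fun e => x0 (right_eq_add.1 e),
    Set.ext fun u => ⟨fun h => mx u (k u h).1 (k u h).2.1 (k u h).2.2, by rintro (rfl | rfl | rfl | rfl) <;> assumption⟩⟩
  have z' : ∀ c, B c 0 = 0 := fun c => (symm ..).trans (z c)
  have w1 : B x (x + y) = 0 := by rw [add', alt, xy, add_zero]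
  have w2 : B y (x + y) = 0 := by rw [add', alt, yx', add_zero]
  have h0 : Nat.card U = {u : U | True}.ncard := (Set.ncard_univ U).symm
  have h1 := half (fun _ => True) (B x · = 0) a (fun _ => id) fun u _ => by rw [add']; exact z3 _ _ (by rw [xa]; decide)
  have h2 := half (fun u => True ∧ B x u = 0) (B y · = 0) b (fun u h => ⟨trivial, by rw [add', h.2, xb, add_zero]⟩)
    fun u _ => by rw [add']; exact z3 _ _ (by rw [yb]; decide)
  by_cases all : ∀ c, B x c = 0 → B y c = 0 → S c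
  · have := c4 (fun u => (True ∧ B x u = 0) ∧ B y u = 0) ⟨⟨trivial, z' _⟩, z' _⟩ ⟨⟨trivial, alt _⟩, yx'⟩
      ⟨⟨trivial, xy⟩, alt _⟩ ⟨⟨trivial, w1⟩, w2⟩ fun u h => ⟨h.1.2, h.2, all u h.1.2 h.2⟩
    omega
  push Not at all
  obtain ⟨c, xc, yc, sc⟩ := all
  replace m2 := m2.resolve_left fun h => sc (h c)
  have cx : B c x = 0 := (symm ..).trans xc
  have cy : B c y = 0 := (symm ..).trans yc
  obtain ⟨d, xd, yd, cd⟩ : ∃ d, B x d = 0 ∧ B y d = 0 ∧ B c d ≠ 0 := by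
    by_contra! k
    have e := nd (c + (sm (B c a) x + sm (B c b) y)) fun u => by
      have k1 : B x (u + (sm (B x u) a + sm (B y u) b)) = 0 := by
        rw [add', add', sB', sB', xa, xb, mul_one, mul_zero, add_zero, z4]
      have k2 : B y (u + (sm (B x u) a + sm (B y u) b)) = 0 := by
        rw [add', add', sB', sB', ya, yb, mul_one, mul_zero, zero_add, z4]
      have k3 := k _ k1 k2
      rw [add', add', sB', sB'] at k3
      rw [add, add, sB, sB, mul_comm (B c a), mul_comm (B c b), k3]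
    exact sc (cn e ▸ (m1 _ _ (by rw [sB, sB', xy, mul_zero, mul_zero])).2 (iff_of_true (sS _ _ sx) (sS _ _ sy)))
  have h3 := half (fun u => (True ∧ B x u = 0) ∧ B y u = 0) (B c · = 0) d
    (fun u h => ⟨⟨trivial, by rw [add', h.1.2, xd, add_zero]⟩, by rw [add', h.2, yd, add_zero]⟩)
    fun u _ => by rw [add']; exact z3 _ _ cd
  have h4 := half (fun u => ((True ∧ B x u = 0) ∧ B y u = 0) ∧ B c u = 0) S c
    (fun u h => ⟨⟨⟨trivial, by rw [add', h.1.1.2, xc, add_zero]⟩, by rw [add', h.1.2, yc, add_zero]⟩,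
      by rw [add', h.2, alt, add_zero]⟩) fun u h => by rw [m1 u c ((symm ..).trans h.2)]; tauto
  have h4' := c4 (fun u => (((True ∧ B x u = 0) ∧ B y u = 0) ∧ B c u = 0) ∧ S u) ⟨⟨⟨⟨trivial, z' _⟩, z' _⟩, z' _⟩, s0⟩
    ⟨⟨⟨⟨trivial, alt _⟩, yx'⟩, cx⟩, sx⟩ ⟨⟨⟨⟨trivial, xy⟩, alt _⟩, cy⟩, sy⟩
    ⟨⟨⟨⟨trivial, w1⟩, w2⟩, by rw [add', cx, cy, add_zero]⟩, sxy⟩ fun u h => ⟨h.1.1.1.2, h.1.1.2, h.2⟩
  have h5 := half (fun u => True ∧ ¬ B x u = 0) S x (fun u h => ⟨trivial, by rw [add', alt, add_zero]; exact h.2⟩)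
    fun u h => by rw [m2 u x (symm u x ▸ h.2)]; tauto
  have h6 := half (fun u => (True ∧ B x u = 0) ∧ ¬ B y u = 0) S y
    (fun u h => ⟨⟨trivial, by rw [add', h.1.2, xy, add_zero]⟩, by rw [add', alt, add_zero]; exact h.2⟩)
    fun u h => by rw [m2 u y (symm u y ▸ h.2)]; tauto
  have t1 := spl S (B x · = 0)
  have t2 := spl (fun u => S u ∧ B x u = 0) (B y · = 0)
  have t3 := c4 (fun u => (S u ∧ B x u = 0) ∧ B y u = 0) ⟨⟨s0, z' _⟩, z' _⟩ ⟨⟨sx, alt _⟩, yx'⟩ ⟨⟨sy, xy⟩, alt _⟩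
    ⟨⟨sxy, w1⟩, w2⟩ fun u h => ⟨h.1.2, h.2, h.1.1⟩
  have t4 := spl S (· = 0)
  rw [show {u | S u ∧ ¬ B x u = 0} = {u | (True ∧ ¬ B x u = 0) ∧ S u} from Set.ext fun _ => by simp [and_comm]] at t1
  rw [show {u | (S u ∧ B x u = 0) ∧ ¬ B y u = 0} = {u | ((True ∧ B x u = 0) ∧ ¬ B y u = 0) ∧ S u} from
    Set.ext fun _ => by simp only [Set.mem_setOf_eq]; tauto] at t2
  rw [show {u | S u ∧ u = 0} = {0} from Set.ext fun _ => ⟨And.right, by rintro rfl; exact ⟨s0, rfl⟩⟩,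
    show {u | S u ∧ ¬ u = 0} = {u | u ≠ 0 ∧ S u} from Set.ext fun _ => and_comm, Set.ncard_singleton] at t4
  omega

end K2

variable {F V : Type u} [Field F] [Finite F] [AddCommGroup V] [Finite V] [Module F V]
  {E : Subgroup (Gm V)} {x y : Gm V}

theorem Exc.card (hx : Exc F E x y) (h : Val F E 2) (ho : Ok F E 2) {U : Type u} [AddCommGroup U]
    {q : Gm V → U} {ρ : NN F E →* Gm U} (hU : UQ F E q ρ) :
    Nat.card U = 16 ∨ (Nat.card U = 64 ∧ {u : U | u ≠ 0 ∧ ∃ e ∈ E, q e = u ∧ Spl F e}.ncard = 27) := by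
  have : Finite U := Finite.of_surjective (fun a : E => q a) fun u => (hU.surj u).elim fun a k => ⟨⟨a, k.1⟩, k.2⟩
  obtain ⟨B, b0, two, add, symm, alt, nd, -⟩ := h.exB hU
  have s : ∀ {a}, a ∈ E → ((∃ e ∈ E, q e = q a ∧ Spl F e) ↔ Spl F a) := fun ha =>
    ⟨fun ⟨e, he, k, l⟩ => hU.spl_congr ha he k.symm l, fun l => ⟨_, ha, rfl, l⟩⟩
  have n := mt (h.in1_two hx.hx).2 hx.ny
  refine K2.core (S := fun u => ∃ e ∈ E, q e = u ∧ Spl F e) (x := q x) (y := q y) two add symm alt nd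
    ⟨1, E.one_mem, hU.one, h.spl_Z (one_mem _)⟩ (fun a b k => ?_) (ho.imp (fun k u => ?_) fun k a b l => ?_)
    ((s hx.hx).2 hx.sx) ((s hx.hy).2 hx.sy) (fun e => hx.nx ((hU.zero _ hx.hx).1 e))
    (fun e => n (.inl ((hU.zero _ hx.hy).1 e))) (fun e => n (.inr ((hU.eq_iff hx.hy hx.hx).1 e)))
    ((b0 _ hx.hx _ hx.hy).2 hx.xy) fun e k1 k2 k3 => ?_
  · obtain ⟨a, ha, rfl⟩ := hU.surj a
    obtain ⟨b, hb, rfl⟩ := hU.surj b
    rw [← hU.add a ha b hb, s ha, s hb, s (E.mul_mem ha hb), h.spl_mul ha hb ((b0 a ha b hb).1 k)]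
  · obtain ⟨a, ha, rfl⟩ := hU.surj u
    exact (s ha).2 (k a ha)
  · obtain ⟨a, ha, rfl⟩ := hU.surj a
    obtain ⟨b, hb, rfl⟩ := hU.surj b
    rw [← hU.add a ha b hb, s ha, s hb, s (E.mul_mem ha hb), h.spl_mul' k.2.1 ha hb (mt (b0 a ha b hb).2 l)]
  · obtain ⟨e, he, rfl⟩ := hU.surj e
    have := hx.mx e he ((b0 _ hx.hx e he).1 k1) ((b0 _ hx.hy e he).1 k2) ((s he).1 k3)
    rw [h.in2_two hx.hx hx.hy, h.in1_two hx.hx, h.in1_two hx.hx, mul_assoc, ← mul_inv_rev, ← hU.zero e he,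
      ← hU.eq_iff he hx.hx, ← hU.eq_iff he hx.hy, ← hU.eq_iff he (E.mul_mem hx.hx hx.hy), hU.add _ hx.hx _ hx.hy] at this
    tauto

end CF.C3c
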