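import Cfsg.Agent.C3c.L2
import Cfsg.Agent.BG.B10
import Cfsg.Agent.Char.Integral

/-! The symplectic lemma: a product of a solvable group and a 2-group is solvable. -/

set_option autoImplicit false
set_option linter.unusedSectionVars false

namespace CF.C3c

open Subgroup CF.BG
open scoped Pointwise

universe u
variable {V : Type u} [AddCommGroup V] [Finite V] {B : V → V → ZMod 2} {Sg : Set V}

theorem L3.com {H : Type*} [Group H] [Finite H] {M : Subgroup H} {g : H} {q : ℕ} (hq : q.Prime) (ho : orderOf g = q)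
    (n : g ∈ normalizer (M : Set H)) (c : ¬ Nat.card M ≡ 1 [MOD q]) : ∃ a ∈ M, a ≠ 1 ∧ g * a = a * g := by
  by_contra! k
  have := L1.cnt0 (fun a : H => MulAut.conj g • a) hq (M : Set H) (fun a ha => conj_mem_of_norm n ha) fun a _ => by
    rw [smul_iterate_apply, ← map_pow, ← ho, pow_orderOf_eq_one, map_one, one_smul]
  have e : {a | a ∈ (M : Set H) ∧ MulAut.conj g • a = a} = {1} := Set.eq_singleton_iff_unique_mem.2
    ⟨⟨M.one_mem, smul_one _⟩, fun a ha => by_contra fun e => k a ha.1 e (mul_inv_eq_iff_eq_mul.1 ha.2)⟩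
  rw [e, Set.ncard_singleton] at this
  exact c this

theorem SP.no35 (h : SP B Sg) (G : Subgroup (Gm V)) [s : Group.IsSolvable G] (hG : ∀ g ∈ G, Pres B Sg g)
    (h3 : 3 ∣ Nat.card G) (h5 : 5 ∣ Nat.card G) : False := by
  obtain ⟨K, hK⟩ := Sol.exists_hall s {3, 5}
  have ex : ∀ p : ℕ, p.Prime → p ∈ ({3, 5} : Set ℕ) → p ∣ Nat.card G → ∃ x ∈ K, orderOf x = p := fun p hp m d => by
    rw [← card_mul_relIndex hK.le] at d
    exact exists_mem_orderOf_eq hp ((hp.dvd_mul.1 d).resolve_right fun a => hK.idx p hp a m)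
  obtain ⟨t, tK, t3⟩ := ex 3 Nat.prime_three (by simp) h3
  obtain ⟨f, fK, f5⟩ := ex 5 Nat.prime_five (by simp) h5
  obtain ⟨p, M, hp, ne, n, -, ab⟩ := (Sol.mono s hK.le).exists_abelem_norm (A := K)
    (fun e => by rw [show t = 1 from e.le tK, orderOf_one] at t3; omega) (le_norm_self K)
  have l := n.le.trans hK.le
  obtain ⟨i, c⟩ : ∃ i, Nat.card M = p ^ i := ⟨_, ab.pi.card_eq⟩
  have i0 : i ≠ 0 := fun e => ne (card_eq_one.1 (by rw [c, e, pow_zero]))
  have pK := hK.pi p hp ((c ▸ dvd_pow_self p i0 : p ∣ Nat.card M).trans (card_dvd n.le))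
  rcases pK with rfl | rfl
  · have r := reg h.two M (fun a ha b hb => mem_cent.1 (ab.abel hb) a ha) (c ▸ (by decide : Odd 3).pow)
    have b4 : Nat.card V = 16 ∨ Nat.card V = 64 := h.card.imp_right And.left
    have : i < 4 := (Nat.pow_lt_pow_iff_right (a := 3) (by decide)).1 (by omega)
    obtain ⟨a, ha, a1, e⟩ := L3.com Nat.prime_five f5 (n.norm fK) (by rw [c]; interval_cases i <;> simp_all [Nat.ModEq])
    exact h.no15 (hG f (hK.le fK)) (hG a (l ha)) f5 (ab.orderOf ha a1) e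
  · have := Fact.mk Nat.prime_five
    obtain rfl : i = 1 := by_contra fun e => by
      obtain ⟨P, hP⟩ := Sylow.exists_subgroup_card_pow_prime (G := M) 5 (n := 2) (c ▸ pow_dvd_pow 5 (by omega))
      exact h.no25 (P.map M.subtype) (by rintro _ ⟨x, -, rfl⟩; exact hG _ (l x.2)) ((card_map M.subtype_injective).trans hP)
    obtain ⟨a, ha, a1, e⟩ := L3.com Nat.prime_three t3 (n.norm tK) (by rw [c]; decide)
    exact h.no15 (hG a (l ha)) (hG t (hK.le tK)) (ab.orderOf ha a1) t3 e.symm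

theorem SP.lemX (h : SP B Sg) (H G T : Subgroup (Gm V)) [Group.IsSolvable G]
    (hH : ∀ g ∈ H, Pres B Sg g) (hG : G ≤ H) (hT : T ≤ H) (h2 : IsPGroup 2 T)
    (hGT : ∀ x ∈ H, ∃ g ∈ G, g⁻¹ * x ∈ T) : Group.IsSolvable H := by
  have e : (G : Set (Gm V)) * (T : Set (Gm V)) = H := Set.ext fun x => ⟨by
    rintro ⟨a, ha, b, hb, rfl⟩; exact H.mul_mem (hG ha) (hT hb), fun hx => by
      obtain ⟨g, hg, k⟩ := hGT x hx
      exact ⟨g, hg, _, k, mul_inv_cancel_left g x⟩⟩
  have c := Solv.card_mul_set_mul_card_inf G T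
  rw [e] at c
  obtain ⟨i, hi⟩ := IsPGroup.iff_card.1 h2
  have d : ∀ p : ℕ, p.Prime → p ≠ 2 → p ∣ Nat.card H → p ∣ Nat.card G := fun p hp p2 k =>
    (hp.dvd_mul.1 (c ▸ k.mul_right _)).resolve_right fun a =>
      p2 ((Nat.prime_dvd_prime_iff_eq hp Nat.prime_two).1 (hp.dvd_of_dvd_pow (hi ▸ a)))
  have pr : ∀ p ∈ (Nat.card H).primeFactors, p = 2 ∨ p = 3 ∨ p = 5 := fun p hp => or_iff_not_imp_left.2 fun p2 => by
    have := Nat.prime_of_mem_primeFactors hp
    obtain ⟨x, hx, e⟩ := exists_mem_orderOf_eq this (Nat.dvd_of_mem_primeFactors hp)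
    exact (h.prime (hH _ hx) this p2 e).imp_right And.left
  have : ∃ q, ∀ p ∈ (Nat.card H).primeFactors, p = 2 ∨ p = q := by
    by_cases h3 : 3 ∣ Nat.card H
    · exact ⟨3, fun p hp => (pr p hp).imp_right fun a => a.resolve_right fun b => h.no35 G (fun g hg => hH g (hG hg))
        (d 3 Nat.prime_three (by decide) h3) (d 5 Nat.prime_five (by decide) (b ▸ Nat.dvd_of_mem_primeFactors hp))⟩
    · exact ⟨5, fun p hp => (pr p hp).imp_right fun a => a.resolve_left fun b => h3 (b ▸ Nat.dvd_of_mem_primeFactors hp)⟩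
  obtain ⟨q, hq⟩ := this
  exact Char.isSolvable_of_card_primeFactors_le_two ((Finset.card_le_card (t := {2, q}) fun p hp => by
    simpa using hq p hp).trans Finset.card_le_two)

end CF.C3c
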