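import Cfsg.Agent.C3c.K1
import Cfsg.Agent.C3c.K2
import Cfsg.Agent.C3c.L3

/-! The exceptional case: perfect subgroups of the closure act trivially on the quotient. -/

set_option autoImplicit false
set_option linter.unusedSectionVars false

namespace CF.C3c

open Subgroup

universe u

theorem K3.sq {U : Type u} [AddCommGroup U] (two : ∀ a : U, a + a = 0) (g : Gm U) (u : U) :
    g • (g • u - u) - (g • u - u) = (g * g) • u - u := by
  rw [smul_sub, mul_smul, ← add_zero (g • g • u - g • u - _), ← two (g • u - u), ← add_zero (g • g • u - u),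
    ← two u, ← sub_eq_zero, ← neg_zero, ← two u]
  abel

variable {F V : Type u} [Field F] [Finite F] [AddCommGroup V] [Finite V] [Module F V]
  {G E X : Subgroup (Gm V)} {x y : Gm V}

theorem Exc.triv (hx : Exc F E x y) (h : Val F E 2) (ho : Ok F E 2) [Group.IsSolvable G]
    (hN : cl2 G ≤ NN F E) [Group.IsPerfect X] (hX : X ≤ cl2 G) :
    ∀ g ∈ X, ∀ e ∈ E, g * e * g⁻¹ * e⁻¹ ∈ Zs F V := by
  obtain ⟨U, _, _, q, ρ, hU⟩ := h.exU
  obtain ⟨B, -, two, add, symm, alt, nd, inv⟩ := h.exB hU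
  have sp : SP B {u : U | u ≠ 0 ∧ ∃ e ∈ E, q e = u ∧ Spl F e} :=
    ⟨two, add, symm, alt, nd, (hx.card h ho hU).imp_right fun k => ⟨k.1, k.2, fun a => a.1 rfl⟩⟩
  obtain ⟨v, w, fl⟩ := hx.flag h
  let φ : cl2 G →* Gm U := ρ.comp (inclusion hN)
  let T : Subgroup (cl2 G) := (MulAction.stabilizer (Gm V) v ⊓ MulAction.stabilizer (Gm V) w).subgroupOf _
  have : Group.IsSolvable (G.subgroupOf (cl2 G)) :=
    Group.isSolvable_of_surjective (f := (subgroupOfEquivOfLe (le_cl2 G)).symm.toMonoidHom) (MulEquiv.surjective _)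
  have : Group.IsSolvable ((G.subgroupOf (cl2 G)).map φ) :=
    Group.isSolvable_of_surjective (φ.subgroupMap_surjective _)
  have s := sp.lemX φ.range ((G.subgroupOf (cl2 G)).map φ) (T.map φ) (by
    rintro _ ⟨t, rfl⟩
    refine ⟨inv _, ?_⟩
    rintro _ ⟨a0, e, he, rfl, l⟩
    exact ⟨(smul_ne_zero_iff_ne _).2 a0, _, NN.conj (hN t.2) he, (hU.act (inclusion hN t) e he).symm, l.conj (hN t.2).2⟩)
    (map_le_range _ _) (map_le_range _ _) (by
    rintro ⟨_, t, ht, rfl⟩
    refine ⟨3, Subtype.ext (gm_ext fun u => ?_)⟩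
    have k : ∀ (i : ℕ), ∀ a ∈ E, (cm t.1)^[i] a ∈ E ∧ q ((cm t.1)^[i] a) = (fun u => φ t • u - u)^[i] (q a) := fun i a ha => by
      induction i with
      | zero => exact ⟨ha, rfl⟩
      | succ i ih =>
        have m := NN.conj (hN t.2) ih.1
        rw [Function.iterate_succ_apply', Function.iterate_succ_apply', ← ih.2, cm,
          hU.add _ m _ (E.inv_mem ih.1), hU.inv ih.1, ← sub_eq_add_neg]
        exact ⟨E.mul_mem m (E.inv_mem ih.1), congrArg (· - _) (hU.act (inclusion hN t) _ ih.1).symm⟩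
    obtain ⟨a, ha, rfl⟩ := hU.surj u
    have k6 := (k 6 a ha).2.symm.trans ((hU.zero _ (k 6 a ha).1).2 (fl t (hN t.2) ht.1 ht.2 a ha))
    have k8 : (fun u => φ t • u - u)^[2 + 6] (q a) = 0 := by rw [Function.iterate_add_apply, k6]; simp
    simp only [Function.iterate_succ_apply', Function.iterate_zero_apply, K3.sq two, sub_eq_zero] at k8
    rw [Subgroup.coe_pow, OneMemClass.coe_one, one_smul, show 2 ^ 3 = 2 * 2 * 2 from rfl, pow_mul, pow_mul, pow_two, pow_two,
      pow_two]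
    exact k8) (by
    rintro _ ⟨t, rfl⟩
    obtain ⟨g, hg, h1, h2⟩ := t.2 v w
    refine ⟨_, ⟨⟨g, le_cl2 G hg⟩, hg, rfl⟩, ⟨g, le_cl2 G hg⟩⁻¹ * t, ⟨?_, ?_⟩, by rw [map_mul, map_inv]⟩
    · change (g⁻¹ * t.1) • v = v
      rw [mul_smul, ← h1, inv_smul_smul]
    · change (g⁻¹ * t.1) • w = w
      rw [mul_smul, ← h2, inv_smul_smul])
  let ψ := φ.comp (inclusion hX)
  have : Group.IsPerfect ψ.range := Group.IsPerfect.range ψ
  have s' : Group.IsSolvable ψ.range := Group.isSolvable_of_isSolvable_injective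
    (inclusion_injective (show ψ.range ≤ φ.range by rintro _ ⟨t, rfl⟩; exact ⟨_, rfl⟩))
  have : Subsingleton ψ.range := not_nontrivial_iff_subsingleton.1 fun _ => Group.IsPerfect.not_isSolvable ψ.range s'
  intro g hg e he
  have k : ψ ⟨g, hg⟩ = 1 := congrArg Subtype.val (Subsingleton.elim (⟨_, _, rfl⟩ : ψ.range) 1)
  rw [← hU.eq_iff (NN.conj (hN (hX hg)) he) he, ← hU.act ⟨g, hN (hX hg)⟩ e he]
  exact (congrArg (· • q e) k).trans (one_smul _ _)

end CF.C3c
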