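import Cfsg.Agent.C3c.A

/-! Averaging, counting fixed points, regular orbits, odd dimensional alternating forms. -/

set_option autoImplicit false
set_option linter.unusedSectionVars false

namespace CF.C3c

open Subgroup Finset

universe u
variable {V : Type u} [AddCommGroup V] [Finite V] {B : V → V → ZMod 2} {Sg : Set V}

namespace L1

theorem odd_smul {A : Type*} [AddCommGroup A] (h2 : ∀ a : A, a + a = 0) {k : ℕ} (hk : Odd k) (a : A) : k • a = a := by
  obtain ⟨j, rfl⟩ := hk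
  rw [add_smul, one_smul, two_mul, add_smul, h2, zero_add]

theorem cnt0 {α : Type*} [Finite α] (f : α → α) {p : ℕ} (hp : p.Prime) (A : Set α) (hA : ∀ a ∈ A, f a ∈ A)
    (hf : ∀ a ∈ A, f^[p] a = a) : A.ncard ≡ {a | a ∈ A ∧ f a = a}.ncard [MOD p] := by
  classical
  have := Fact.mk hp
  have := Fintype.ofFinite A
  let F : Function.End A := fun a => ⟨f a, hA a a.2⟩
  have e : ∀ (k : ℕ) (a : A), ((F ^ k) a : α) = f^[k] a := fun k => by
    induction k with
    | zero => exact fun _ => rfl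
    | succ k ih => exact fun a => by rw [pow_succ, Function.iterate_succ_apply]; exact ih _
  have := Equiv.Perm.card_fixedPoints_modEq (f := F) (p := p) (n := 1)
    (funext fun a => Subtype.ext (by rw [pow_one, e, hf a a.2]; rfl))
  rw [← Nat.card_eq_fintype_card, ← Nat.card_eq_fintype_card, Nat.card_coe_set_eq, Nat.card_coe_set_eq,
    ← Set.ncard_image_of_injective _ Subtype.val_injective] at this
  convert this using 2
  ext a
  exact ⟨fun h => ⟨⟨a, h.1⟩, Subtype.ext h.2, rfl⟩, by rintro ⟨b, h, rfl⟩; exact ⟨b.2, congrArg Subtype.val h⟩⟩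

theorem z2 : ∀ x : ZMod 2, x ≠ 0 → x = 1 := by decide

end L1

open L1

theorem avg (h2 : ∀ a : V, a + a = 0) {g : Gm V} {k : ℕ} (hk : Odd k) (hg : g ^ k = 1) :
    ∃ e : V →+ V, (∀ u, g • e u = e u) ∧ (∀ u, g • u = u → e u = u) ∧ (∀ u, e (g • u) = e u) ∧
      (∀ s : Gm V, s * g = g * s → ∀ u, e (s • u) = s • e u) ∧
      ∀ B : V → V → ZMod 2, (∀ a b c, B (a + b) c = B a c + B b c) → (∀ a b, B a b = B b a) →
        (∀ a b, B (g • a) (g • b) = B a b) → ∀ a b, B (e a) b = B a (e b) := by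
  let e : V →+ V := AddMonoidHom.mk' (fun u => ∑ j ∈ range k, g ^ j • u) fun a b => by
    simp only [smul_add, sum_add_distrib]
  have he : ∀ u, e u = ∑ j ∈ range k, g ^ j • u := fun _ => rfl
  have h1 : ∀ u, g • e u = e u := fun u => by
    have := (sum_range_succ' (fun j => g ^ j • u) k).symm.trans (sum_range_succ _ k)
    rw [hg, pow_zero, add_left_inj] at this
    rw [he, smul_sum, ← this]
    simp only [pow_succ', mul_smul]
  have fx : ∀ u : V, g • u = u → ∀ j : ℕ, g ^ j • u = u := fun u h j =>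
    pow_mem (show g ∈ MulAction.stabilizer (Gm V) u from h) j
  have h3 : ∀ s : Gm V, s * g = g * s → ∀ u, e (s • u) = s • e u := fun s h u => by
    simp only [he, smul_sum, ← mul_smul, ((show Commute s g from h).pow_right _).eq]
  refine ⟨e, h1, fun u h => by simp only [he, fx u h, sum_const, card_range, odd_smul h2 hk],
    fun u => by rw [h3 g rfl, h1], h3, fun B ad sy inv => ?_⟩
  have ip : ∀ (j : ℕ) a b, B (g ^ j • a) (g ^ j • b) = B a b := fun j => by
    induction j with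
    | zero => simp
    | succ j ih => intro a b; rw [pow_succ', mul_smul, mul_smul, inv, ih]
  have k1 : ∀ a b, B (e a) (e b) = B a (e b) := fun a b => by
    have := map_sum (AddMonoidHom.mk' (B · (e b)) fun x y => ad x y _) (fun j => g ^ j • a) (range k)
    refine this.trans ?_
    rw [sum_congr rfl fun j _ => show _ = B a (e b) by rw [← ip j, fx _ (h1 b)]; rfl, sum_const, card_range,
      odd_smul (by decide) hk]
  intro a b
  rw [← k1, sy (e a) (e b), k1, sy]

theorem cnt {g : Gm V} {p : ℕ} (hp : p.Prime) (hg : g ^ p = 1) (A : Set V)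
    (hA : ∀ a ∈ A, g • a ∈ A) : A.ncard ≡ {a | a ∈ A ∧ g • a = a}.ncard [MOD p] :=
  cnt0 (g • ·) hp A hA fun a _ => by rw [smul_iterate_apply, hg, one_smul]

theorem reg (h2 : ∀ a : V, a + a = 0) (M : Subgroup (Gm V)) (hM : ∀ a ∈ M, ∀ b ∈ M, a * b = b * a)
    (ho : Odd (Nat.card M)) : Nat.card M ≤ Nat.card V := by
  obtain ⟨u, -, hu⟩ := Set.exists_min_image Set.univ (fun u : V => {m | m ∈ M ∧ m • u = u}.ncard) Set.finite_univ
    ⟨0, trivial⟩
  have k : ∀ m ∈ M, m • u = u → m = 1 := fun m hm h => by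
    by_contra ne
    obtain ⟨z, hz⟩ : ∃ z : V, m • z ≠ z := by_contra fun c => ne (gm_ext fun v => by
      rw [one_smul]; exact by_contra fun d => c ⟨v, d⟩)
    obtain ⟨e, e1, e2, -, e4, -⟩ := avg h2 ho (g := m) (congrArg Subtype.val (pow_card_eq_one' (x := (⟨m, hm⟩ : M))))
    have ew : e (u + (z - e z)) = u := by rw [map_add, map_sub, e2 u h, e2 _ (e1 z), sub_self, add_zero]
    refine (hu (u + (z - e z)) trivial).not_gt (Set.ncard_lt_ncard ⟨fun s hs => ⟨hs.1, ?_⟩, fun c => hz ?_⟩)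
    · rw [← ew, ← e4 s (hM s hs.1 m hm), hs.2]
    · have := (c ⟨hm, h⟩).2
      rwa [smul_add, smul_sub, h, e1, add_right_inj, sub_left_inj] at this
  refine Nat.card_le_card_of_injective (fun m : M => (m : Gm V) • u) fun a b h => ?_
  exact Subtype.ext (inv_mul_eq_one.1 (k _ (M.mul_mem (M.inv_mem a.2) b.2) (by
    rw [mul_smul, inv_smul_eq_iff]; exact h.symm)))

theorem SP.zero (h : SP B Sg) (c : V) : B 0 c = 0 := by
  have := h.add 0 0 c
  rwa [add_zero, left_eq_add] at this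

theorem SP.add' (h : SP B Sg) (a b c : V) : B a (b + c) = B a b + B a c := by
  rw [h.symm, h.add, h.symm b, h.symm c]

theorem SP.alt2 (h : SP B Sg) (W : AddSubgroup V) (hW : Nat.card W = 2) :
    ∃ c ∈ W, c ≠ 0 ∧ ∀ w ∈ W, w = 0 ∨ w = c := by
  obtain ⟨c, c0, hc⟩ := (Nat.card_eq_two_iff' (0 : W)).1 hW
  exact ⟨c, c.2, fun e => c0 (Subtype.ext e), fun w hw => or_iff_not_imp_left.2 fun n =>
    congrArg Subtype.val (hc ⟨w, hw⟩ fun e => n (congrArg Subtype.val e))⟩

theorem SP.alt28 (h : SP B Sg) (W : AddSubgroup V) (hW : Nat.card W = 2 ∨ Nat.card W = 8) :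
    ∃ c ∈ W, c ≠ 0 ∧ ∀ w ∈ W, B c w = 0 := by
  rcases hW with hW | hW
  · obtain ⟨c, hc, c0, k⟩ := h.alt2 W hW
    exact ⟨c, hc, c0, fun w hw => (k w hw).elim (fun e => by rw [e, h.symm, h.zero]) fun e => by rw [e, h.alt]⟩
  by_contra! nd
  have : Nontrivial W := Finite.one_lt_card_iff_nontrivial.1 (by omega)
  obtain ⟨a, a0⟩ := exists_ne (0 : W)
  obtain ⟨b, hb, ab⟩ := nd a a.2 fun e => a0 (Subtype.ext e)
  replace ab := z2 _ ab
  let φ : W →+ ZMod 2 × ZMod 2 := AddMonoidHom.mk' (fun w => (B w a, B w b)) fun x y => Prod.ext (h.add ..) (h.add ..)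
  have fa : φ a = (0, 1) := Prod.ext (h.alt _) ab
  have fb : φ ⟨b, hb⟩ = (1, 0) := Prod.ext ((h.symm ..).trans ab) (h.alt _)
  have sp : ∀ x : ZMod 2 × ZMod 2, ∃ y, φ y = x ∧ ∀ c : W, φ c = 0 → B c y = 0 := fun x => by
    have k1 : ∀ c : W, φ c = 0 → B c a = 0 := fun c e => congrArg Prod.fst e
    have k2 : ∀ c : W, φ c = 0 → B c b = 0 := fun c e => congrArg Prod.snd e
    rcases (by decide : ∀ x : ZMod 2 × ZMod 2, x = 0 ∨ x = (0, 1) ∨ x = (1, 0) ∨ x = (0, 1) + (1, 0)) x with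
      rfl | rfl | rfl | rfl
    · exact ⟨0, map_zero φ, fun c _ => (h.symm ..).trans (h.zero _)⟩
    · exact ⟨a, fa, k1⟩
    · exact ⟨_, fb, k2⟩
    · exact ⟨a + ⟨b, hb⟩, by rw [map_add, fa, fb], fun c e => (h.add' ..).trans (by rw [k1 c e, k2 c e, add_zero])⟩
  have c1 := φ.ker.card_mul_index
  rw [AddSubgroup.index_ker, AddMonoidHom.range_eq_top.2 fun x => (sp x).imp fun _ k => k.1, AddSubgroup.card_top, hW,
    Nat.card_prod, Nat.card_zmod] at c1
  obtain ⟨c, hc, c0, k⟩ := h.alt2 (φ.ker.map W.subtype) (by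
    rw [AddSubgroup.card_map_of_injective W.subtype_injective]; omega)
  obtain ⟨c, hc, rfl⟩ := hc
  obtain ⟨w, hw, ne⟩ := nd c c.2 c0
  obtain ⟨y, e, hy⟩ := sp (φ ⟨w, hw⟩)
  have := k (w - y) ⟨⟨w, hw⟩ - y, by rw [SetLike.mem_coe, AddMonoidHom.mem_ker, map_sub, e, sub_self], rfl⟩
  apply ne
  rw [← sub_add_cancel w y, h.add', hy c hc, add_zero]
  exact this.elim (fun e => by rw [e, h.symm, h.zero]) fun e => by rw [e]; exact h.alt _

end CF.C3c
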