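import Cfsg.Agent.C3c.L1

/-! Elements of odd order acting on a small symplectic space. -/

set_option autoImplicit false
set_option linter.unusedSectionVars false

namespace CF.C3c

open Subgroup

universe u
variable {V : Type u} [AddCommGroup V] [Finite V] {B : V → V → ZMod 2} {Sg : Set V}

namespace L2

/-- the decomposition into fixed points and commutator space -/
structure Sp (B : V → V → ZMod 2) (g : Gm V) (W : AddSubgroup V) : Prop where
  card : {u : V | g • u = u}.ncard * Nat.card W = Nat.card V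
  fix : ∀ w ∈ W, g • w = w → w = 0
  inv : ∀ s : Gm V, s * g = g * s → ∀ w ∈ W, s • w ∈ W
  nd : ∀ c ∈ W, (∀ w ∈ W, B c w = 0) → c = 0
  dec : ∀ u, ∃ c, g • c = c ∧ ∃ w ∈ W, u = c + w
  nW : Nat.card W ≠ 2 ∧ Nat.card W ≠ 8
  nC : {u : V | g • u = u}.ncard ≠ 2 ∧ {u : V | g • u = u}.ncard ≠ 8

theorem split (h : SP B Sg) {g : Gm V} (hg : Pres B Sg g) {k : ℕ} (hk : Odd k) (e : g ^ k = 1) : ∃ W, Sp B g W := by
  obtain ⟨e, e1, e2, -, e4, e5⟩ := avg h.two hk e
  replace e5 := e5 B h.add h.symm hg.1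
  have r : (e.range : Set V) = {u : V | g • u = u} := Set.ext fun u =>
    ⟨by rintro ⟨v, rfl⟩; exact e1 v, fun k => ⟨u, e2 u k⟩⟩
  have k : ∀ u, u - e u ∈ e.ker := fun u => by rw [AddMonoidHom.mem_ker, map_sub, e2 _ (e1 u), sub_self]
  have n1 : ∀ c ∈ e.ker, (∀ w ∈ e.ker, B c w = 0) → c = 0 := fun c hc a => h.nd c fun u => by
    rw [← sub_add_cancel u (e u), h.add', a _ (k u), ← e5, show e c = 0 from hc, h.zero, add_zero]
  have n2 : ∀ c ∈ e.range, (∀ w ∈ e.range, B c w = 0) → c = 0 := fun c hc a => h.nd c fun u => by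
    rw [← e2 c (r.le hc), e5, a _ ⟨u, rfl⟩]
  have c := e.ker.card_mul_index
  have c' : Nat.card e.range = {u : V | g • u = u}.ncard := by rw [← r, ← Nat.card_coe_set_eq]; rfl
  rw [AddSubgroup.index_ker, c', mul_comm] at c
  refine ⟨e.ker, c, fun w hw a => (e2 w a).symm.trans hw, fun s a w hw => ?_, n1,
    fun u => ⟨_, e1 u, _, k u, by abel⟩, not_or.1 fun a => ?_, c' ▸ not_or.1 fun a => ?_⟩
  · rw [AddMonoidHom.mem_ker, e4 s a, show e w = 0 from hw, smul_zero]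
  · obtain ⟨c, hc, c0, b⟩ := h.alt28 _ a
    exact c0 (n1 c hc b)
  · obtain ⟨c, hc, c0, b⟩ := h.alt28 _ a
    exact c0 (n2 c hc b)

theorem one {A : Set V} (h0 : 0 ∈ A) (h : ∀ a ∈ A, a = 0) : A.ncard = 1 :=
  Set.ncard_eq_one.2 ⟨0, Set.eq_singleton_iff_unique_mem.2 ⟨h0, h⟩⟩

theorem one' {A : Set V} (h0 : 0 ∈ A) (h : A.ncard = 1) {a : V} (ha : a ∈ A) : a = 0 := by
  obtain ⟨b, rfl⟩ := Set.ncard_eq_one.1 h
  exact ha.trans h0.symm

theorem none {A : Set V} (h : ∀ a ∈ A, False) : A.ncard = 0 := by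
  rw [Set.eq_empty_of_forall_notMem h, Set.ncard_empty]

theorem Sp.triv {g t : Gm V} {W : AddSubgroup V} (s : Sp B g W) (h1 : ∀ c : V, g • c = c → t • c = c)
    (h2 : ∀ w ∈ W, t • w = w) : t = 1 := gm_ext fun u => by
  obtain ⟨c, hc, w, hw, rfl⟩ := s.dec u
  rw [smul_add, h1 c hc, h2 w hw, one_smul]

theorem pick (W : AddSubgroup V) (l : List V) (h : l.length < Nat.card W) : ∃ c ∈ W, c ∉ l := by
  classical
  by_contra! k
  have := Set.ncard_le_ncard (show (W : Set V) ⊆ l.toFinset from fun c hc => by simpa using k c hc)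
  rw [Set.ncard_coe_finset, ← Nat.card_coe_set_eq] at this
  exact (this.trans l.toFinset_card_le).not_gt h

end L2

open L2

theorem SP.prime (h : SP B Sg) {g : Gm V} (hg : Pres B Sg g) {p : ℕ} (hp : p.Prime) (h2 : p ≠ 2)
    (ho : orderOf g = p) : p = 3 ∨ (p = 5 ∧ 16 * {u : V | g • u = u}.ncard = Nat.card V) := by
  have e : g ^ p = 1 := ho ▸ pow_orderOf_eq_one g
  obtain ⟨W, s⟩ := split h hg (hp.odd_of_ne_two h2) e
  have c1 := cnt hp e W (s.inv g rfl)
  rw [one (A := {a | a ∈ (W : Set V) ∧ g • a = a}) ⟨W.zero_mem, smul_zero g⟩ fun a ha => s.fix a ha.1 ha.2, ← Nat.card_coe_set_eq]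
    at c1
  replace c1 : p ∣ Nat.card W - 1 := (Nat.modEq_iff_dvd' Nat.card_pos).1 c1.symm
  have c2 : Nat.card W ≠ 1 := fun a => hp.one_lt.ne' (by
    rw [← ho, s.triv (t := g) (fun _ => id) fun w hw => by
      rw [show w = 0 from (AddSubgroup.card_eq_one.1 a).le hw, smul_zero], orderOf_one])
  have d3 : p ∣ 3 → p = 3 := (Nat.prime_dvd_prime_iff_eq hp Nat.prime_three).1
  have d5 : p ∣ 5 → p = 5 := (Nat.prime_dvd_prime_iff_eq hp Nat.prime_five).1
  have c3 := s.card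
  have c4 := s.nW
  have c5 := s.nC
  have c6 : {u : V | g • u = u}.ncard = 1 → Nat.card V = 64 → p = 3 := fun a b => by
    obtain ⟨-, k, k0⟩ := h.card.resolve_left (by omega)
    have := cnt hp e Sg hg.2
    rw [k, none (A := {a | a ∈ Sg ∧ g • a = a}) fun x hx => k0 (one' (A := {u : V | g • u = u}) (smul_zero g) a hx.2 ▸ hx.1)] at this
    exact d3 (hp.dvd_of_dvd_pow (n := 3) ((Nat.modEq_zero_iff_dvd).1 this))
  have c7 : Nat.card V = 16 ∨ Nat.card V = 64 := h.card.imp_right And.left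
  obtain ⟨i, hi, c8⟩ := (Nat.dvd_prime_pow Nat.prime_two).1 (show Nat.card W ∣ 2 ^ 6 from
    (Dvd.intro_left _ c3).trans (by rcases c7 with a | a <;> rw [a] <;> decide))
  rw [c8] at c1 c2 c3 c4
  interval_cases i
  · omega
  · omega
  · exact .inl (d3 c1)
  · omega
  · exact ((Nat.Prime.dvd_mul hp (m := 3) (n := 5)).1 c1).imp d3 fun a => ⟨d5 a, by omega⟩
  · omega
  · exact .inl (c6 (by omega) (by omega))

theorem SP.five (h : SP B Sg) {f : Gm V} (hf : Pres B Sg f) (h5 : orderOf f = 5) :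
    16 * {u : V | f • u = u}.ncard = Nat.card V ∧ ∃ W, Sp B f W ∧ Nat.card W = 16 := by
  obtain ⟨-, c⟩ := (h.prime hf Nat.prime_five (by decide) h5).resolve_left (by decide)
  obtain ⟨W, s⟩ := split h hf (k := 5) (by decide) (h5 ▸ pow_orderOf_eq_one f)
  have := s.card
  have : 0 < Nat.card V := Nat.card_pos
  refine ⟨c, W, s, Nat.eq_of_mul_eq_mul_left (show 0 < {u : V | f • u = u}.ncard by omega) (by omega)⟩

theorem SP.no15 (h : SP B Sg) {f t : Gm V} (hf : Pres B Sg f) (ht : Pres B Sg t)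
    (h5 : orderOf f = 5) (h3 : orderOf t = 3) (hc : f * t = t * f) : False := by
  obtain ⟨c, W, s, cW⟩ := h.five hf h5
  have f5 : f ^ 5 = 1 := h5 ▸ pow_orderOf_eq_one f
  have t3 : t ^ 3 = 1 := h3 ▸ pow_orderOf_eq_one t
  have cm : ∀ u : V, t • f • u = f • t • u := fun u => by rw [← mul_smul, ← hc, mul_smul]
  have tW := s.inv t hc.symm
  have fW := s.inv f rfl
  have cW' : (W : Set V).ncard = 16 := (Nat.card_coe_set_eq _).symm.trans cW
  have a1 := cnt Nat.prime_three t3 W tW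
  have a2 := cnt Nat.prime_five f5 {a | a ∈ (W : Set V) ∧ t • a = a} fun a ha => ⟨fW a ha.1, by rw [cm, ha.2]⟩
  rw [one (A := {a | a ∈ {a | a ∈ (W : Set V) ∧ t • a = a} ∧ f • a = a}) ⟨⟨W.zero_mem, smul_zero t⟩, smul_zero f⟩
    fun a ha => s.fix a ha.1.1 ha.2] at a2
  have a3 : {a | a ∈ (W : Set V) ∧ t • a = a} ⊆ W := fun a ha => ha.1
  have a4 := Set.ncard_le_ncard a3
  rw [cW', Nat.ModEq] at a1
  rw [Nat.ModEq] at a2
  rcases (by omega : {a | a ∈ (W : Set V) ∧ t • a = a}.ncard = 1 ∨ 16 ≤ {a | a ∈ (W : Set V) ∧ t • a = a}.ncard) with k | k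
  · have k' : ∀ w ∈ W, t • w = w → w = 0 := fun w hw e =>
      one' (A := {a | a ∈ (W : Set V) ∧ t • a = a}) ⟨W.zero_mem, smul_zero t⟩ k ⟨hw, e⟩
    have tt : ∀ w ∈ W, t • t • w = w + t • w := fun w hw => by
      have := k' (w + t • w + t • t • w) (W.add_mem (W.add_mem hw (tW w hw)) (tW _ (tW w hw))) (by
        rw [smul_add, smul_add, ← mul_smul t t (t • w), ← mul_smul (t * t), ← pow_three', t3, one_smul]; abel)
      rw [← neg_eq_iff_add_eq_zero] at this
      rw [← this, neg_eq_iff_add_eq_zero, h.two]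
    have Q : ∀ w ∈ W, ∀ w', B (w + w') (t • (w + w')) = B w (t • w) + B w' (t • w') + B w w' := fun w hw w' => by
      have : B w' (t • w) = B w (t • w') + B w w' := by rw [h.symm, ← ht.1, tt w hw, h.add, ht.1]
      rw [smul_add, h.add, h.add', h.add', this]
      generalize B w (t • w') = x
      have : x + x = 0 := by revert x; decide
      linear_combination this
    have b0 : B 0 (t • 0) ≠ 1 := by rw [h.zero]; decide
    have b1 := cnt Nat.prime_three t3 {a | a ∈ W ∧ B a (t • a) = 1} fun a ha => ⟨tW a ha.1, by rw [ht.1, ha.2]⟩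
    have b2 := cnt Nat.prime_five f5 {a | a ∈ W ∧ B a (t • a) = 1} fun a ha => ⟨fW a ha.1, by rw [cm, hf.1, ha.2]⟩
    rw [none (A := {a | a ∈ {a | a ∈ W ∧ B a (t • a) = 1} ∧ t • a = a}) fun a ha => b0 (k' a ha.1.1 ha.2 ▸ ha.1.2),
      Nat.ModEq] at b1
    rw [none (A := {a | a ∈ {a | a ∈ W ∧ B a (t • a) = 1} ∧ f • a = a}) fun a ha => b0 (s.fix a ha.1.1 ha.2 ▸ ha.1.2),
      Nat.ModEq] at b2
    have b3 : {a | a ∈ W ∧ B a (t • a) = 1} ⊆ (W : Set V) \ {0} := fun a ha => ⟨ha.1, fun e => b0 (e ▸ ha.2)⟩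
    have b4 := Set.ncard_le_ncard b3
    have b5 := Set.ncard_diff_singleton_of_mem (s := (W : Set V)) W.zero_mem
    obtain ⟨a, ha, a0⟩ := pick W [0] (by simp [cW])
    rcases (by omega : {a | a ∈ W ∧ B a (t • a) = 1}.ncard = 0 ∨ 15 ≤ {a | a ∈ W ∧ B a (t • a) = 1}.ncard) with m | m
    · have q : ∀ w ∈ W, B w (t • w) = 0 := fun w hw => by_contra fun e =>
        (Set.ncard_eq_zero (Set.toFinite _)).1 m |>.le ⟨hw, L1.z2 _ e⟩
      refine a0 (List.mem_singleton.2 (s.nd a ha fun w hw => ?_))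
      have := Q a ha w
      rwa [q _ (W.add_mem ha hw), q a ha, q w hw, add_zero, zero_add, eq_comm] at this
    · have q : ∀ w ∈ W, w ≠ 0 → B w (t • w) = 1 := fun w hw e =>
        ((Set.eq_of_subset_of_ncard_le b3 (by omega)).ge ⟨hw, e⟩).2
      have ne : ∀ {x y : V}, x ≠ y → x + y ≠ 0 := fun {x y} n e => n (by
        rw [← add_zero x, ← h.two y, ← add_assoc, e, zero_add])
      have q' : ∀ x ∈ W, ∀ y ∈ W, x ≠ 0 → y ≠ 0 → x ≠ y → B x y = 1 := fun x hx y hy x0 y0 n => by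
        have := Q x hx y
        rw [q _ (W.add_mem hx hy) (ne n), q x hx x0, q y hy y0] at this
        revert this
        generalize B x y = z
        revert z; decide
      obtain ⟨b, hb, b0⟩ := pick W [0, a] (by simp [cW])
      obtain ⟨d, hd, d0⟩ := pick W [0, a, b, a + b] (by simp [cW])
      simp only [List.mem_cons, List.not_mem_nil, or_false, not_or] at a0 b0 d0
      have := h.add' d a b
      rw [q' d hd a ha d0.1 a0 d0.2.1, q' d hd b hb d0.1 b0.1 d0.2.2.1,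
        q' d hd _ (W.add_mem ha hb) d0.1 (ne (Ne.symm b0.2)) d0.2.2.2] at this
      exact absurd this (by decide)
  · have k' : ∀ w ∈ W, t • w = w := fun w hw => ((Set.eq_of_subset_of_ncard_le a3 (by omega)).ge hw).2
    have tC : ∀ a ∈ {u : V | f • u = u}, t • a ∈ {u : V | f • u = u} := fun a ha => (cm a).symm.trans (congrArg _ ha)
    have b1 := cnt Nat.prime_three t3 _ tC
    have b2 : {a | a ∈ {u : V | f • u = u} ∧ t • a = a} ⊆ {u : V | f • u = u} := fun a ha => ha.1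
    have b3 := Set.ncard_lt_ncard (b2.ssubset_of_ne fun e => by
      rw [s.triv (t := t) (fun c hc => (e.ge hc).2) k', orderOf_one] at h3; omega)
    have b4 : 0 ∈ {a | a ∈ {u : V | f • u = u} ∧ t • a = a} := ⟨smul_zero f, smul_zero t⟩
    have b5 := Set.ncard_pos (Set.toFinite _) |>.2 ⟨_, b4⟩
    obtain ⟨v, m, m0⟩ := h.card.resolve_left (by omega)
    have b6 := cnt Nat.prime_five f5 Sg hf.2
    have b7 := cnt Nat.prime_three t3 {a | a ∈ Sg ∧ f • a = a} fun a ha => ⟨ht.2 a ha.1, tC a ha.2⟩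
    have b8 := Set.ncard_le_ncard (show {a | a ∈ Sg ∧ f • a = a} ⊆ {u : V | f • u = u} from fun a ha => ha.2)
    rw [Nat.ModEq] at b1 b6 b7
    rw [none (A := {a | a ∈ {a | a ∈ Sg ∧ f • a = a} ∧ t • a = a}) fun a ha =>
      m0 (one' b4 (by omega) ⟨ha.1.2, ha.2⟩ ▸ ha.1.1)] at b7
    omega

theorem SP.no25 (h : SP B Sg) (P : Subgroup (Gm V)) (hP : ∀ g ∈ P, Pres B Sg g)
    (hc : Nat.card P = 25) : False := by
  have := Fact.mk Nat.prime_five
  have cm : ∀ a ∈ P, ∀ b ∈ P, a * b = b * a := fun a ha b hb => congrArg Subtype.val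
    (IsPGroup.commutative_of_card_eq_prime_sq (p := 5) hc (⟨a, ha⟩ : P) ⟨b, hb⟩)
  obtain ⟨f, h5⟩ := exists_prime_orderOf_dvd_card' (G := P) 5 (by rw [hc]; decide)
  rw [← orderOf_coe] at h5
  obtain ⟨-, W, s, cW⟩ := h.five (hP _ f.2) h5
  obtain ⟨w, hw, w0⟩ := pick W [0] (by simp [cW])
  obtain ⟨x, hx, x1, e⟩ : ∃ x ∈ P, x ≠ 1 ∧ x • w = w := by
    by_contra! k
    have := Nat.card_le_card_of_injective (fun x : P => (⟨(x : Gm V) • w, s.inv _ (cm _ x.2 _ f.2) w hw⟩ : W))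
      fun a b e => Subtype.ext (inv_mul_eq_one.1 (by_contra fun n => k _ (P.mul_mem (P.inv_mem a.2) b.2) n (by
        rw [mul_smul, inv_smul_eq_iff]; exact (congrArg Subtype.val e).symm)))
    omega
  have d : 5 ∣ orderOf x := by
    obtain ⟨i, -, k⟩ := (Nat.dvd_prime_pow Nat.prime_five (m := 2)).1 (show orderOf x ∣ 25 from hc ▸ orderOf_dvd_natCard P hx)
    exact k ▸ dvd_pow_self 5 fun a => x1 (orderOf_eq_one_iff.1 (by rw [k, a, pow_zero]))
  have m := P.pow_mem hx (orderOf x / 5)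
  have e' : x ^ (orderOf x / 5) • w = w := pow_mem (show x ∈ MulAction.stabilizer (Gm V) w from e) _
  obtain ⟨c, -⟩ := h.five (hP _ m) (orderOf_pow_orderOf_div (orderOf_pos x).ne' d)
  generalize x ^ (orderOf x / 5) = y at *
  have b1 := cnt Nat.prime_five (h5 ▸ pow_orderOf_eq_one (f : Gm V)) {u : V | y • u = u} fun a ha => by
    rw [Set.mem_setOf_eq, ← mul_smul, cm y m _ f.2, mul_smul, ha]
  have b2 : {a | a ∈ {u : V | y • u = u} ∧ (f : Gm V) • a = a} ⊆ {u : V | y • u = u} := fun a ha => ha.1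
  have b3 := Set.ncard_le_ncard b2
  have b4 : Nat.card V = 16 ∨ Nat.card V = 64 := h.card.imp_right And.left
  rw [Nat.ModEq] at b1
  exact w0 (List.mem_singleton.2 (s.fix w hw ((Set.eq_of_subset_of_ncard_le b2 (by omega)).ge e').2))

end CF.C3c
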