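import Cfsg.Agent.C3c.Gs

/-! The quotient by the scalars as an additive group. -/

set_option autoImplicit false
set_option linter.unusedSectionVars false

namespace CF.C3c

open Subgroup

universe u

variable {F V : Type u} [Field F] [Finite F] [AddCommGroup V] [Finite V] [Module F V]
  {G E X : Subgroup (Gm V)} {n r : ℕ} {a b c e s t x y : Gm V} {v w : V}

theorem Val.exU (h : Val F E r) : ∃ (U : Type u) (_ : AddCommGroup U) (_ : Finite U) (q : Gm V → U)
    (ρ : NN F E →* Gm U), UQ F E q ρ := by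
  classical
  let N : Subgroup E := (Zs F V).subgroupOf E
  have hN : N.Normal := ⟨fun z hz g => by
    have h1 : (g : Gm V) * z * (g : Gm V)⁻¹ = z := by
      rw [← Zs_comm (mem_subgroupOf.1 hz) (h.lin g.2), mul_inv_cancel_right]
    exact mem_subgroupOf.2 (by rw [Subgroup.coe_mul, Subgroup.coe_mul, Subgroup.coe_inv, h1]; exact hz)⟩
  let _ : CommGroup (E ⧸ N) :=
    { (inferInstance : Group (E ⧸ N)) with
      mul_comm := fun p q => by
        induction p using QuotientGroup.induction_on with | H a => ?_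
        induction q using QuotientGroup.induction_on with | H b => ?_
        rw [← QuotientGroup.mk_mul, ← QuotientGroup.mk_mul, QuotientGroup.eq]
        have := h.comm _ (E.inv_mem b.2) _ (E.inv_mem a.2)
        refine mem_subgroupOf.2 ?_
        simpa [mul_assoc] using this }
  let cj : NN F E → E →* E := fun t =>
    MonoidHom.mk' (fun a => ⟨t * a * (t : Gm V)⁻¹, NN.conj t.2 a.2⟩) fun a b =>
      Subtype.ext (by simp only [Subgroup.coe_mul]; group)
  let ac : NN F E → E ⧸ N →* E ⧸ N := fun t =>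
    QuotientGroup.map N N (cj t) fun z hz => NN.conjZ t.2 (mem_subgroupOf.1 hz)
  let φ : NN F E →* AddMonoid.End (Additive (E ⧸ N)) :=
    { toFun := fun t => MonoidHom.toAdditive (ac t)
      map_one' := AddMonoidHom.ext fun p => by
        induction p using QuotientGroup.induction_on with | H a => ?_
        change ((cj 1 a : E) : E ⧸ N) = (a : E ⧸ N)
        exact congrArg _ (Subtype.ext (by simp [cj]))
      map_mul' := fun s t => AddMonoidHom.ext fun p => by
        induction p using QuotientGroup.induction_on with | H a => ?_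
        change ((cj (s * t) a : E) : E ⧸ N) = ((cj s (cj t a) : E) : E ⧸ N)
        exact congrArg _ (Subtype.ext (by simp [cj, mul_assoc])) }
  refine ⟨Additive (E ⧸ N), inferInstance, inferInstance,
    fun a => if ha : a ∈ E then Additive.ofMul ((⟨a, ha⟩ : E) : E ⧸ N) else 0, φ.toHomUnits,
    fun a ha b hb => ?_, fun a ha => ?_, fun p => ?_, fun t a ha => ?_, rfl⟩
  · rw [dif_pos ha, dif_pos hb, dif_pos (E.mul_mem ha hb)]
    rfl
  · rw [dif_pos ha]
    exact QuotientGroup.eq_one_iff (N := N) _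
  · induction p using QuotientGroup.induction_on with | H a => ?_
    exact ⟨a, a.2, by rw [dif_pos a.2]; rfl⟩
  · rw [dif_pos ha, dif_pos (NN.conj t.2 ha)]
    rfl

section

variable {U : Type u} [AddCommGroup U] {q : Gm V → U} {ρ : NN F E →* Gm U}

theorem UQ.one (hU : UQ F E q ρ) : q 1 = 0 := (hU.zero 1 E.one_mem).2 (one_mem _)

theorem UQ.inv (hU : UQ F E q ρ) (ha : a ∈ E) : q a⁻¹ = -q a := by
  rw [eq_neg_iff_add_eq_zero, ← hU.add _ (E.inv_mem ha) _ ha, inv_mul_cancel, hU.one]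

theorem UQ.eq_iff (hU : UQ F E q ρ) (ha : a ∈ E) (hb : b ∈ E) : q a = q b ↔ a * b⁻¹ ∈ Zs F V := by
  rw [← hU.zero _ (E.mul_mem ha (E.inv_mem hb)), hU.add _ ha _ (E.inv_mem hb), hU.inv hb,
    ← sub_eq_add_neg, sub_eq_zero]

theorem UQ.bt_congr (hU : UQ F E q ρ) (h : Val F E r) {a' b' : Gm V} (ha : a ∈ E) (hb : b ∈ E)
    (ha' : a' ∈ E) (hb' : b' ∈ E) (h1 : q a = q a') (h2 : q b = q b') : bt F a b = bt F a' b' := by
  have h3 := (hU.eq_iff ha ha').1 h1
  have h4 := (hU.eq_iff hb hb').1 h2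
  rw [← inv_mul_cancel_right a a', mul_assoc, ← mul_assoc a, h.bt_mul_left (h.zle h3) ha' hb,
    h.bt_Z_left h3 hb, one_mul, ← inv_mul_cancel_right b b', mul_assoc, ← mul_assoc b,
    h.bt_mul_right ha' (h.zle h4) hb', h.bt_Z_right ha' h4, one_mul]

theorem UQ.spl_congr (hU : UQ F E q ρ) (ha : a ∈ E) (hb : b ∈ E) (h1 : q a = q b) (hs : Spl F b) :
    Spl F a := by
  obtain ⟨μ, hμ⟩ := (hU.eq_iff ha hb).1 h1
  have := hs.sc_mul μ
  rwa [hμ, inv_mul_cancel_right] at this

theorem Val.exB (h : Val F E 2) (hU : UQ F E q ρ) :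
    ∃ B : U → U → ZMod 2, (∀ a ∈ E, ∀ b ∈ E, B (q a) (q b) = 0 ↔ bt F a b = 1) ∧
      (∀ a : U, a + a = 0) ∧ (∀ a b c, B (a + b) c = B a c + B b c) ∧ (∀ a b, B a b = B b a) ∧
      (∀ a, B a a = 0) ∧ (∀ a, (∀ b, B a b = 0) → a = 0) ∧
      ∀ (t : NN F E) (a b : U), B (ρ t • a) (ρ t • b) = B a b := by
  classical
  choose f hf hq using hU.surj
  let B : U → U → ZMod 2 := fun p p' => if bt F (f p) (f p') = 1 then 0 else 1
  have hB : ∀ a ∈ E, ∀ b ∈ E, B (q a) (q b) = if bt F a b = 1 then 0 else 1 := fun a ha b hb => by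
    simp only [B, hU.bt_congr h (hf _) (hf _) ha hb (hq _) (hq _)]
  have h0 : ∀ a ∈ E, ∀ b ∈ E, B (q a) (q b) = 0 ↔ bt F a b = 1 := fun a ha b hb => by
    rw [hB a ha b hb]
    split_ifs with h1 <;> simp [h1]
  refine ⟨B, h0, fun p => ?_, fun p p' p'' => ?_, fun p p' => ?_, fun p => ?_, fun p hp => ?_,
    fun t p p' => ?_⟩
  · rw [← hq p, ← hU.add _ (hf p) _ (hf p), hU.zero _ (E.mul_mem (hf p) (hf p)), ← pow_two]
    exact h.pow _ (hf p)
  · rw [← hq p, ← hq p', ← hq p'', ← hU.add _ (hf p) _ (hf p'), hB _ (E.mul_mem (hf p) (hf p')) _ (hf _),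
      hB _ (hf _) _ (hf _), hB _ (hf _) _ (hf _), h.bt_mul_left (hf _) (hf _) (hf _)]
    have hn := h.neg_ne
    rcases h.bt_two (hf p) (hf p'') with h1 | h1 <;> rcases h.bt_two (hf p') (hf p'') with h2 | h2 <;>
      simp [h1, h2, hn]
    rfl
  · simp only [B, h.bt_one_comm (hf p) (hf p')]
  · simp only [B, h.bt_self (hf p), if_true]
  · rw [← hq p, hU.zero _ (hf p)]
    refine h.nd _ (hf p) fun b hb => (h.bt_one (hf p) hb).1 ((h0 _ (hf p) b hb).1 ?_)
    rw [hq, hp]
  · rw [← hq p, ← hq p', hU.act t _ (hf p), hU.act t _ (hf p'),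
      hB _ (NN.conj t.2 (hf p)) _ (NN.conj t.2 (hf p')), hB _ (hf p) _ (hf p'),
      h.bt_conj_two t.2 (hf p) (hf p')]

end

end CF.C3c
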