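import Cfsg.Agent.C3c.J3
import Cfsg.Agent.C3c.U
import Cfsg.Agent.C3c.B
import Cfsg.Agent.C3c.C
import Cfsg.Agent.C3c.E
import Cfsg.Agent.C3c.D
import Cfsg.Agent.C3c.Dl
import Cfsg.Agent.C3c.H2
import Cfsg.Agent.C3c.I
import Cfsg.Agent.C3c.K3

/-! The 3-closure of a solvable permutation group: assembly. -/

set_option autoImplicit false
set_option linter.unusedSectionVars false

namespace CF.C3c

open Subgroup

universe u

section

variable {F V : Type u} [Field F] [Finite F] [AddCommGroup V] [Finite V] [Module F V]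
  {G E X : Subgroup (Gm V)} {n r : ℕ} {a b c e s t x y : Gm V} {v w : V}

theorem M.triv (hP : PP.{u} n) (hV : Nat.card V ≤ n) [Group.IsSolvable G] (hv : Val F E r)
    (hN : cl2 G ≤ NN F E) (ho : Ok F E r ∨ (Zs F V).relIndex E ≤ 4)
    [Group.IsPerfect X] (hX : X ≤ cl2 G) : ∀ g ∈ X, ∀ e ∈ E, g * e * g⁻¹ * e⁻¹ ∈ Zs F V := by
  obtain ⟨U, _, _, q, ρ, hU⟩ := hv.exU
  let X' := (ρ.comp (inclusion (hX.trans hN))).range
  have hX' : Group.IsPerfect X' := Group.IsPerfect.range _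
  have key : (∀ x : X', ∀ p : U, x • p = p) → ∀ g ∈ X, ∀ e ∈ E, g * e * g⁻¹ * e⁻¹ ∈ Zs F V := by
    intro h g hg e he
    have ht := hN (hX hg)
    rw [← hU.eq_iff (NN.conj ht he) he]
    exact (hU.act ⟨g, ht⟩ e he).symm.trans (h ⟨ρ ⟨g, ht⟩, ⟨g, hg⟩, rfl⟩ (q e))
  rcases ho with ho | ho
  swap
  · refine key fun x p => sec4 (X := X') Set.univ id ?_ (fun y _ _ => ⟨trivial, fun _ _ h => ?_⟩) x p
      trivial
    · rwa [Set.image_id, Set.ncard_univ, hU.card]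
    · exact congrArg (y • ·) h
  by_cases hx : r = 2 ∧ ∃ x y, Exc F E x y
  · obtain ⟨rfl, x, y, hx⟩ := hx
    exact hx.triv hv ho hN hX
  have hg : ∀ x ∈ E, x ∉ Zs F V → Spl F x → ∃ v, Gen F E x v := fun x h1 h2 h3 =>
    hv.exGen (fun h4 x y h5 => hx ⟨h4, x, y, h5⟩) h1 h2 h3
  obtain ⟨x₀, h1, h2, h3⟩ := hv.ex_spl ho
  obtain ⟨v₀, h4⟩ := hg x₀ h1 h2 h3
  let G' := (ρ.comp (inclusion ((le_cl2 G).trans hN))).range
  have hG' : Group.IsSolvable G' :=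
    Group.isSolvable_of_surjective (MonoidHom.rangeRestrict_surjective _)
  have hb : X' = ⊥ := by
    refine linS hP G' X' (hU.card ▸ (hv.card_lt h1 h4).trans_le hV) ?_
    rintro _ ⟨x, rfl⟩ p p'
    obtain ⟨a, ha, rfl⟩ := hU.surj p
    obtain ⟨b, hb, rfl⟩ := hU.surj p'
    obtain ⟨v, w, hp⟩ := hv.pin ho hg ha hb
    obtain ⟨g, hg, h5, h6⟩ := hX x.2 v w
    have hx := hN (hX x.2)
    have hg' := hN (le_cl2 G hg)
    have ht := mul_mem (inv_mem hg') hx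
    refine ⟨ρ ⟨g, hg'⟩, ⟨⟨g, hg⟩, rfl⟩, ?_⟩
    have e1 : ∀ a ∈ E, (ρ.comp (inclusion (hX.trans hN))) x • q a =
        ρ ⟨g, hg'⟩ • q (g⁻¹ * x * a * (g⁻¹ * x)⁻¹) := fun a ha => by
      rw [hU.act ⟨g, hg'⟩ _ (NN.conj ht ha)]
      refine (hU.act ⟨x, hx⟩ a ha).trans (congrArg q ?_)
      change _ = g * _ * g⁻¹
      group
    have e2 : ∀ a ∈ E, g⁻¹ * x * a * (g⁻¹ * x)⁻¹ * a⁻¹ ∈ Zs F V →
        ρ ⟨g, hg'⟩ • q a = (ρ.comp (inclusion (hX.trans hN))) x • q a := fun a ha h => by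
      rw [e1 a ha, (hU.eq_iff (NN.conj ht ha) ha).2 h]
    have e3 : ∀ a ∈ E, g⁻¹ * x * a * (g⁻¹ * x)⁻¹ * a ∈ Zs F V →
        ρ ⟨g, hg'⟩ • q a = -((ρ.comp (inclusion (hX.trans hN))) x • q a) := fun a ha h => by
      rw [e1 a ha, (hU.eq_iff (NN.conj ht ha) (E.inv_mem ha)).2 (by rwa [inv_inv]), hU.inv ha,
        smul_neg, neg_neg]
    exact (hp _ ht (by rw [mul_smul, ← h5, inv_smul_smul]) (by rw [mul_smul, ← h6, inv_smul_smul])).imp
      (fun h => ⟨e2 a ha h.1, e2 b hb h.2⟩) fun h => ⟨e3 a ha h.1, e3 b hb h.2⟩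
  refine key fun x p => ?_
  have : (x : Gm U) = 1 := mem_bot.1 (hb ▸ x.2)
  change (x : Gm U) • p = p
  rw [this, one_smul]

theorem Fl.step2 (hP : PP.{u} n) (hV : Nat.card V ≤ n) (h : Fl F G) (hv : Val F E r)
    (hE : cl2 G ≤ normalizer (E : Set (Gm V))) (ho : Ok F E r ∨ (Zs F V).relIndex E ≤ 4)
    [Group.IsPerfect X] (hX : X ≤ cl2 G) : X = ⊥ := by
  have := h.sol
  have h1 := M.triv hP hV hv (le_inf hE h.cl_nz) ho hX
  refine ce hP hV G E X h.irr ((le_cl2 G).trans hE) ?_ hX fun x hx e he =>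
    cent_of_Z (perf_lin (hX.trans h.cl_nz)) (fun x hx => h1 x hx e he) x hx
  by_contra hn
  push Not at hn
  exact hv.ne fun a ha => hv.nd a ha (hn a ha)

theorem Fl.lt (hP : PP.{u} n) (hV : Nat.card V ≤ n) (h : Fl F G) [Group.IsPerfect X]
    (hX : X ≤ cl2 G) : X = ⊥ := by
  by_cases h0 : G ⊓ Ln F V ≤ Zs F V
  · exact perf_Z ((le_inf hX (perf_lin (hX.trans h.cl_nz))).trans (h.case0 h0))
  · obtain ⟨E, r, hv, hE, ho⟩ := h.step1 hP hV h0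
    exact h.step2 hP hV hv hE ho hX

end

theorem ap {n : ℕ} (hP : PP.{u} n) : AP.{u} n := by
  intro V X _ _ _ _ _ G₀ hV hs hI hX ha
  obtain ⟨G, hle, hG, hc⟩ := struct G₀ hI
  have ha' : ∀ x : X, Af3 G (fun v => x • v) := fun x a b c => by
    obtain ⟨t, g, hg, h⟩ := ha x a b c
    exact ⟨t, g, hle hg, h⟩
  rcases hc with hD | ⟨F, _, _, _, hF⟩
  · exact ham hP hV G hD ha'
  · exact linp G ha' (fun x => aff hF.nz hF.f2 _ (MulAction.injective x) (ha' x))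
      fun Y hY _ => hF.lt hP hV hY

theorem pp (n : ℕ) : PP.{u} n := by
  induction n with
  | zero => exact fun _ _ _ _ _ _ _ _ h => absurd h (Nat.not_lt_zero _)
  | succ n ih => exact pp_step ih (ap ih)

theorem s3621 {Ω : Type*} [Finite Ω] (G : Subgroup (Equiv.Perm Ω)) (hG : Group.IsSolvable ↥G)
    (H : Subgroup (Equiv.Perm Ω))
    (hH : ∀ h ∈ H, ∀ a b c : Ω, ∃ g ∈ G, g a = h a ∧ g b = h b ∧ g c = h c) :
    Group.IsSolvable ↥H := by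
  refine solv_of_perf H fun X hX hp => eq_bot_iff.2 fun x hx => mem_bot.2 (Equiv.ext fun a => ?_)
  refine pp (Nat.card Ω + 1) Ω X G (Nat.lt_succ_self _) hG hp (fun x a b c => ?_) ⟨x, hx⟩ a
  obtain ⟨g, hg, h⟩ := hH x (hX x.2) a b c
  exact ⟨⟨g, hg⟩, h⟩

end CF.C3c
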