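import Cfsg.Agent.C3c.Gi

/-! Semilinear maps. -/

set_option autoImplicit false
set_option linter.unusedSectionVars false

namespace CF.C3c

open Subgroup
open scoped commutatorElement

universe u

theorem sq_top {X : Type*} [Group X] [Group.IsPerfect X] (K : Subgroup X) (h : ∀ x, x * x ∈ K) :
    K = ⊤ := by
  rw [eq_top_iff, ← Group.IsPerfect.commutator_eq_top (G := X), commutator_def, commutator_le]
  intro a _ b _
  have : ⁅a, b⁆ = a * a * (a⁻¹ * b * (a⁻¹ * b)) * (b⁻¹ * b⁻¹) := by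
    rw [commutatorElement_def]; group
  rw [this]
  exact K.mul_mem (K.mul_mem (h _) (h _)) (h _)

theorem hom_triv {X A : Type*} [Group X] [Group.IsPerfect X] [CommGroup A] (f : X →* A) (x : X) :
    f x = 1 := by
  have : commutator X ≤ f.ker := Abelianization.commutator_subset_ker f
  exact this Group.IsPerfect.mem_commutator

theorem perf_comm {H : Type*} [Group H] (X : Subgroup H) [Group.IsPerfect X]
    (h : ∀ a ∈ X, ∀ b ∈ X, a * b = b * a) : X = ⊥ := by
  rw [← Subgroup.commutator_eq_self (H := X), eq_bot_iff, commutator_le]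
  intro a ha b hb
  rw [mem_bot, commutatorElement_eq_one_iff_mul_comm, h a ha b hb]

theorem solv_of_perf {H : Type*} [Group H] [Finite H] (N : Subgroup H)
    (h : ∀ X : Subgroup H, X ≤ N → Group.IsPerfect X → X = ⊥) : Group.IsSolvable N := by
  induction N using WellFoundedLT.induction with
  | ind N ih =>
    have hle : ⁅N, N⁆ ≤ N := commutator_le.2 fun a ha b hb => by
      rw [commutatorElement_def]
      exact N.mul_mem (N.mul_mem (N.mul_mem ha hb) (N.inv_mem ha)) (N.inv_mem hb)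
    rcases hle.eq_or_lt with h1 | h1
    · rw [h N le_rfl (Subgroup.isPerfect_iff.2 h1)]
      infer_instance
    · have h2 := ih _ h1 fun X hX => h X (hX.trans hle)
      refine Group.isSolvable_of_ker_le_range (Subgroup.inclusion hle) (Abelianization.of) ?_
      rw [Abelianization.ker_of, Subgroup.inclusion_range]
      intro g hg
      rw [mem_subgroupOf, ← Subgroup.map_subtype_commutator]
      exact ⟨g, hg, rfl⟩

variable {F V : Type u} [Field F] [Finite F] [AddCommGroup V] [Finite V] [Module F V]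
  {G E X : Subgroup (Gm V)} {n r : ℕ} {a b c e s t x y : Gm V} {v w : V}

theorem Sl.ex (ht : t ∈ normalizer (Zs F V : Set (Gm V))) (k : F) :
    ∃ l : F, ∀ v : V, t • k • v = l • t • v := by
  rcases eq_or_ne k 0 with rfl | hk
  · exact ⟨0, fun v => by simp⟩
  · obtain ⟨ν, hν⟩ := (ht (sc F V (Units.mk0 k hk))).1 (sc_mem _)
    refine ⟨ν, fun v => ?_⟩
    rw [← sc_smul, hν]
    simp only [mul_smul, inv_smul_smul, sc_smul, Units.val_mk0]

theorem sl (ht : t ∈ normalizer (Zs F V : Set (Gm V))) :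
    ∃ σ : F ≃+* F, ∀ (k : F) (v : V), t • k • v = σ k • t • v := by
  rcases subsingleton_or_nontrivial V with hV | hV
  · exact ⟨RingEquiv.refl F, fun _ _ => Subsingleton.elim _ _⟩
  obtain ⟨z, hz⟩ := exists_ne (0 : V)
  choose f hf using Sl.ex ht
  have hu : ∀ k l : F, k • t • z = l • t • z → k = l := fun k l h =>
    smul_left_injective F (gm_ne t hz) h
  let φ : F →+* F :=
    { toFun := f
      map_one' := hu _ _ (by rw [← hf, one_smul, one_smul])
      map_mul' := fun k l => hu _ _ (by rw [← hf, mul_smul, hf, hf, mul_smul])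
      map_zero' := hu _ _ (by rw [← hf, zero_smul, zero_smul, smul_zero])
      map_add' := fun k l => hu _ _ (by rw [← hf, add_smul, smul_add, hf, hf, add_smul]) }
  exact ⟨RingEquiv.ofBijective φ (Finite.injective_iff_bijective.1 φ.injective), hf⟩

theorem sl_iff : t ∈ normalizer (Zs F V : Set (Gm V)) ↔
    ∀ k : F, ∃ l : F, ∀ v : V, t • k • v = l • t • v := by
  refine ⟨Sl.ex, fun h => mem_normalizer_fintype ?_⟩
  rintro _ ⟨μ, rfl⟩
  obtain ⟨l, hl⟩ := h μ
  rcases eq_or_ne l 0 with rfl | h0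
  · refine ⟨1, gm_ext fun v => ?_⟩
    have : ∀ v : V, v = 0 := fun v => by
      have h1 := hl v
      rw [zero_smul, smul_eq_zero_iff_eq, smul_eq_zero_iff_right μ.ne_zero] at h1
      exact h1
    rw [this (_ • v), this (_ • v)]
  · refine ⟨Units.mk0 l h0, gm_ext fun v => ?_⟩
    simp only [mul_smul, sc_smul, hl, smul_inv_smul, Units.val_mk0]

theorem Ln_le_nz : Ln F V ≤ normalizer (Zs F V : Set (Gm V)) :=
  fun _ ht => sl_iff.2 fun k => ⟨k, ht k⟩

theorem nz_ln : normalizer (Zs F V : Set (Gm V)) ≤ normalizer (Ln F V : Set (Gm V)) := by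
  intro t ht
  refine mem_normalizer_fintype fun g hg k v => ?_
  obtain ⟨σ, hσ⟩ := sl ht
  have h1 : t⁻¹ • k • v = σ.symm k • t⁻¹ • v := by
    rw [inv_smul_eq_iff, hσ, smul_inv_smul, RingEquiv.apply_symm_apply]
  simp only [mul_smul]
  rw [h1, hg, hσ, RingEquiv.apply_symm_apply]

theorem ln_of_gen {γ : Fˣ} (hγ : ∀ μ : Fˣ, μ ∈ Submonoid.powers γ)
    (h : ∀ v : V, t • (γ : F) • v = (γ : F) • t • v) : t ∈ Ln F V := by
  intro k v
  rcases eq_or_ne k 0 with rfl | hk
  · simp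
  obtain ⟨i, hi⟩ := hγ (Units.mk0 k hk)
  have hk' : k = (γ : F) ^ i := by
    rw [← Units.val_pow_eq_pow_val]; exact (congrArg Units.val hi).symm
  rw [hk']
  clear hi hk'
  induction i generalizing v with
  | zero => simp
  | succ i ih => rw [pow_succ, mul_smul, mul_smul, ih, h]

theorem perf_lin [Group.IsPerfect X] (h : X ≤ normalizer (Zs F V : Set (Gm V))) : X ≤ Ln F V := by
  obtain ⟨γ, hγ⟩ := IsCyclic.exists_monoid_generator (α := Fˣ)
  rw [← Subgroup.commutator_eq_self (H := X), commutator_le]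
  intro a ha b hb
  obtain ⟨σ, hσ⟩ := sl (h ha)
  obtain ⟨τ, hτ⟩ := sl (h hb)
  have key : ∀ ρ : F ≃+* F, ∃ i : ℕ, ρ γ = (γ : F) ^ i := fun ρ => by
    obtain ⟨i, hi⟩ := hγ (Units.mk0 (ρ γ) (by simp))
    exact ⟨i, by rw [← Units.val_pow_eq_pow_val]; exact (congrArg Units.val hi).symm⟩
  obtain ⟨i, hi⟩ := key σ
  obtain ⟨j, hj⟩ := key τ
  have hc : ∀ k : F, σ (τ k) = τ (σ k) := by
    intro k
    rcases eq_or_ne k 0 with rfl | hk
    · simp
    obtain ⟨m, hm⟩ := hγ (Units.mk0 k hk)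
    have hk' : k = (γ : F) ^ m := by
      rw [← Units.val_pow_eq_pow_val]; exact (congrArg Units.val hm).symm
    simp only [hk', map_pow, hi, hj]
    ring
  intro k v
  obtain ⟨l, rfl⟩ := (σ.trans τ).surjective k
  have h1 : a⁻¹ • b⁻¹ • (σ.trans τ) l • v = l • a⁻¹ • b⁻¹ • v := by
    rw [inv_smul_eq_iff, inv_smul_eq_iff, hσ, hτ, smul_inv_smul, smul_inv_smul]; rfl
  simp only [commutatorElement_def, mul_smul]
  rw [h1, hτ, hσ, hc]; rfl

theorem scal (hx : x ∈ Ln F V) (h : ∀ v, Ev F x v) : x ∈ Zs F V := by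
  rcases subsingleton_or_nontrivial V with hV | hV
  · exact ⟨1, gm_ext fun v => Subsingleton.elim _ _⟩
  obtain ⟨z, hz⟩ := exists_ne (0 : V)
  obtain ⟨μ, hμ⟩ := h z
  refine ⟨Units.mk0 μ (ev_ne hz hμ), gm_ext fun v => ?_⟩
  rw [sc_smul, Units.val_mk0]
  obtain ⟨α, hα⟩ := h v
  obtain ⟨β, hβ⟩ := h (z + v)
  rw [smul_add, hμ, hα, smul_add] at hβ
  by_cases h1 : μ = β
  · rw [h1, add_right_inj] at hβ
    rw [hα, hβ, h1]
  · have h2 : z = ((μ - β)⁻¹ * (β - α)) • v := by
      rw [mul_smul, eq_inv_smul_iff₀ (sub_ne_zero.2 h1), sub_smul, sub_smul]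
      linear_combination (norm := module) hβ
    have h3 : (μ - β)⁻¹ * (β - α) ≠ 0 := fun h0 => hz (by rw [h2, h0, zero_smul])
    rw [h2, hx, smul_comm μ] at hμ
    exact (smul_right_injective V h3 hμ).symm

theorem Zs_comm (ha : a ∈ Zs F V) (hb : b ∈ Ln F V) : a * b = b * a := by
  obtain ⟨μ, rfl⟩ := ha
  exact (sc_comm hb μ).symm

theorem perf_Z [Group.IsPerfect X] (h : X ≤ Zs F V) : X = ⊥ :=
  perf_comm X fun _ ha _ hb => Zs_comm (h ha) (Zs_le_Ln (h hb))

theorem cent_of_Z [Group.IsPerfect X] (hX : X ≤ Ln F V) (h : ∀ x ∈ X, x * e * x⁻¹ * e⁻¹ ∈ Zs F V) :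
    ∀ x ∈ X, x * e = e * x := by
  rcases subsingleton_or_nontrivial V with hV | hV
  · exact fun _ _ => gm_ext fun v => Subsingleton.elim _ _
  choose f hf using fun x : X => h x x.2
  have hf' : ∀ x : X, (x : Gm V) * e * (x : Gm V)⁻¹ = sc F V (f x) * e := fun x => by
    rw [hf, inv_mul_cancel_right]
  let φ : X →* Fˣ := MonoidHom.mk' f fun x y => sc_inj (V := V) (mul_right_cancel (b := e) (by
    rw [← hf', mul_comm (f x), map_mul, mul_assoc (sc F V (f y)), ← hf', ← mul_assoc, ← mul_assoc,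
      ← sc_comm (hX x.2), mul_assoc (x : Gm V) (sc F V (f y)), ← hf', Subgroup.coe_mul]
    group))
  intro x hx
  have h1 := hf' ⟨x, hx⟩
  rw [show f ⟨x, hx⟩ = 1 from hom_triv φ _, map_one, one_mul] at h1
  exact mul_inv_eq_iff_eq_mul.1 h1

theorem proj (hs : s ∈ Ln F V) (μ : F) : ∃ P : V →+ V, (∀ v, s • v = μ • v → P v = v) ∧
    ∀ (ν : F) (v : V), ν ≠ μ → s • v = ν • v → P v = 0 := by
  have := Fintype.ofFinite F
  let T : AddMonoid.End V := (s : AddMonoid.End V) - DistribMulAction.toAddMonoidEnd F V μ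
  have hT : ∀ (ν : F) (v : V), s • v = ν • v → ∀ k : ℕ, (T ^ k) v = (ν - μ) ^ k • v := by
    intro ν v hv k
    induction k with
    | zero => simp
    | succ k ih =>
      rw [pow_succ', AddMonoid.End.coe_mul, Function.comp_apply, ih]
      change s • ((ν - μ) ^ k • v) - μ • ((ν - μ) ^ k • v) = _
      rw [hs, hv, pow_succ, smul_comm μ, ← smul_sub, ← sub_smul, mul_smul]
  refine ⟨(1 - T ^ (Fintype.card F - 1) : AddMonoid.End V), fun v hv => ?_, fun ν v h1 hv => ?_⟩
  · change v - (T ^ (Fintype.card F - 1)) v = v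
    rw [hT μ v hv, sub_self, zero_pow (Nat.sub_ne_zero_of_lt Fintype.one_lt_card), zero_smul, sub_zero]
  · change v - (T ^ (Fintype.card F - 1)) v = 0
    rw [hT ν v hv, FiniteField.pow_card_sub_one_eq_one _ (sub_ne_zero.2 h1), one_smul, sub_self]

theorem Ev.conj (ht : t ∈ normalizer (Zs F V : Set (Gm V))) (h : Ev F e v) :
    Ev F (t * e * t⁻¹) (t • v) := by
  rcases eq_or_ne v 0 with rfl | hv
  · exact ⟨1, by simp⟩
  · exact ev_conj_fix ht hv h

theorem Spl.conj (ht : t ∈ normalizer (Zs F V : Set (Gm V))) (h : Spl F e) :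
    Spl F (t * e * t⁻¹) := by
  obtain ⟨v, hv, h⟩ := h
  exact ⟨t • v, gm_ne t hv, h.conj ht⟩

theorem Spl.sc_mul (μ : Fˣ) (h : Spl F e) : Spl F (sc F V μ * e) := by
  obtain ⟨v, hv, h⟩ := h
  exact ⟨v, hv, (ev_sc μ v).mul (Zs_le_Ln (sc_mem μ)) h⟩

end CF.C3c
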